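import Cfsg.Agent.LSO.ApplyPM

/-!
Number of vectors of given norm in minus type.
-/

set_option autoImplicit false
set_option linter.unusedSectionVars false
set_option linter.style.haveILetI false

namespace Cfsg.Agent.LSO

open QuadraticMap Module Cfsg.Agent.OrthCount

variable {F : Type*} [Field F]

/-- similitude -/
noncomputable def simil (m : ℕ) {a b : F} (w : F × F) {c : F} (hw : bin a b w = c) (hc : c ≠ 0) :
    ((Fin m ⊕ Fin m → F) × (F × F)) ≃ ((Fin m ⊕ Fin m → F) × (F × F)) where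
  toFun p := (Sum.elim (fun i => c * p.1 (.inl i)) (fun i => p.1 (.inr i)), mulLin a b w p.2)
  invFun p := (Sum.elim (fun i => c⁻¹ * p.1 (.inl i)) (fun i => p.1 (.inr i)), c⁻¹ • mulLin a b (conjv a w) p.2)
  left_inv p := by
    refine Prod.ext ?_ ?_
    · ext i
      rcases i with i | i
      · change c⁻¹ * (c * p.1 (.inl i)) = p.1 (.inl i)
        rw [inv_mul_cancel_left₀ hc]
      · rfl
    · change c⁻¹ • mulLin a b (conjv a w) (mulLin a b w p.2) = p.2
      rw [mulLin_conjv_mulLin, hw, smul_smul, inv_mul_cancel₀ hc, one_smul]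
  right_inv p := by
    refine Prod.ext ?_ ?_
    · ext i
      rcases i with i | i
      · change c * (c⁻¹ * p.1 (.inl i)) = p.1 (.inl i)
        rw [mul_inv_cancel_left₀ hc]
      · rfl
    · change mulLin a b w (c⁻¹ • mulLin a b (conjv a w) p.2) = p.2
      rw [map_smul, mulLin_mulLin_conjv, hw, smul_smul, inv_mul_cancel₀ hc, one_smul]

theorem hypN_simil (m : ℕ) {a b : F} (w : F × F) {c : F} (hw : bin a b w = c) (hc : c ≠ 0)
    (p : (Fin m ⊕ Fin m → F) × (F × F)) : hypN m (bin a b) (simil m w hw hc p) = c * hypN m (bin a b) p := by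
  rw [hypN_apply, hypN_apply]
  change (∑ i, (c * p.1 (.inl i)) * p.1 (.inr i)) + bin a b (mulLin a b w p.2) = _
  rw [bin_mulLin, hw, mul_add, Finset.mul_sum]
  congr 1
  exact Finset.sum_congr rfl fun i _ => by ring

variable [Fintype F]

theorem card_hypN_eq (m : ℕ) {a b : F} (hab : ∀ z : F × F, bin a b z = 0 → z = 0) {c : F} (hc : c ≠ 0) :
    Nat.card {v // hypN m (bin a b) v = c} = Nat.card {v // hypN m (bin a b) v = 1} := by
  obtain ⟨w, hw⟩ := exists_bin_eq hab hc
  symm
  refine Nat.card_congr (Equiv.subtypeEquiv (simil m w hw hc) fun v => ?_)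
  rw [hypN_simil]
  constructor
  · intro h; rw [h, mul_one]
  · intro h
    apply mul_left_cancel₀ hc
    rw [h, mul_one]

theorem card_value_minus (m : ℕ) {a b : F} (hab : ∀ z : F × F, bin a b z = 0 → z = 0) {c : F} (hc : c ≠ 0) :
    Fintype.card F * Nat.card {v : (Fin m ⊕ Fin m) ⊕ Fin 2 → F // Cfsg.quadFormMinus m F a b v = c} =
      Fintype.card F ^ (2 * m + 2) + Fintype.card F ^ (m + 1) := by
  classical
  have e0 : ∀ c : F, Nat.card {v : (Fin m ⊕ Fin m) ⊕ Fin 2 → F // Cfsg.quadFormMinus m F a b v = c} =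
      Nat.card {v // hypN m (bin a b) v = c} := fun c =>
    Nat.card_congr (Equiv.subtypeEquiv (minusEquiv m).toEquiv (fun v => by
      rw [← formMinus_apply]; rfl))
  have h1 : ∀ d : F, d ≠ 0 → Nat.card {v : (Fin m ⊕ Fin m) ⊕ Fin 2 → F // Cfsg.quadFormMinus m F a b v = d} =
      Nat.card {v : (Fin m ⊕ Fin m) ⊕ Fin 2 → F // Cfsg.quadFormMinus m F a b v = c} := fun d hd => by
    rw [e0, e0, card_hypN_eq m hab hd, card_hypN_eq m hab hc]
  have hz := zeros_minus (F := F) m hab
  rw [Nat.card_eq_fintype_card] at hz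
  have htot : ∑ d : F, Nat.card {v : (Fin m ⊕ Fin m) ⊕ Fin 2 → F // Cfsg.quadFormMinus m F a b v = d} =
      Fintype.card F ^ (2 * m + 2) := by
    have h2 : Fintype.card ((Fin m ⊕ Fin m) ⊕ Fin 2 → F) = Fintype.card F ^ (2 * m + 2) := by
      rw [Fintype.card_fun]
      congr 1
      simp; ring
    rw [← h2, ← Finset.card_univ, Finset.card_eq_sum_card_fiberwise (f := Cfsg.quadFormMinus m F a b) (t := Finset.univ)
      (fun _ _ => Finset.mem_coe.2 (Finset.mem_univ _))]
    refine Finset.sum_congr rfl fun d _ => ?_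
    rw [Nat.card_eq_fintype_card, Fintype.card_subtype]
  rw [← Finset.add_sum_erase _ _ (Finset.mem_univ (0 : F)), Finset.sum_congr rfl fun d hd => h1 d (Finset.ne_of_mem_erase hd),
    Finset.sum_const, Finset.card_erase_of_mem (Finset.mem_univ _), Finset.card_univ, smul_eq_mul] at htot
  set z := Nat.card {v : (Fin m ⊕ Fin m) ⊕ Fin 2 → F // Cfsg.quadFormMinus m F a b v = 0}
  set k := Nat.card {v : (Fin m ⊕ Fin m) ⊕ Fin 2 → F // Cfsg.quadFormMinus m F a b v = c}
  have hq : 1 < Fintype.card F := Fintype.one_lt_card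
  obtain ⟨r, hr⟩ : ∃ r, Fintype.card F = r + 1 := ⟨Fintype.card F - 1, by omega⟩
  rw [hr] at hz htot ⊢
  rw [Nat.add_sub_cancel] at htot
  have hr0 : 0 < r := by omega
  apply Nat.eq_of_mul_eq_mul_left hr0
  have e1 : (r + 1) ^ (m + 2) = (r + 1) * (r + 1) ^ (m + 1) := by rw [← pow_succ']
  rw [e1] at hz
  have h3 : (r + 1) * z + (r + 1) * (r * k) = (r + 1) * (r + 1) ^ (2 * m + 2) := by rw [← htot]; ring
  nlinarith

end Cfsg.Agent.LSO
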