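import Cfsg.Agent.LSO.NS
import Cfsg.Agent.LSO.MinusCount

/-!
The minus type over all finite fields.
-/

set_option autoImplicit false
set_option linter.unusedSectionVars false
set_option linter.style.haveILetI false

namespace Cfsg.Agent.LSO

open QuadraticMap Module Cfsg.Agent.H39 Cfsg.Agent.LSU
open Cfsg.Agent.Orth hiding map_mul
open scoped Classical

variable {F M : Type*} [Field F] [AddCommGroup M] [Module F M] [Fintype F] [Fintype M] [FiniteDimensional F M]
variable {Q : QuadraticForm F M} [Nice Q]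

theorem li_ns {p u : M} (hp : p ≠ 0) (hq : Q p = 0) (hu : Q u ≠ 0) : LinearIndependent F ![p, u] := by
  apply li_pair hp
  intro h3
  obtain ⟨d, rfl⟩ := Submodule.mem_span_singleton.1 h3
  apply hu
  rw [qsmul, hq, mul_zero]

variable {V : Type*} [AddCommGroup V] [Module ℂ V] {ρ : Representation ℂ (Gr Q) V} {ψ : AddChar F ℂ}

theorem finrank_Wt_N {p u p' u' : M} (hp : p ≠ 0) (hq : Q p = 0) (hpu : polar Q p u = 0) (hu : Q u ≠ 0)
    (hp' : p' ≠ 0) (hq' : Q p' = 0) (hpu' : polar Q p' u' = 0) (hu' : Q u' = Q u) :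
    finrank ℂ (Wt ρ ψ p u) = finrank ℂ (Wt ρ ψ p' u') := by
  obtain ⟨g, hg1, hg2⟩ := exists_pair_gen (Q := Q) (li_ns hp hq hu) (li_ns hp' hq' (by rw [hu']; exact hu))
    (by rw [hq, hq']) hu'.symm (by rw [hpu, hpu'])
  exact (conjW hq g hg1 hg2).finrank_eq

variable [FiniteDimensional ℂ V]

/-- lower bound from two families of weights -/
theorem card_le_two (hψ : ψ ≠ 0) {p : M} (hp : p ≠ 0) (S T : M → Prop) (hST : ∀ u, S u → ¬ T u) (k l : ℕ)
    (hS : ∀ u, S u → k ≤ finrank ℂ (Wt ρ ψ p u)) (hT : ∀ u, T u → l ≤ finrank ℂ (Wt ρ ψ p u)) :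
    Nat.card {u // S u} * k + Nat.card {u // T u} * l ≤ Fintype.card F * finrank ℂ V := by
  have h1 := trace_sum (ρ := ρ) hψ hp 1
  rw [LinearMap.trace_one] at h1
  have h2 : ∀ u, LinearMap.trace ℂ V (1 * Pr ρ ψ p u) = (finrank ℂ (Wt ρ ψ p u) : ℂ) := fun u => by
    rw [one_mul, trace_Pr]
  rw [Finset.sum_congr rfl fun u _ => h2 u, ← Nat.cast_sum, ← Nat.cast_mul] at h1
  have h3 : Fintype.card F * finrank ℂ V = ∑ u : M, finrank ℂ (Wt ρ ψ p u) := by exact_mod_cast h1
  rw [h3, Nat.card_eq_fintype_card, Fintype.card_subtype, ← smul_eq_mul, ← Finset.sum_const,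
    Nat.card_eq_fintype_card, Fintype.card_subtype, ← smul_eq_mul, ← Finset.sum_const]
  refine (Nat.add_le_add (Finset.sum_le_sum fun u hu => hS u (Finset.mem_filter.1 hu).2)
    (Finset.sum_le_sum fun u hu => hT u (Finset.mem_filter.1 hu).2)).trans ?_
  rw [← Finset.sum_union]
  · exact Finset.sum_le_sum_of_subset (Finset.subset_univ _)
  · rw [Finset.disjoint_filter]
    intro u _ h
    exact hST u h

/-- existence of a nontrivial weight -/
theorem exists_weight (hψ : ψ ≠ 0) (hnt : ∃ g v, ρ g v ≠ v) :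
    ∃ a w : M, a ≠ 0 ∧ Q a = 0 ∧ polar Q a w = 0 ∧ w ∉ Submodule.span F {a} ∧ Wt ρ ψ a w ≠ ⊥ := by
  have h1 : ∃ a b : M, Q a = 0 ∧ polar Q a b = 0 ∧ ρ (E Q a b) ≠ 1 := by
    by_contra hcon
    push Not at hcon
    obtain ⟨g, v, hgv⟩ := hnt
    apply hgv
    rw [trivial_of_E (fun a b ha hab => hcon a b ha hab) g]; rfl
  obtain ⟨a, b, ha, hab, hE⟩ := h1
  have ha0 : a ≠ 0 := by
    rintro rfl
    apply hE
    have : E Q (0 : M) b = 1 := by
      apply ac_ext
      intro z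
      rw [ac_E ha hab, polar_zero_right, ac_one]
      simp
    rw [this, map_one]
  have h2 : ∃ y v, Uf ρ a y v ≠ v := by
    by_contra hcon
    push Not at hcon
    apply hE
    ext v
    exact hcon ⟨b, hab⟩ v
  obtain ⟨φ, hφ0, hφ⟩ := exists_wt_ne_bot (Uf ρ a) (Uf_zero ρ a) (Uf_add ρ a) h2
  obtain ⟨w, rfl⟩ := exists_ch hψ a φ
  have hW : Wt ρ ψ a w ≠ ⊥ := hφ
  have haw : polar Q a w = 0 := by
    by_contra h3
    exact hW ((Pr_eq_zero_iff a w).1 (Pr_of_not_ortho hψ ha (by rw [pc]; exact h3)))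
  exact ⟨a, w, ha0, ha, haw, fun h3 => hφ0 ((ch_zero_iff hψ).2 h3), hW⟩

theorem one_le_of_ne {W : Submodule ℂ V} (h : W ≠ ⊥) : 1 ≤ finrank ℂ W := by
  rw [Nat.one_le_iff_ne_zero]
  intro h0
  exact h (Submodule.finrank_eq_zero.1 h0)

/-- **minus type** -/
theorem minus_main {q w : ℤ} {m : ℕ} (hq : q = Fintype.card F) (hw : w = q ^ (m + 2))
    (hM : finrank F M = 2 * (m + 4)) (hN : (N0 Q : ℤ) = (q ^ 2 * w + 1) * (q * w - 1))
    (hκ : ∀ c : F, c ≠ 0 → (Nat.card {u : M // Q u = c} : ℤ) = q ^ 3 * w ^ 2 + q * w)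
    (hirr : ρ.IsIrreducible) (hnt : ∃ g v, ρ g v ≠ v)
    (hD : ((finrank ℂ V : ℤ) + 1) * (q ^ 2 - 1) ≤ (q ^ 2 * w + 1) * (q * w - q)) : False := by
  haveI : Nontrivial V := by
    obtain ⟨g, v, hgv⟩ := hnt
    exact ⟨_, _, hgv⟩
  obtain ⟨ψ, hψ⟩ := exists_psi F
  have hq1 : 1 < Fintype.card F := Fintype.one_lt_card
  have hq2 : (2 : ℤ) ≤ q := by rw [hq]; exact_mod_cast hq1
  have hwq : q ^ 2 ≤ w := by rw [hw]; exact pow_le_pow_right₀ (by omega) (by omega)
  have hq4 : (4 : ℤ) ≤ q ^ 2 := by nlinarith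
  have hw4 : (4 : ℤ) ≤ w := by omega
  have hq0 : q ≠ 0 := by omega
  have hcM : (Fintype.card M : ℤ) = q ^ 4 * w ^ 2 := by
    rw [card_M F M, hM, hw, ← pow_mul, ← pow_add, hq]
    push_cast
    congr 1
    omega
  have hZ : ∀ {a b : ℕ}, a = b → (a : ℤ) = b := fun h => by rw [h]
  -- the sizes of the orbits
  have cS : ∀ p : M, p ≠ 0 → Q p = 0 → (Nat.card {u // SP Q p u} : ℤ) = q * (q * w + 1) * (w - 1) := by
    intro p hp hqp
    have c1 := hZ (card_SP (Q := Q) hp hqp)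
    have c2 := hZ (card_nonortho (Q := Q) hp hqp)
    push_cast at c1 c2
    rw [← hq] at c1 c2
    rw [hcM] at c2
    rw [hN] at c1
    have k3 : (Nat.card {u // Q u = 0 ∧ polar Q p u ≠ 0} : ℤ) = (q - 1) * q ^ 2 * w ^ 2 := by
      apply mul_right_cancel₀ (pow_ne_zero 2 hq0)
      linear_combination c2
    linear_combination -c1 - k3
  have cT : ∀ (p : M) (c : F), p ≠ 0 → Q p = 0 → c ≠ 0 →
      (Nat.card {u // polar Q p u = 0 ∧ Q u = c} : ℤ) = q * w * (q * w + 1) := by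
    intro p c hp hqp hc
    have c3 := hZ (card_S' (Q := Q) c hp hqp)
    have c4 := hZ (card_value1 (Q := Q) c hp hqp)
    push_cast at c3 c4
    rw [← hq] at c4
    rw [hcM] at c4
    rw [hκ c hc] at c3
    have k1 : (Nat.card {u // polar Q p u ≠ 0 ∧ Q u = c} : ℤ) = (q - 1) * q ^ 2 * w ^ 2 := by
      apply mul_right_cancel₀ (pow_ne_zero 2 hq0)
      linear_combination c4
    linear_combination -c3 - k1
  -- two orbits are too many
  have hbound : ∀ n : ℤ, 2 * (q * (q * w + 1) * (w - 1)) ≤ n → n ≤ q * (finrank ℂ V : ℤ) → False := by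
    intro n h1 h2
    set D : ℤ := (finrank ℂ V : ℤ)
    have h3 : q * (2 * (q * w + 1) * (w - 1)) ≤ q * D := by linarith
    have h4 := le_of_mul_le_mul_left h3 (by omega)
    have h5 : (2 * (q * w + 1) * (w - 1)) * (q ^ 2 - 1) ≤ D * (q ^ 2 - 1) :=
      mul_le_mul_of_nonneg_right h4 (by omega)
    have h6 : 0 < (w - 1) * (2 * (q * w + 1) * (q ^ 2 - 1) - q * (q ^ 2 * w + 1)) := by
      apply mul_pos (by omega)
      have : 2 * (q * w + 1) * (q ^ 2 - 1) - q * (q ^ 2 * w + 1) = q * w * (q ^ 2 - 2) + (q * (2 * q - 1) - 2) := by ring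
      rw [this]
      have h7 : 0 ≤ q * w * (q ^ 2 - 2) := mul_nonneg (by positivity) (by omega)
      nlinarith
    nlinarith
  have hTS : q * (q * w + 1) * (w - 1) ≤ q * w * (q * w + 1) := by
    have : 0 ≤ q * (q * w + 1) := by positivity
    nlinarith
  have hS0 : 0 ≤ q * (q * w + 1) * (w - 1) := mul_nonneg (by positivity) (by omega)
  obtain ⟨a, w₀, ha0, ha, haw, hws, hWt⟩ := exists_weight (ρ := ρ) hψ hnt
  have haT : ∀ {p u : M} (_ : Q p = 0), SP Q p u → ¬ (∃ c : F, c ≠ 0 ∧ polar Q p u = 0 ∧ Q u = c) := by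
    rintro p u _ h ⟨c, hc, -, h1⟩
    exact hc (by rw [← h1, h.qx])
  by_cases hqw : Q w₀ = 0
  · -- singular weights
    have hSP : SP Q a w₀ := ⟨ha0, hws, ha, hqw, haw⟩
    have hone : ∀ p u : M, SP Q p u → finrank ℂ (Wt ρ ψ p u) = 1 := by
      intro p u hpu
      rw [finrank_Wt_eq hpu hSP]
      apply le_antisymm _ (one_le_of_ne hWt)
      by_contra hcon
      push Not at hcon
      have h1 := card_le_of_weights (ρ := ρ) hψ ha0 (fun u' => SP Q a u') 2
        (fun u' hu' => by rw [finrank_Wt_eq hu' hSP]; omega)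
      refine hbound ((Nat.card {u // SP Q a u} * 2 : ℕ) : ℤ) ?_ (by rw [hq]; exact_mod_cast h1)
      push_cast
      rw [cS a ha0 ha]; linarith
    have hzero : ∀ p u : M, p ≠ 0 → Q p = 0 → polar Q p u = 0 → Q u ≠ 0 → Wt ρ ψ p u = ⊥ := by
      intro p u hp hqp hpu hu
      by_contra hne
      have h1 := card_le_two (ρ := ρ) hψ ha0 (fun u' => SP Q a u') (fun u' => polar Q a u' = 0 ∧ Q u' = Q u)
        (fun u' h1 h2 => hu (by rw [← h2.2, h1.qx])) 1 1
        (fun u' hu' => by rw [hone _ _ hu'])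
        (fun u' hu' => by
          rw [← finrank_Wt_N hp hqp hpu hu ha0 ha hu'.1 hu'.2]
          exact one_le_of_ne hne)
      refine hbound ((Nat.card {u // SP Q a u} * 1 + Nat.card {u' // polar Q a u' = 0 ∧ Q u' = Q u} * 1 : ℕ) : ℤ) ?_ (by rw [hq]; exact_mod_cast h1)
      push_cast
      rw [cS a ha0 ha, cT a (Q u) ha0 ha hu]; linarith
    have hfix : FixA ρ ψ := by
      intro p u w y hpu hw0 hwi h1 h2 h3 h4 h5
      rcases Nat.eq_zero_or_pos m with hm | hm
      · subst hm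
        have hd8 : finrank F M = 8 := by omega
        refine fix_eight (by omega) (hone p u hpu).le hpu.qp hw0 h1 h2 ?_ h3 h4 h5
        refine ani_of_card hpu hw0 h1 h2 hwi hd8 ?_
        rw [hN, ← hq, hw]
        ring
      · exact fix_big (by omega) (hone p u hpu).le hpu.qp hw0 h1 h2 h3 h4 h5
    have H : Hyp ρ ψ := ⟨hfix, hψ, hone, hzero⟩
    have hh : w ^ 2 = (Fintype.card F : ℤ) ^ (finrank F M - 4) := by
      rw [hw, hM, ← hq, ← pow_mul]; congr 1; omega
    have hwc : w = q ^ 2 ∨ q ^ 3 ≤ w := by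
      rw [hw]
      exact w_cases m q (by omega)
    rcases alternative_of_hyp H hirr hq hh hN.symm rfl rfl with hc | hc
    · apply arith_minus1 (q := q) (w := w) (D := (finrank ℂ V : ℤ)) hq2 hwc
      rw [hc]; ring
    · apply arith_minus2 (q := q) (w := w) (D := (finrank ℂ V : ℤ)) hq2 (by omega) hD
      refine le_trans (le_of_eq ?_) hc
      ring
  · -- nonsingular weights
    have hone : ∀ p u : M, p ≠ 0 → Q p = 0 → polar Q p u = 0 → Q u = Q w₀ → finrank ℂ (Wt ρ ψ p u) = 1 := by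
      intro p u hp hqp hpu hqu
      rw [← finrank_Wt_N ha0 ha haw hqw hp hqp hpu hqu]
      apply le_antisymm _ (one_le_of_ne hWt)
      by_contra hcon
      push Not at hcon
      have h1 := card_le_of_weights (ρ := ρ) hψ ha0 (fun u' => polar Q a u' = 0 ∧ Q u' = Q w₀) 2
        (fun u' hu' => by rw [← finrank_Wt_N ha0 ha haw hqw ha0 ha hu'.1 hu'.2]; omega)
      refine hbound ((Nat.card {u // polar Q a u = 0 ∧ Q u = Q w₀} * 2 : ℕ) : ℤ) ?_ (by rw [hq]; exact_mod_cast h1)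
      push_cast
      rw [cT a (Q w₀) ha0 ha hqw]; linarith
    have hzero : ∀ p u : M, p ≠ 0 → Q p = 0 → polar Q p u = 0 → u ∉ Submodule.span F {p} → Q u ≠ Q w₀ →
        Wt ρ ψ p u = ⊥ := by
      intro p u hp hqp hpu hus hu
      by_contra hne
      by_cases hu0 : Q u = 0
      · have hi : SP Q p u := ⟨hp, hus, hqp, hu0, hpu⟩
        have h1 := card_le_two (ρ := ρ) hψ ha0 (fun u' => SP Q a u') (fun u' => polar Q a u' = 0 ∧ Q u' = Q w₀)
          (fun u' h1 h2 => hqw (by rw [← h2.2, h1.qx])) 1 1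
          (fun u' hu' => by
            rw [← finrank_Wt_eq hi hu']
            exact one_le_of_ne hne)
          (fun u' hu' => by rw [hone _ _ ha0 ha hu'.1 hu'.2])
        refine hbound ((Nat.card {u // SP Q a u} * 1 + Nat.card {u // polar Q a u = 0 ∧ Q u = Q w₀} * 1 : ℕ) : ℤ) ?_ (by rw [hq]; exact_mod_cast h1)
        push_cast
        rw [cS a ha0 ha, cT a (Q w₀) ha0 ha hqw]; linarith
      · have h1 := card_le_two (ρ := ρ) hψ ha0 (fun u' => polar Q a u' = 0 ∧ Q u' = Q u)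
          (fun u' => polar Q a u' = 0 ∧ Q u' = Q w₀)
          (fun u' h1 h2 => hu (by rw [← h2.2, h1.2])) 1 1
          (fun u' hu' => by
            rw [← finrank_Wt_N hp hqp hpu hu0 ha0 ha hu'.1 hu'.2]
            exact one_le_of_ne hne)
          (fun u' hu' => by rw [hone _ _ ha0 ha hu'.1 hu'.2])
        refine hbound ((Nat.card {u' // polar Q a u' = 0 ∧ Q u' = Q u} * 1 + Nat.card {u // polar Q a u = 0 ∧ Q u = Q w₀} * 1 : ℕ) : ℤ) ?_ (by rw [hq]; exact_mod_cast h1)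
        push_cast
        rw [cT a (Q u) ha0 ha hu0, cT a (Q w₀) ha0 ha hqw]; linarith
    rcases Nat.eq_zero_or_pos m with hm | hm
    · -- dimension eight: too many weights
      have h1 := card_le_of_weights (ρ := ρ) hψ ha0 (fun u' => polar Q a u' = 0 ∧ Q u' = Q w₀) 1
        (fun u' hu' => by rw [hone _ _ ha0 ha hu'.1 hu'.2])
      have h2 : ((Nat.card {u // polar Q a u = 0 ∧ Q u = Q w₀} * 1 : ℕ) : ℤ) ≤ q * (finrank ℂ V : ℤ) := by
        rw [hq]; exact_mod_cast h1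
      push_cast at h2
      rw [cT a (Q w₀) ha0 ha hqw] at h2
      have h3 : q * (w * (q * w + 1)) ≤ q * (finrank ℂ V : ℤ) := by linarith
      have h4 := le_of_mul_le_mul_left h3 (by omega)
      subst hm
      have hw2 : w = q ^ 2 := hw
      rw [hw2] at h4 hD
      set D : ℤ := (finrank ℂ V : ℤ)
      have h5 : (D + 1) * (q ^ 2 - 1) ≤ ((q ^ 4 + 1) * q) * (q ^ 2 - 1) := by
        refine hD.trans (le_of_eq ?_)
        ring
      have h6 := le_of_mul_le_mul_right h5 (by omega)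
      nlinarith
    · have H : HypN ρ ψ (Q w₀) := by
        refine ⟨hqw, hψ, ?_, hone, hzero⟩
        intro p u w y hp hqp hpu hqu hw0 h1 h2 h3 h4 h5
        exact fix_big (by omega) (hone p u hp hqp hpu hqu).le hqp hw0 h1 h2 h3 h4 h5
      have h1 := dim_N H hirr (q := q) (w := w) hq (by omega) hcM hN (hκ _ hqw)
      set D : ℤ := (finrank ℂ V : ℤ)
      have h2 : (q ^ 2 * w + 1) * (q * w - q) < (q ^ 2 * w + 1) * (q * w + 1) := by
        apply mul_lt_mul_of_pos_left (by omega) (by positivity)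
      nlinarith

end Cfsg.Agent.LSO
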