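import Cfsg.Agent.LSO.Main
import Cfsg.Agent.OrthCount.Orders
import Cfsg.Agent.Orth.Bridge
import Cfsg.Agent.LSSL.Exist
import Cfsg.Agent.LSU.Irr

/-!
Minimal degrees for the groups `Ω` over fields with more than three elements.
-/

set_option autoImplicit false
set_option linter.unusedSectionVars false
set_option linter.style.haveILetI false

namespace Cfsg.Agent.LSO

open QuadraticMap Module Cfsg.Agent.H39 Cfsg.Agent.LSU
open Cfsg.Agent.Orth hiding map_mul
open scoped Classical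

theorem exists_beta {F : Type*} [Field F] [Fintype F] (h : 3 < Fintype.card F) : ∃ β : F, β ≠ 0 ∧ β * β ≠ 1 := by
  by_contra hcon
  push Not at hcon
  have h1 : (Finset.univ : Finset F) ⊆ {0, 1, -1} := by
    intro x _
    by_cases hx : x = 0
    · simp [hx]
    · rcases mul_self_eq_one_iff.1 (hcon x hx) with h | h <;> simp [h]
  have h2 := Finset.card_le_card h1
  rw [Finset.card_univ] at h2
  have h3 : ({0, 1, -1} : Finset F).card ≤ 3 := Finset.card_le_three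
  omega

variable {ι : Type} [Fintype ι] [DecidableEq ι] {F : Type*} [Field F] [Fintype F]

/-- transfer of the group -/
noncomputable def omegaEquiv (Q : QuadraticForm F (ι → F)) : Gr Q ≃* ↥(Cfsg.Omega F ⇑Q) where
  toFun g := ⟨(bridge Q).symm g.1, (mem_Omega_iff Q _).2 (by rw [MulEquiv.apply_symm_apply]; exact g.2)⟩
  invFun h := ⟨bridge Q h.1, (mem_Omega_iff Q _).1 h.2⟩
  left_inv g := Subtype.ext (MulEquiv.apply_symm_apply _ _)
  right_inv h := Subtype.ext (MulEquiv.symm_apply_apply _ _)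
  map_mul' g h := Subtype.ext (_root_.map_mul (bridge Q).symm g.1 h.1)

theorem irr_transfer {G H : Type*} [Group G] [Group H] (e : H ≃* G) {k : ℕ} (hk : 2 ≤ k)
    (ρ : Representation ℂ G (Fin k → ℂ)) (hirr : ρ.IsIrreducible) :
    Representation.IsIrreducible (MonoidHom.comp ρ e.toMonoidHom : Representation ℂ H (Fin k → ℂ)) := by
  haveI : Nonempty (Fin k) := ⟨⟨0, by omega⟩⟩
  apply LSSL.irr_of
  intro W hW
  have hW' : ∀ g, ∀ v ∈ W, ρ g v ∈ W := by
    intro g v hv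
    have := hW (e.symm g) v hv
    change ρ (e (e.symm g)) v ∈ W at this
    rwa [MulEquiv.apply_symm_apply] at this
  let σ : Subrepresentation ρ := { toSubmodule := W, apply_mem_toSubmodule := fun g v hv => hW' g v hv }
  rcases hirr.eq_bot_or_eq_top σ with h1 | h1
  · left
    have : σ.toSubmodule = (⊥ : Subrepresentation ρ).toSubmodule := by rw [h1]
    exact this
  · right
    have : σ.toSubmodule = (⊤ : Subrepresentation ρ).toSubmodule := by rw [h1]
    exact this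

/-- the alternative for matrix groups -/
theorem alt_matrix (Q : QuadraticForm F (ι → F)) [Nice Q] (h3 : 3 < Fintype.card F) {k : ℕ} (hk : 2 ≤ k)
    (ρ : Representation ℂ (Cfsg.Omega F ⇑Q) (Fin k → ℂ)) (hirr : ρ.IsIrreducible)
    (hD : k < 2 * (Fintype.card F - 1) * Fintype.card F ^ (Fintype.card ι - 4)) {q h N S D : ℤ}
    (hq : q = Fintype.card F) (hh : h = (Fintype.card F : ℤ) ^ (Fintype.card ι - 4))
    (hN : N + 1 = Nat.card {v : ι → F // Q v = 0})
    (hS : S = N + 1 - q - (q - 1) * q ^ 2 * h) (hDD : D = k) :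
    q * (q ^ 2 - 1) * (1 + q * h) * D = N * S ∨ N * S ≤ (q ^ 2 - 1) * (q ^ 2 * h - 1) * D := by
  have hirr' := irr_transfer (omegaEquiv Q) hk ρ hirr
  have hnt := exists_ne_of_irr _ hirr' hk
  have hfr : finrank F (ι → F) = Fintype.card ι := finrank_fintype_fun_eq_card F
  have hN' : N = N0 Q := by
    have h1 := card_split (fun u : ι → F => Q u = 0) (fun u => u = 0)
    have h2 : Nat.card {u : ι → F // Q u = 0 ∧ u = 0} = 1 := by
      rw [Nat.card_eq_one_iff_unique]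
      exact ⟨⟨fun a b => Subtype.ext (a.2.2.trans b.2.2.symm)⟩, ⟨⟨0, QuadraticMap.map_zero Q, rfl⟩⟩⟩
    have h4 : Nat.card {u : ι → F // Q u = 0 ∧ ¬ u = 0} = N0 Q := rfl
    rw [h2, h4] at h1
    rw [h1] at hN
    push_cast at hN
    linear_combination hN
  refine alternative (exists_beta h3) hirr' hnt ?_ hq ?_ hN' hS ?_
  · rw [hfr, finrank_fin_fun]; exact hD
  · rw [hfr]; exact hh
  · rw [finrank_fin_fun]; exact hDD

/-! ### odd dimension -/

theorem nice_odd {n : ℕ} (hn : 3 ≤ n) (hodd : Odd (Fintype.card F)) : Nice (qfOdd n F) := by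
  have h2 : (2 : F) ≠ 0 := by
    intro h2
    have hc : ringChar F ∣ 2 := ringChar.dvd (by exact_mod_cast h2)
    have h3 : ringChar F = 2 := by
      rcases (Nat.dvd_prime Nat.prime_two).1 hc with h | h
      · exact absurd h (CharP.ringChar_ne_one)
      · exact h
    have h4 := FiniteField.even_card_iff_char_two.1 h3
    rw [Nat.odd_iff] at hodd
    omega
  refine ⟨qfOdd_nondegenerate n F h2, ?_⟩
  rw [finrank_fintype_fun_eq_card]
  simp
  omega

theorem arith_odd1 {q h D : ℤ} (hq : 3 ≤ q) (hh : q ^ 3 ≤ h)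
    (h1 : q * (q ^ 2 - 1) * (1 + q * h) * D = (q ^ 3 * h - 1) * (q * (q * h - 1))) : False := by
  have hq0 : q ≠ 0 := by omega
  have h2 : (q ^ 2 - 1) * (1 + q * h) * D = (q ^ 3 * h - 1) * (q * h - 1) := by
    apply mul_left_cancel₀ hq0
    linear_combination h1
  have h3 : (1 + q * h) ∣ 2 * (q ^ 2 + 1) := by
    refine ⟨(q ^ 2 - 1) * D - (q ^ 2 * (q * h - 1) - (q ^ 2 + 1)), ?_⟩
    linear_combination -h2
  have h4 := Int.le_of_dvd (by positivity) h3
  have h5 : q * q ^ 3 ≤ q * h := mul_le_mul_of_nonneg_left hh (by omega)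
  have h6 : (9 : ℤ) ≤ q ^ 2 := by nlinarith
  have h7 : 9 * q ^ 2 ≤ q ^ 2 * q ^ 2 := mul_le_mul_of_nonneg_right h6 (by positivity)
  have h8 : q * q ^ 3 = q ^ 2 * q ^ 2 := by ring
  linarith

theorem arith_odd2 {q h D : ℤ} (hq : 3 ≤ q) (hh : q ^ 3 ≤ h) (h1 : (D + 1) * (q ^ 2 - 1) ≤ q ^ 3 * h - 1)
    (hc : (q ^ 3 * h - 1) * (q * (q * h - 1)) ≤ (q ^ 2 - 1) * (q ^ 2 * h - 1) * D) : False := by
  have h0 : 0 < q ^ 3 := pow_pos (by omega) 3
  have h01 : (1 : ℤ) ≤ h := by omega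
  have h02 : (9 : ℤ) ≤ q ^ 2 := by nlinarith
  have e2 : (q ^ 2 - 1) * D ≤ q ^ 3 * h - q ^ 2 := by linarith
  have e7 : 0 ≤ q ^ 2 * h - 1 := by nlinarith
  have e3 : (q ^ 2 * h - 1) * ((q ^ 2 - 1) * D) ≤ (q ^ 2 * h - 1) * (q ^ 3 * h - q ^ 2) :=
    mul_le_mul_of_nonneg_left e2 e7
  have e4 : 0 < q * h - 1 := by nlinarith
  have e5 : (q ^ 3 * h - 1) * (q * (q * h - 1)) ≤ (q ^ 2 * h - 1) * (q ^ 3 * h - q ^ 2) := by linarith
  have e6 : 0 < (q * (q * h - 1)) * (q - 1) := mul_pos (mul_pos (by omega) e4) (by omega)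
  have e8 : (q ^ 3 * h - 1) * (q * (q * h - 1)) - (q ^ 2 * h - 1) * (q ^ 3 * h - q ^ 2) =
    (q * (q * h - 1)) * (q - 1) := by ring
  linarith

theorem arith_odd3 {q h D : ℤ} (hq : 3 ≤ q) (hh : 1 ≤ h) (h1 : (D + 1) * (q ^ 2 - 1) ≤ q ^ 3 * h - 1) :
    D < 2 * (q - 1) * h := by
  by_contra hcon2
  push Not at hcon2
  have h02 : (9 : ℤ) ≤ q ^ 2 := by nlinarith
  have e1 : (2 * (q - 1) * h + 1) * (q ^ 2 - 1) ≤ (D + 1) * (q ^ 2 - 1) :=
    mul_le_mul_of_nonneg_right (by omega) (by linarith)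
  have e3 : 0 < 2 * (q - 1) * (q ^ 2 - 1) - q ^ 3 := by nlinarith
  have e4 : 0 < (2 * (q - 1) * (q ^ 2 - 1) - q ^ 3) * h := mul_pos e3 (by omega)
  nlinarith

theorem bound_odd {n : ℕ} (hn : 3 ≤ n) (hodd : Odd (Fintype.card F)) (h3 : 3 < Fintype.card F) {k : ℕ} (hk : 2 ≤ k)
    (ρ : Representation ℂ (Cfsg.Omega F (Cfsg.quadFormOdd n F)) (Fin k → ℂ)) (hirr : ρ.IsIrreducible) :
    (Fintype.card F ^ (2 * n) - 1) / (Fintype.card F ^ 2 - 1) ≤ k := by
  haveI := nice_odd (F := F) hn hodd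
  by_contra hcon
  push Not at hcon
  have hq2 : 0 < Fintype.card F ^ 2 - 1 := by
    have : 3 ^ 2 ≤ Fintype.card F ^ 2 := Nat.pow_le_pow_left (by omega) 2
    omega
  have h1 : (k + 1) * (Fintype.card F ^ 2 - 1) ≤ Fintype.card F ^ (2 * n) - 1 :=
    (Nat.le_div_iff_mul_le hq2).1 hcon
  obtain ⟨m, rfl⟩ : ∃ m, n = m + 3 := ⟨n - 3, by omega⟩
  have hcι : Fintype.card (Unit ⊕ (Fin (m + 3) ⊕ Fin (m + 3))) - 4 = 2 * m + 3 := by simp; omega
  have hz := OrthCount.zeros_odd (F := F) (m + 3)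
  have hqz : (3 : ℤ) < Fintype.card F := by exact_mod_cast h3
  set h : ℤ := (Fintype.card F : ℤ) ^ (2 * m + 3) with hh
  have hpow : (Fintype.card F : ℤ) ^ (2 * (m + 3)) = (Fintype.card F : ℤ) ^ 3 * h := by
    rw [hh, ← pow_add]; congr 1; omega
  have h1' : ((k : ℤ) + 1) * ((Fintype.card F : ℤ) ^ 2 - 1) ≤ (Fintype.card F : ℤ) ^ 3 * h - 1 := by
    have h2 : (((k + 1) * (Fintype.card F ^ 2 - 1) : ℕ) : ℤ) ≤ ((Fintype.card F ^ (2 * (m + 3)) - 1 : ℕ) : ℤ) := by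
      exact_mod_cast h1
    rw [Nat.cast_mul, Nat.cast_sub (by omega), Nat.cast_sub (Nat.one_le_pow _ _ (by omega))] at h2
    push_cast at h2
    rw [hpow] at h2
    exact h2
  have hhq : (Fintype.card F : ℤ) ^ 3 ≤ h := by
    rw [hh, pow_add]
    have : (1 : ℤ) ≤ (Fintype.card F : ℤ) ^ (2 * m) := one_le_pow₀ (by omega)
    nlinarith [pow_pos (show (0 : ℤ) < Fintype.card F by omega) 3]
  have h01 : (1 : ℤ) ≤ h := by
    have := pow_pos (show (0 : ℤ) < Fintype.card F by omega) 3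
    omega
  have hDz : (k : ℤ) < 2 * ((Fintype.card F : ℤ) - 1) * h := arith_odd3 (by omega) h01 h1'
  have hD : k < 2 * (Fintype.card F - 1) * Fintype.card F ^ (Fintype.card (Unit ⊕ (Fin (m + 3) ⊕ Fin (m + 3))) - 4) := by
    rw [hcι]
    zify [show 1 ≤ Fintype.card F by omega]
    exact hDz
  have hN : ((Fintype.card F : ℤ) ^ 3 * h - 1) + 1 = Nat.card {v : Unit ⊕ (Fin (m + 3) ⊕ Fin (m + 3)) → F // qfOdd (m + 3) F v = 0} := by
    have e : Nat.card {v : Unit ⊕ (Fin (m + 3) ⊕ Fin (m + 3)) → F // qfOdd (m + 3) F v = 0} = Nat.card F ^ (2 * (m + 3)) := hz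
    rw [e, Nat.card_eq_fintype_card]
    push_cast
    rw [hpow]; ring
  rcases alt_matrix (qfOdd (m + 3) F) h3 hk ρ hirr hD rfl (h := h) (by rw [hcι]) hN rfl rfl with hc | hc
  · apply arith_odd1 (q := (Fintype.card F : ℤ)) (h := h) (D := (k : ℤ)) (by omega) hhq
    rw [hc]; ring
  · apply arith_odd2 (q := (Fintype.card F : ℤ)) (h := h) (D := (k : ℤ)) (by omega) hhq h1'
    refine le_trans (le_of_eq ?_) hc
    ring

end Cfsg.Agent.LSO
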