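import Cfsg.Agent.LSO.AllMinus

/-!
Minimal degrees of the groups `Ω⁻` over all finite fields.
-/

set_option autoImplicit false
set_option linter.unusedSectionVars false
set_option linter.style.haveILetI false

namespace Cfsg.Agent.LSO

open QuadraticMap Module Cfsg.Agent.H39 Cfsg.Agent.LSU
open Cfsg.Agent.Orth hiding map_mul
open scoped Classical

variable {F : Type*} [Field F] [Fintype F]

theorem bound_minus_all {n : ℕ} (hn : 4 ≤ n) (a b : F)
    (hab : ∀ z₁ z₂ : F, z₁ ^ 2 + a * z₁ * z₂ + b * z₂ ^ 2 = 0 → z₁ = 0 ∧ z₂ = 0) {k : ℕ}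
    (hk : 2 ≤ k)
    (ρ : Representation ℂ (Cfsg.Omega F (Cfsg.quadFormMinus (n - 1) F a b)) (Fin k → ℂ)) (hirr : ρ.IsIrreducible) :
    (Fintype.card F ^ n + 1) * (Fintype.card F ^ (n - 1) - Fintype.card F) / (Fintype.card F ^ 2 - 1) ≤ k := by
  haveI := nice_minus (F := F) hn a b hab
  by_contra hcon
  push Not at hcon
  have hq1 : 1 < Fintype.card F := Fintype.one_lt_card
  have hq2 : 0 < Fintype.card F ^ 2 - 1 := by
    have : 2 ^ 2 ≤ Fintype.card F ^ 2 := Nat.pow_le_pow_left (by omega) 2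
    omega
  have h1 : (k + 1) * (Fintype.card F ^ 2 - 1) ≤ (Fintype.card F ^ n + 1) * (Fintype.card F ^ (n - 1) - Fintype.card F) :=
    (Nat.le_div_iff_mul_le hq2).1 hcon
  obtain ⟨m, rfl⟩ : ∃ m, n = m + 4 := ⟨n - 4, by omega⟩
  have e1 : m + 4 - 1 = m + 3 := rfl
  rw [e1] at h1
  change Representation ℂ (Cfsg.Omega F (Cfsg.quadFormMinus (m + 3) F a b)) (Fin k → ℂ) at ρ
  change Nice (qfMinus (m + 3) F a b) at this
  have hqz : (1 : ℤ) < Fintype.card F := by exact_mod_cast hq1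
  set w : ℤ := (Fintype.card F : ℤ) ^ (m + 2) with hw
  have p1 : (Fintype.card F : ℤ) ^ (m + 4) = (Fintype.card F : ℤ) ^ 2 * w := by
    rw [hw, ← pow_add]; congr 1; omega
  have p2 : (Fintype.card F : ℤ) ^ (m + 3) = (Fintype.card F : ℤ) * w := by
    rw [hw, ← pow_succ']
  have h1' : ((k : ℤ) + 1) * ((Fintype.card F : ℤ) ^ 2 - 1) ≤
      ((Fintype.card F : ℤ) ^ 2 * w + 1) * (Fintype.card F * w - Fintype.card F) := by
    have h2 : (((k + 1) * (Fintype.card F ^ 2 - 1) : ℕ) : ℤ) ≤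
      (((Fintype.card F ^ (m + 4) + 1) * (Fintype.card F ^ (m + 3) - Fintype.card F) : ℕ) : ℤ) := by
      exact_mod_cast h1
    rw [Nat.cast_mul, Nat.cast_mul, Nat.cast_sub (by omega), Nat.cast_sub (by
      calc Fintype.card F = Fintype.card F ^ 1 := (pow_one _).symm
        _ ≤ _ := Nat.pow_le_pow_right (by omega) (by omega))] at h2
    push_cast at h2
    rw [p1, p2] at h2
    exact h2
  have hz := OrthCount.zeros_minus (F := F) (m + 3) (OrthCount.aniso_of hab)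
  rw [Nat.card_eq_fintype_card] at hz
  have p3 : (Fintype.card F : ℤ) ^ (2 * (m + 3) + 2) = (Fintype.card F : ℤ) ^ 4 * w ^ 2 := by
    rw [hw, ← pow_mul, ← pow_add]; congr 1; omega
  have p4 : (Fintype.card F : ℤ) ^ (m + 3 + 2) = (Fintype.card F : ℤ) ^ 3 * w := by
    rw [hw, ← pow_add]; congr 1; omega
  have p5 : (Fintype.card F : ℤ) ^ (m + 3 + 1) = (Fintype.card F : ℤ) ^ 2 * w := by
    rw [hw, ← pow_add]; congr 1; omega
  have hN : (((Fintype.card F : ℤ) ^ 2 * w + 1) * (Fintype.card F * w - 1)) + 1 =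
      Nat.card {v : (Fin (m + 3) ⊕ Fin (m + 3)) ⊕ Fin 2 → F // qfMinus (m + 3) F a b v = 0} := by
    have e : Nat.card {v : (Fin (m + 3) ⊕ Fin (m + 3)) ⊕ Fin 2 → F // qfMinus (m + 3) F a b v = 0} =
      Nat.card {v : (Fin (m + 3) ⊕ Fin (m + 3)) ⊕ Fin 2 → F // Cfsg.quadFormMinus (m + 3) F a b v = 0} := rfl
    rw [e]
    apply mul_left_cancel₀ (show (Fintype.card F : ℤ) ≠ 0 by omega)
    have hz' : ((Fintype.card F * Nat.card {v : (Fin (m + 3) ⊕ Fin (m + 3)) ⊕ Fin 2 → F //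
      Cfsg.quadFormMinus (m + 3) F a b v = 0} +
      Fintype.card F ^ (m + 3 + 2) : ℕ) : ℤ) = ((Fintype.card F ^ (2 * (m + 3) + 2) + Fintype.card F ^ (m + 3 + 1) : ℕ) : ℤ) := by
      rw [hz]
    push_cast at hz'
    rw [p3, p4, p5] at hz'
    linear_combination -hz'
  have hN' : (N0 (qfMinus (m + 3) F a b) : ℤ) =
      ((Fintype.card F : ℤ) ^ 2 * w + 1) * (Fintype.card F * w - 1) := by
    have h1 := card_split (fun u : (Fin (m + 3) ⊕ Fin (m + 3)) ⊕ Fin 2 → F => qfMinus (m + 3) F a b u = 0) (fun u => u = 0)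
    have h2 : Nat.card {u : (Fin (m + 3) ⊕ Fin (m + 3)) ⊕ Fin 2 → F // qfMinus (m + 3) F a b u = 0 ∧ u = 0} = 1 := by
      rw [Nat.card_eq_one_iff_unique]
      exact ⟨⟨fun a b => Subtype.ext (a.2.2.trans b.2.2.symm)⟩, ⟨⟨0, QuadraticMap.map_zero _, rfl⟩⟩⟩
    have h4 : Nat.card {u : (Fin (m + 3) ⊕ Fin (m + 3)) ⊕ Fin 2 → F // qfMinus (m + 3) F a b u = 0 ∧ ¬ u = 0} =
      N0 (qfMinus (m + 3) F a b) := rfl
    rw [h2, h4] at h1
    rw [h1] at hN
    push_cast at hN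
    linear_combination -hN
  have hκ : ∀ c : F, c ≠ 0 → (Nat.card {u // qfMinus (m + 3) F a b u = c} : ℤ) =
      (Fintype.card F : ℤ) ^ 3 * w ^ 2 + Fintype.card F * w := by
    intro c hc
    have e : Nat.card {v : (Fin (m + 3) ⊕ Fin (m + 3)) ⊕ Fin 2 → F // qfMinus (m + 3) F a b v = c} =
      Nat.card {v : (Fin (m + 3) ⊕ Fin (m + 3)) ⊕ Fin 2 → F // Cfsg.quadFormMinus (m + 3) F a b v = c} := rfl
    rw [e]
    have h2 := card_value_minus (F := F) (m + 3) (OrthCount.aniso_of hab) hc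
    apply mul_left_cancel₀ (show (Fintype.card F : ℤ) ≠ 0 by omega)
    have h3 : ((Fintype.card F * Nat.card {v : (Fin (m + 3) ⊕ Fin (m + 3)) ⊕ Fin 2 → F //
      Cfsg.quadFormMinus (m + 3) F a b v = c} : ℕ) : ℤ) = ((Fintype.card F ^ (2 * (m + 3) + 2) +
        Fintype.card F ^ (m + 3 + 1) : ℕ) : ℤ) := by rw [h2]
    push_cast at h3
    rw [p3, p5] at h3
    rw [h3]; ring
  have hirr' := irr_transfer (omegaEquiv (qfMinus (m + 3) F a b)) hk ρ hirr
  have hnt := exists_ne_of_irr _ hirr' hk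
  have hfr : finrank F ((Fin (m + 3) ⊕ Fin (m + 3)) ⊕ Fin 2 → F) = 2 * (m + 4) := by
    rw [finrank_fintype_fun_eq_card]
    simp
    ring
  refine minus_main (Q := qfMinus (m + 3) F a b) (q := Fintype.card F) (w := w) rfl hw hfr hN' hκ hirr' hnt ?_
  rw [finrank_fin_fun]
  exact h1'

end Cfsg.Agent.LSO
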