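import Cfsg.Agent.LSO.Apply

/-!
Minimal degrees for the groups `Ω⁺` and `Ω⁻` over fields with more than three elements.
-/

set_option autoImplicit false
set_option linter.unusedSectionVars false
set_option linter.style.haveILetI false

namespace Cfsg.Agent.LSO

open QuadraticMap Module Cfsg.Agent.H39 Cfsg.Agent.LSU
open Cfsg.Agent.Orth hiding map_mul
open scoped Classical

/-! ### arithmetic for the plus type; `w = q^(n-2)` -/

theorem arith_plus1 {q w D : ℤ} (hq : 3 ≤ q) (hw : w = q ^ 2 ∨ q ^ 3 ≤ w)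
    (h1 : q * (q ^ 2 - 1) * (1 + q * w ^ 2) * D =
      ((q ^ 2 * w - 1) * (q * w + 1)) * (q * ((q * w - 1) * (w + 1)))) : False := by
  have hq0 : q ≠ 0 := by omega
  have h2 : (q ^ 2 - 1) * (1 + q * w ^ 2) * D = ((q ^ 2 * w - 1) * (q * w + 1)) * ((q * w - 1) * (w + 1)) := by
    apply mul_left_cancel₀ hq0
    linear_combination h1
  have h9 : (9 : ℤ) ≤ q ^ 2 := by nlinarith
  have h3 : (1 + q * w ^ 2) ∣ (q + 1) ^ 2 * ((q - 1) * w - 1) := by
    refine ⟨q ^ 2 * ((q * w - 1) * (w + 1)) + ((q ^ 2 - q) * w - (q ^ 2 + 1)) + (q - 1) ^ 2 - (q ^ 2 - 1) * D, ?_⟩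
    linear_combination h2
  rcases hw with rfl | hw
  · have h4 : (1 + q * (q ^ 2) ^ 2) ∣ q ^ 4 - q ^ 3 - 2 * q ^ 2 - 2 * q - 2 := by
      have := dvd_sub h3 (dvd_refl (1 + q * (q ^ 2) ^ 2))
      have e : (q + 1) ^ 2 * ((q - 1) * q ^ 2 - 1) - (1 + q * (q ^ 2) ^ 2) = q ^ 4 - q ^ 3 - 2 * q ^ 2 - 2 * q - 2 := by ring
      rwa [e] at this
    have h27 : (0 : ℤ) < q ^ 4 - q ^ 3 - 2 * q ^ 2 - 2 * q - 2 := by
      have e : q ^ 4 - q ^ 3 - 2 * q ^ 2 - 2 * q - 2 = q ^ 2 * (q * (q - 3) + 2 * (q - 3) + 4) - 2 * q - 2 := by ring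
      nlinarith [mul_nonneg (show (0 : ℤ) ≤ q by omega) (show (0 : ℤ) ≤ q - 3 by omega)]
    have h5 := Int.le_of_dvd h27 h4
    have h6 : (0 : ℤ) ≤ q ^ 4 := by positivity
    have h7 : (0 : ℤ) ≤ q ^ 3 := by positivity
    have h8 : q ^ 4 ≤ q * (q ^ 2) ^ 2 := by nlinarith
    nlinarith
  · have h0 : 0 < q ^ 3 := pow_pos (by omega) 3
    have hw1 : (27 : ℤ) ≤ w := by nlinarith
    have h5 := Int.le_of_dvd (mul_pos (by positivity) (by nlinarith)) h3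
    have h6 : (q + 1) ^ 2 * (q - 1) ≤ q * w := by
      have : q * q ^ 3 ≤ q * w := mul_le_mul_of_nonneg_left hw (by omega)
      nlinarith
    have h7 : (q + 1) ^ 2 * (q - 1) * w ≤ q * w * w := mul_le_mul_of_nonneg_right h6 (by omega)
    nlinarith

theorem arith_plus2 {q w D : ℤ} (hq : 3 ≤ q) (hw : 1 ≤ w) (h1 : (D + 1) * (q ^ 2 - 1) ≤ (q ^ 2 * w - 1) * (q * w + q))
    (hc : ((q ^ 2 * w - 1) * (q * w + 1)) * (q * ((q * w - 1) * (w + 1))) ≤ (q ^ 2 - 1) * (q ^ 2 * w ^ 2 - 1) * D) :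
    False := by
  have h9 : (9 : ℤ) ≤ q ^ 2 := by nlinarith
  have h3 : 0 < (q * w + 1) * (q * w - 1) := mul_pos (by positivity) (by nlinarith)
  have h4 : ((q * w + 1) * (q * w - 1)) * ((q ^ 2 * w - 1) * (q * w + q)) ≤ ((q * w + 1) * (q * w - 1)) * ((q ^ 2 - 1) * D) := by
    linarith
  have h5 := le_of_mul_le_mul_left h4 h3
  linarith

theorem arith_plus3 {q w D : ℤ} (hq : 4 ≤ q) (hw : q ^ 2 ≤ w) (h1 : (D + 1) * (q ^ 2 - 1) ≤ (q ^ 2 * w - 1) * (q * w + q)) :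
    D < 2 * (q - 1) * w ^ 2 := by
  by_contra hcon2
  push Not at hcon2
  have h9 : (16 : ℤ) ≤ q ^ 2 := by nlinarith
  have hw0 : 0 < w := by omega
  have e1 : (2 * (q - 1) * w ^ 2 + 1) * (q ^ 2 - 1) ≤ (D + 1) * (q ^ 2 - 1) :=
    mul_le_mul_of_nonneg_right (by linarith) (by linarith)
  have e2 : (q ^ 2 * w - 1) * (q * w + q) ≤ q ^ 2 * w * (q * w + q) :=
    mul_le_mul_of_nonneg_right (by linarith) (by positivity)
  have e3 : q ^ 2 * w * (q * w + q) ≤ q * w * (w * (q ^ 2 + 1)) := by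
    have : q ^ 2 * w + q ^ 2 ≤ w * (q ^ 2 + 1) := by nlinarith
    have h := mul_le_mul_of_nonneg_left this (show 0 ≤ q * w by positivity)
    nlinarith
  have e4 : 0 < (2 * (q - 1) * (q ^ 2 - 1) - q * (q ^ 2 + 1)) * w ^ 2 := by
    apply mul_pos _ (by positivity)
    nlinarith
  nlinarith

/-! ### arithmetic for the minus type -/

theorem arith_minus1 {q w D : ℤ} (hq : 2 ≤ q) (hw : w = q ^ 2 ∨ q ^ 3 ≤ w)
    (h1 : q * (q ^ 2 - 1) * (1 + q * w ^ 2) * D =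
      ((q ^ 2 * w + 1) * (q * w - 1)) * (q * ((q * w + 1) * (w - 1)))) : False := by
  have hq0 : q ≠ 0 := by omega
  have h2 : (q ^ 2 - 1) * (1 + q * w ^ 2) * D = ((q ^ 2 * w + 1) * (q * w - 1)) * ((q * w + 1) * (w - 1)) := by
    apply mul_left_cancel₀ hq0
    linear_combination h1
  have h9 : (4 : ℤ) ≤ q ^ 2 := by nlinarith
  have h3 : (1 + q * w ^ 2) ∣ (q + 1) ^ 2 * ((q - 1) * w + 1) := by
    refine ⟨(q ^ 2 - 1) * D - q ^ 2 * ((q * w + 1) * (w - 1)) + ((q ^ 2 - q) * w + (q ^ 2 + 1)) - (q - 1) ^ 2, ?_⟩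
    linear_combination -h2
  rcases hw with rfl | hw
  · have h4 : (1 + q * (q ^ 2) ^ 2) ∣ q ^ 4 - q ^ 3 + 2 * q := by
      have := dvd_sub h3 (dvd_refl (1 + q * (q ^ 2) ^ 2))
      have e : (q + 1) ^ 2 * ((q - 1) * q ^ 2 + 1) - (1 + q * (q ^ 2) ^ 2) = q ^ 4 - q ^ 3 + 2 * q := by ring
      rwa [e] at this
    have h27 : (0 : ℤ) < q ^ 4 - q ^ 3 + 2 * q := by
      have e : q ^ 4 - q ^ 3 + 2 * q = q ^ 3 * (q - 1) + 2 * q := by ring
      rw [e]
      have : 0 < q ^ 3 := pow_pos (by omega) 3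
      have := mul_pos this (show (0 : ℤ) < q - 1 by omega)
      omega
    have h5 := Int.le_of_dvd h27 h4
    have h8 : 2 * q ^ 4 ≤ q * (q ^ 2) ^ 2 := by
      have : 0 ≤ q ^ 4 := by positivity
      nlinarith
    have h10 : 2 * q ^ 3 ≤ q ^ 4 := by
      have : 0 ≤ q ^ 3 := by positivity
      nlinarith
    have h11 : 4 * q ≤ q ^ 3 := by nlinarith
    nlinarith
  · have h0 : 0 < q ^ 3 := pow_pos (by omega) 3
    have hw1 : (8 : ℤ) ≤ w := by nlinarith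
    have h5 := Int.le_of_dvd (mul_pos (by positivity) (by nlinarith)) h3
    have h6 : q ^ 4 * w ≤ q * w ^ 2 := by
      have : q * w * q ^ 3 ≤ q * w * w := mul_le_mul_of_nonneg_left hw (by positivity)
      nlinarith
    have h7 : 0 < (q ^ 4 - (q + 1) ^ 2 * (q - 1)) := by nlinarith [sq_nonneg (q ^ 2 - q)]
    have h8 : (7 : ℤ) ≤ q ^ 4 - (q + 1) ^ 2 * (q - 1) := by
      have : q ^ 4 - (q + 1) ^ 2 * (q - 1) = (q - 2) * (q ^ 3 + q ^ 2 + q + 3) + 7 := by ring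
      rw [this]
      have := mul_nonneg (show (0 : ℤ) ≤ q - 2 by omega) (show (0 : ℤ) ≤ q ^ 3 + q ^ 2 + q + 3 by positivity)
      omega
    have h10 : 7 * w ≤ (q ^ 4 - (q + 1) ^ 2 * (q - 1)) * w := mul_le_mul_of_nonneg_right h8 (by omega)
    have h11 : (q + 1) ^ 2 ≤ 7 * w := by nlinarith
    nlinarith

theorem arith_minus2 {q w D : ℤ} (hq : 2 ≤ q) (hw : 1 ≤ w) (h1 : (D + 1) * (q ^ 2 - 1) ≤ (q ^ 2 * w + 1) * (q * w - q))
    (hc : ((q ^ 2 * w + 1) * (q * w - 1)) * (q * ((q * w + 1) * (w - 1))) ≤ (q ^ 2 - 1) * (q ^ 2 * w ^ 2 - 1) * D) :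
    False := by
  have h9 : (4 : ℤ) ≤ q ^ 2 := by nlinarith
  have h3 : 0 < (q * w + 1) * (q * w - 1) := mul_pos (by positivity) (by nlinarith)
  have h4 : ((q * w + 1) * (q * w - 1)) * ((q ^ 2 * w + 1) * (q * w - q)) ≤ ((q * w + 1) * (q * w - 1)) * ((q ^ 2 - 1) * D) := by
    linarith
  have h5 := le_of_mul_le_mul_left h4 h3
  linarith

theorem arith_minus3 {q w D : ℤ} (hq : 3 ≤ q) (hw : q ^ 2 ≤ w) (h1 : (D + 1) * (q ^ 2 - 1) ≤ (q ^ 2 * w + 1) * (q * w - q)) :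
    D < 2 * (q - 1) * w ^ 2 := by
  by_contra hcon2
  push Not at hcon2
  have h9 : (9 : ℤ) ≤ q ^ 2 := by nlinarith
  have hw0 : 0 < w := by omega
  have e1 : (2 * (q - 1) * w ^ 2 + 1) * (q ^ 2 - 1) ≤ (D + 1) * (q ^ 2 - 1) :=
    mul_le_mul_of_nonneg_right (by linarith) (by linarith)
  have e3 : (q ^ 2 * w + 1) * (q * w - q) ≤ q ^ 3 * w ^ 2 := by
    have e5 : 0 ≤ q * w * (q ^ 2 - 1) := mul_nonneg (mul_nonneg (by omega) (by omega)) (by linarith)
    linarith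
  have e4 : 0 < (2 * (q - 1) * (q ^ 2 - 1) - q ^ 3) * w ^ 2 := by
    apply mul_pos _ (by positivity)
    nlinarith
  nlinarith

variable {F : Type*} [Field F] [Fintype F]

theorem nice_plus {n : ℕ} (hn : 4 ≤ n) : Nice (qfPlus n F) := by
  refine ⟨qfPlus_nondegenerate n F, ?_⟩
  rw [finrank_fintype_fun_eq_card]
  simp
  omega

theorem w_cases (m : ℕ) (q : ℤ) (hq : 1 ≤ q) : q ^ (m + 2) = q ^ 2 ∨ q ^ 3 ≤ q ^ (m + 2) := by
  rcases Nat.eq_zero_or_pos m with rfl | hm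
  · left; rfl
  · right
    exact pow_le_pow_right₀ hq (by omega)

theorem bound_plus {n : ℕ} (hn : 4 ≤ n) (h3 : 3 < Fintype.card F) {k : ℕ} (hk : 2 ≤ k)
    (ρ : Representation ℂ (Cfsg.Omega F (Cfsg.quadFormPlus n F)) (Fin k → ℂ)) (hirr : ρ.IsIrreducible) :
    (Fintype.card F ^ n - 1) * (Fintype.card F ^ (n - 1) + Fintype.card F) / (Fintype.card F ^ 2 - 1) ≤ k := by
  haveI := nice_plus (F := F) hn
  by_contra hcon
  push Not at hcon
  have hq2 : 0 < Fintype.card F ^ 2 - 1 := by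
    have : 3 ^ 2 ≤ Fintype.card F ^ 2 := Nat.pow_le_pow_left (by omega) 2
    omega
  have h1 : (k + 1) * (Fintype.card F ^ 2 - 1) ≤ (Fintype.card F ^ n - 1) * (Fintype.card F ^ (n - 1) + Fintype.card F) :=
    (Nat.le_div_iff_mul_le hq2).1 hcon
  obtain ⟨m, rfl⟩ : ∃ m, n = m + 4 := ⟨n - 4, by omega⟩
  have e1 : m + 4 - 1 = m + 3 := rfl
  rw [e1] at h1
  have hcι : Fintype.card (Fin (m + 4) ⊕ Fin (m + 4)) - 4 = 2 * (m + 2) := by simp; omega
  have hz := OrthCount.zeros_plus (F := F) (m + 4)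
  rw [Nat.card_eq_fintype_card] at hz
  have hqz : (3 : ℤ) < Fintype.card F := by exact_mod_cast h3
  set w : ℤ := (Fintype.card F : ℤ) ^ (m + 2) with hw
  have p1 : (Fintype.card F : ℤ) ^ (m + 4) = (Fintype.card F : ℤ) ^ 2 * w := by
    rw [hw, ← pow_add]; congr 1; omega
  have p2 : (Fintype.card F : ℤ) ^ (m + 3) = (Fintype.card F : ℤ) * w := by
    rw [hw, ← pow_succ']
  have h1' : ((k : ℤ) + 1) * ((Fintype.card F : ℤ) ^ 2 - 1) ≤
      ((Fintype.card F : ℤ) ^ 2 * w - 1) * (Fintype.card F * w + Fintype.card F) := by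
    have h2 : (((k + 1) * (Fintype.card F ^ 2 - 1) : ℕ) : ℤ) ≤
      (((Fintype.card F ^ (m + 4) - 1) * (Fintype.card F ^ (m + 3) + Fintype.card F) : ℕ) : ℤ) := by
      exact_mod_cast h1
    rw [Nat.cast_mul, Nat.cast_mul, Nat.cast_sub (by omega), Nat.cast_sub (Nat.one_le_pow _ _ (by omega))] at h2
    push_cast at h2
    rw [p1, p2] at h2
    exact h2
  have hwq : (Fintype.card F : ℤ) ^ 2 ≤ w := by
    rw [hw]; exact pow_le_pow_right₀ (by omega) (by omega)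
  have hDz := arith_plus3 (by omega) hwq h1'
  have hD : k < 2 * (Fintype.card F - 1) * Fintype.card F ^ (Fintype.card (Fin (m + 4) ⊕ Fin (m + 4)) - 4) := by
    rw [hcι]
    zify [show 1 ≤ Fintype.card F by omega]
    rw [mul_comm 2 (m + 2), pow_mul]
    exact hDz
  have hN : (((Fintype.card F : ℤ) ^ 2 * w - 1) * (Fintype.card F * w + 1)) + 1 =
      Nat.card {v : Fin (m + 4) ⊕ Fin (m + 4) → F // qfPlus (m + 4) F v = 0} := by
    have e : Nat.card {v : Fin (m + 4) ⊕ Fin (m + 4) → F // qfPlus (m + 4) F v = 0} =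
      Nat.card {v : Fin (m + 4) ⊕ Fin (m + 4) → F // Cfsg.quadFormPlus (m + 4) F v = 0} := rfl
    rw [e]
    apply mul_left_cancel₀ (show (Fintype.card F : ℤ) ≠ 0 by omega)
    have hz' : ((Fintype.card F * Nat.card {v : Fin (m + 4) ⊕ Fin (m + 4) → F // Cfsg.quadFormPlus (m + 4) F v = 0} +
      Fintype.card F ^ (m + 4) : ℕ) : ℤ) = ((Fintype.card F ^ (2 * (m + 4)) + Fintype.card F ^ (m + 4 + 1) : ℕ) : ℤ) := by
      rw [hz]
    push_cast at hz'
    have p3 : (Fintype.card F : ℤ) ^ (2 * (m + 4)) = (Fintype.card F : ℤ) ^ 4 * w ^ 2 := by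
      rw [hw, ← pow_mul, ← pow_add]; congr 1; omega
    have p4 : (Fintype.card F : ℤ) ^ (m + 4 + 1) = (Fintype.card F : ℤ) ^ 3 * w := by
      rw [hw, ← pow_add]; congr 1; omega
    rw [p1, p3, p4] at hz'
    linear_combination -hz'
  rcases alt_matrix (qfPlus (m + 4) F) h3 hk ρ hirr hD rfl (h := w ^ 2) (by rw [hcι, hw, ← pow_mul, mul_comm]) hN rfl rfl
    with hc | hc
  · apply arith_plus1 (q := (Fintype.card F : ℤ)) (w := w) (D := (k : ℤ)) (by omega) (w_cases m _ (by omega))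
    rw [hc]; ring
  · apply arith_plus2 (q := (Fintype.card F : ℤ)) (w := w) (D := (k : ℤ)) (by omega) (by nlinarith) h1'
    refine le_trans (le_of_eq ?_) hc
    ring

theorem nice_minus {n : ℕ} (hn : 4 ≤ n) (a b : F)
    (hab : ∀ z₁ z₂ : F, z₁ ^ 2 + a * z₁ * z₂ + b * z₂ ^ 2 = 0 → z₁ = 0 ∧ z₂ = 0) : Nice (qfMinus (n - 1) F a b) := by
  refine ⟨qfMinus_nondegenerate (n - 1) F (disc_ne_zero_of_aniso hab), ?_⟩
  rw [finrank_fintype_fun_eq_card]
  simp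
  omega

theorem bound_minus {n : ℕ} (hn : 4 ≤ n) (a b : F)
    (hab : ∀ z₁ z₂ : F, z₁ ^ 2 + a * z₁ * z₂ + b * z₂ ^ 2 = 0 → z₁ = 0 ∧ z₂ = 0) (h3 : 3 < Fintype.card F) {k : ℕ}
    (hk : 2 ≤ k)
    (ρ : Representation ℂ (Cfsg.Omega F (Cfsg.quadFormMinus (n - 1) F a b)) (Fin k → ℂ)) (hirr : ρ.IsIrreducible) :
    (Fintype.card F ^ n + 1) * (Fintype.card F ^ (n - 1) - Fintype.card F) / (Fintype.card F ^ 2 - 1) ≤ k := by
  haveI := nice_minus (F := F) hn a b hab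
  by_contra hcon
  push Not at hcon
  have hq2 : 0 < Fintype.card F ^ 2 - 1 := by
    have : 3 ^ 2 ≤ Fintype.card F ^ 2 := Nat.pow_le_pow_left (by omega) 2
    omega
  have h1 : (k + 1) * (Fintype.card F ^ 2 - 1) ≤ (Fintype.card F ^ n + 1) * (Fintype.card F ^ (n - 1) - Fintype.card F) :=
    (Nat.le_div_iff_mul_le hq2).1 hcon
  obtain ⟨m, rfl⟩ : ∃ m, n = m + 4 := ⟨n - 4, by omega⟩
  have e1 : m + 4 - 1 = m + 3 := rfl
  rw [e1] at h1
  change Representation ℂ (Cfsg.Omega F (Cfsg.quadFormMinus (m + 3) F a b)) (Fin k → ℂ) at ρ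
  change Nice (qfMinus (m + 3) F a b) at this
  have hcι : Fintype.card ((Fin (m + 3) ⊕ Fin (m + 3)) ⊕ Fin 2) - 4 = 2 * (m + 2) := by simp; omega
  have hz := OrthCount.zeros_minus (F := F) (m + 3) (OrthCount.aniso_of hab)
  rw [Nat.card_eq_fintype_card] at hz
  have hqz : (3 : ℤ) < Fintype.card F := by exact_mod_cast h3
  set w : ℤ := (Fintype.card F : ℤ) ^ (m + 2) with hw
  have p1 : (Fintype.card F : ℤ) ^ (m + 4) = (Fintype.card F : ℤ) ^ 2 * w := by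
    rw [hw, ← pow_add]; congr 1; omega
  have p2 : (Fintype.card F : ℤ) ^ (m + 3) = (Fintype.card F : ℤ) * w := by
    rw [hw, ← pow_succ']
  have h1' : ((k : ℤ) + 1) * ((Fintype.card F : ℤ) ^ 2 - 1) ≤
      ((Fintype.card F : ℤ) ^ 2 * w + 1) * (Fintype.card F * w - Fintype.card F) := by
    have h2 : (((k + 1) * (Fintype.card F ^ 2 - 1) : ℕ) : ℤ) ≤
      (((Fintype.card F ^ (m + 4) + 1) * (Fintype.card F ^ (m + 3) - Fintype.card F) : ℕ) : ℤ) := by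
      exact_mod_cast h1
    rw [Nat.cast_mul, Nat.cast_mul, Nat.cast_sub (by omega), Nat.cast_sub (by
      calc Fintype.card F = Fintype.card F ^ 1 := (pow_one _).symm
        _ ≤ _ := Nat.pow_le_pow_right (by omega) (by omega))] at h2
    push_cast at h2
    rw [p1, p2] at h2
    exact h2
  have hwq : (Fintype.card F : ℤ) ^ 2 ≤ w := by
    rw [hw]; exact pow_le_pow_right₀ (by omega) (by omega)
  have hDz := arith_minus3 (by omega) hwq h1'
  have hD : k < 2 * (Fintype.card F - 1) * Fintype.card F ^ (Fintype.card ((Fin (m + 3) ⊕ Fin (m + 3)) ⊕ Fin 2) - 4) := by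
    rw [hcι]
    zify [show 1 ≤ Fintype.card F by omega]
    rw [mul_comm 2 (m + 2), pow_mul]
    exact hDz
  have hN : (((Fintype.card F : ℤ) ^ 2 * w + 1) * (Fintype.card F * w - 1)) + 1 =
      Nat.card {v : (Fin (m + 3) ⊕ Fin (m + 3)) ⊕ Fin 2 → F // qfMinus (m + 3) F a b v = 0} := by
    have e : Nat.card {v : (Fin (m + 3) ⊕ Fin (m + 3)) ⊕ Fin 2 → F // qfMinus (m + 3) F a b v = 0} =
      Nat.card {v : (Fin (m + 3) ⊕ Fin (m + 3)) ⊕ Fin 2 → F // Cfsg.quadFormMinus (m + 3) F a b v = 0} := rfl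
    rw [e]
    apply mul_left_cancel₀ (show (Fintype.card F : ℤ) ≠ 0 by omega)
    have hz' : ((Fintype.card F * Nat.card {v : (Fin (m + 3) ⊕ Fin (m + 3)) ⊕ Fin 2 → F //
      Cfsg.quadFormMinus (m + 3) F a b v = 0} +
      Fintype.card F ^ (m + 3 + 2) : ℕ) : ℤ) = ((Fintype.card F ^ (2 * (m + 3) + 2) + Fintype.card F ^ (m + 3 + 1) : ℕ) : ℤ) := by
      rw [hz]
    push_cast at hz'
    have p3 : (Fintype.card F : ℤ) ^ (2 * (m + 3) + 2) = (Fintype.card F : ℤ) ^ 4 * w ^ 2 := by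
      rw [hw, ← pow_mul, ← pow_add]; congr 1; omega
    have p4 : (Fintype.card F : ℤ) ^ (m + 3 + 2) = (Fintype.card F : ℤ) ^ 3 * w := by
      rw [hw, ← pow_add]; congr 1; omega
    have p5 : (Fintype.card F : ℤ) ^ (m + 3 + 1) = (Fintype.card F : ℤ) ^ 2 * w := by
      rw [hw, ← pow_add]; congr 1; omega
    rw [p3, p4, p5] at hz'
    linear_combination -hz'
  rcases alt_matrix (qfMinus (m + 3) F a b) h3 hk ρ hirr hD rfl (h := w ^ 2) (by rw [hcι, hw, ← pow_mul, mul_comm]) hN rfl rfl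
    with hc | hc
  · apply arith_minus1 (q := (Fintype.card F : ℤ)) (w := w) (D := (k : ℤ)) (by omega) (w_cases m _ (by omega))
    rw [hc]; ring
  · apply arith_minus2 (q := (Fintype.card F : ℤ)) (w := w) (D := (k : ℤ)) (by omega) (by nlinarith) h1'
    refine le_trans (le_of_eq ?_) hc
    ring

end Cfsg.Agent.LSO
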