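import Cfsg.Agent.LSO.Line

/-!
Counting.
-/

set_option autoImplicit false
set_option linter.unusedSectionVars false
set_option linter.style.haveILetI false

namespace Cfsg.Agent.LSO

open QuadraticMap Module
open Cfsg.Agent.Orth hiding map_mul
open scoped Classical

section general
variable {F M : Type*} [Field F] [AddCommGroup M] [Module F M] [Fintype F] [Fintype M]

theorem sum_ite_card {M : Type*} [Fintype M] (S : M → Prop) [DecidablePred S] (c : ℂ) : ∑ u : M, (if S u then c else 0) = (Nat.card {u // S u} : ℂ) * c := by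
  rw [Finset.sum_ite, Finset.sum_const_zero, add_zero, Finset.sum_const, nsmul_eq_mul, Nat.card_eq_fintype_card,
    Fintype.card_subtype]

/-- shifting along a vector -/
theorem card_shift (S : M → Prop) (f k : M → F) (p : M) (hS : ∀ u (c : F), S u → S (u + c • p))
    (hf : ∀ u (c : F), S u → f (u + c • p) = f u + c * k u) (hk : ∀ u (c : F), S u → k (u + c • p) = k u)
    (hk0 : ∀ u, S u → k u ≠ 0) (a : F) :
    Nat.card {u // S u} = Fintype.card F * Nat.card {u // S u ∧ f u = a} := by
  rw [← Nat.card_eq_fintype_card, ← Nat.card_prod]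
  refine Nat.card_congr
    { toFun := fun u => (-((a - f u.1) / k u.1), ⟨u.1 + ((a - f u.1) / k u.1) • p, hS _ _ u.2, ?_⟩)
      invFun := fun w => ⟨w.2.1 + w.1 • p, hS _ _ w.2.2.1⟩
      left_inv := fun u => Subtype.ext ?_
      right_inv := fun w => ?_ }
  · rw [hf _ _ u.2, div_mul_cancel₀ _ (hk0 _ u.2)]; ring
  · change u.1 + ((a - f u.1) / k u.1) • p + (-((a - f u.1) / k u.1)) • p = u.1
    rw [neg_smul, add_neg_cancel_right]
  · obtain ⟨c, u, hu, rfl⟩ := w
    have h1 : (f u - f (u + c • p)) / k (u + c • p) = -c := by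
      rw [hf _ _ hu, hk _ _ hu]
      field_simp [hk0 _ hu]
      ring
    ext
    · change -((f u - f (u + c • p)) / k (u + c • p)) = c
      rw [h1, neg_neg]
    · change u + c • p + ((f u - f (u + c • p)) / k (u + c • p)) • p = u
      rw [h1, neg_smul, add_neg_cancel_right]

theorem card_split (S T : M → Prop) : Nat.card {u // S u} = Nat.card {u // S u ∧ T u} + Nat.card {u // S u ∧ ¬ T u} := by
  rw [Nat.card_eq_fintype_card, Nat.card_eq_fintype_card, Nat.card_eq_fintype_card, Fintype.card_subtype,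
    Fintype.card_subtype, Fintype.card_subtype, ← Finset.card_filter_add_card_filter_not (s := Finset.univ.filter S) T,
    Finset.filter_filter, Finset.filter_filter]

theorem card_congr_iff {S T : M → Prop} (h : ∀ u, S u ↔ T u) : Nat.card {u // S u} = Nat.card {u // T u} := by
  have : S = T := funext fun u => propext (h u)
  rw [this]

theorem card_submodule (S : Submodule F M) : Nat.card {u // u ∈ S} = Fintype.card F ^ finrank F S := by
  have h := Module.card_eq_pow_finrank (K := F) (V := S)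
  rw [← h, Nat.card_eq_fintype_card]

end general

variable {F M : Type*} [Field F] [AddCommGroup M] [Module F M] [Fintype F] [Fintype M] [FiniteDimensional F M]
variable {Q : QuadraticForm F M} [Nice Q]

theorem card_perp_fin {n : ℕ} {w : Fin n → M} (hw : LinearIndependent F w) :
    Nat.card {y // ∀ i, polar Q (w i) y = 0} * Fintype.card F ^ n = Fintype.card M := by
  have h1 := finrank_perp (nd Q) (Submodule.span F (Set.range w))
  rw [finrank_span_eq_card hw, Fintype.card_fin] at h1
  have h2 : Nat.card {y // ∀ i, polar Q (w i) y = 0} = Nat.card {y // y ∈ perp Q (Submodule.span F (Set.range w))} := by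
    apply card_congr_iff
    intro y
    rw [mem_perp]
    constructor
    · intro h u hu
      induction hu using Submodule.span_induction with
      | mem u hu => obtain ⟨i, rfl⟩ := hu; exact h i
      | zero => exact polar_zero_left Q _
      | add a b _ _ ha hb => rw [pal, ha, hb, add_zero]
      | smul c a _ ha => rw [psl, ha, mul_zero]
    · intro h i
      exact h _ (Submodule.subset_span ⟨i, rfl⟩)
  rw [h2, card_submodule, ← pow_add, h1, ← card_M]

theorem card_perp1 {p : M} (hp : p ≠ 0) :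
    Nat.card {y // polar Q p y = 0} * Fintype.card F = Fintype.card M := by
  have h := card_perp_fin (Q := Q) (w := ![p]) (by rw [linearIndependent_unique_iff]; exact hp)
  rw [pow_one] at h
  rw [← h]
  congr 1
  apply card_congr_iff
  intro y
  exact ⟨fun h i => by fin_cases i; exact h, fun h => h 0⟩

theorem card_perp2 {p x : M} (h : LinearIndependent F ![p, x]) :
    Nat.card {y // polar Q p y = 0 ∧ polar Q x y = 0} * Fintype.card F ^ 2 = Fintype.card M := by
  rw [← card_perp_fin (Q := Q) h]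
  congr 1
  apply card_congr_iff
  intro y
  refine ⟨fun h i => ?_, fun h => ⟨h 0, h 1⟩⟩
  fin_cases i
  · exact h.1
  · exact h.2

theorem card_perp3 {p x u : M} (h : LinearIndependent F ![p, x]) (hu : u ∉ LL F p x) :
    Nat.card {y // polar Q p y = 0 ∧ polar Q x y = 0 ∧ polar Q u y = 0} * Fintype.card F ^ 3 = Fintype.card M := by
  have hli : LinearIndependent F ![u, p, x] := by
    have e : (![u, p, x] : Fin 3 → M) = Fin.cons u ![p, x] := rfl
    rw [e, linearIndependent_finCons]
    refine ⟨h, ?_⟩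
    have h2 : Set.range ![p, x] = {p, x} := by simp [Set.pair_comm]
    rw [h2]; exact hu
  rw [← card_perp_fin (Q := Q) hli]
  congr 1
  apply card_congr_iff
  intro y
  refine ⟨fun h i => ?_, fun h => ⟨h 1, h 2, h 0⟩⟩
  fin_cases i
  · exact h.2.2
  · exact h.1
  · exact h.2.1

/-- the vectors of the third kind -/
def Zp (Q : QuadraticForm F M) (p x u : M) : Prop := Q u = 0 ∧ polar Q p u = 0 ∧ polar Q x u = 0 ∧ u ∉ LL F p x

theorem Zp.symm {p x u : M} (h : Zp Q p x u) : Zp Q x p u := ⟨h.1, h.2.2.1, h.2.1, by rw [LL_symm]; exact h.2.2.2⟩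

theorem Zp.sp_right {p x u : M} (hx : x ≠ 0) (hqx : Q x = 0) (h : Zp Q p x u) : SP Q x u :=
  ⟨hx, fun h1 => h.2.2.2 (Submodule.span_mono (by simp) h1), hqx, h.1, h.2.2.1⟩

theorem Zp.shift {p x u : M} (h : SP Q p x) (hu : Zp Q p x u) (c : F) : Zp Q p x (u + c • p) := by
  obtain ⟨h1, h2, h3, h4⟩ := hu
  refine ⟨?_, ?_, ?_, fun h5 => h4 ?_⟩
  · rw [qadd, qsmul, psr, h.qp, h1, pc, h2]; ring
  · rw [par, psr, h2, polar_self_of h.qp]; ring
  · rw [par, psr, h3, pc Q x p, h.px]; ring
  · have := Submodule.sub_mem _ h5 (Submodule.smul_mem _ c (left_mem (F := F) p x))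
    rwa [add_sub_cancel_right] at this

/-- number of vectors of the third kind orthogonal to `y` -/
theorem card_Zp_ortho {p x y : M} (h : SP Q p x) (hpy : polar Q p y ≠ 0) :
    Nat.card {u // Zp Q p x u} = Fintype.card F * Nat.card {u // Zp Q p x u ∧ polar Q u y = 0} :=
  card_shift (Zp Q p x) (fun u => polar Q u y) (fun _ => polar Q p y) p (fun u c hu => hu.shift h c)
    (fun u c _ => by rw [pal, psl]) (fun _ _ _ => rfl) (fun _ _ => hpy) 0

/-- (C5) -/
theorem card_nonortho {p : M} (hp : p ≠ 0) (hq : Q p = 0) :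
    Nat.card {u // Q u = 0 ∧ polar Q p u ≠ 0} * Fintype.card F ^ 2 + Fintype.card M =
      Fintype.card F * Fintype.card M := by
  have h1 := card_shift (fun u => polar Q p u ≠ 0) (fun u => Q u) (fun u => polar Q p u) p
    (fun u c hu => by rw [par, psr, polar_self_of hq, mul_zero, add_zero]; exact hu)
    (fun u c _ => by change Q (u + c • p) = Q u + c * polar Q p u; rw [qadd, qsmul, hq, psr, pc Q u p]; ring)
    (fun u c _ => by change polar Q p (u + c • p) = polar Q p u; rw [par, psr, polar_self_of hq, mul_zero, add_zero])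
    (fun _ hu => hu) 0
  have h2 := card_split (fun _ : M => True) (fun u => polar Q p u = 0)
  have h3 := card_perp1 (Q := Q) hp
  have h4 : Nat.card {u : M // True} = Fintype.card M := by
    rw [← Nat.card_eq_fintype_card]
    exact Nat.card_congr (Equiv.subtypeUnivEquiv fun _ => trivial)
  simp only [true_and] at h2
  rw [h4] at h2
  have h5 : Nat.card {u // polar Q p u ≠ 0 ∧ Q u = 0} = Nat.card {u // Q u = 0 ∧ polar Q p u ≠ 0} :=
    card_congr_iff fun u => and_comm
  rw [h5] at h1
  have h6 : Nat.card {u // ¬ polar Q p u = 0} = Nat.card {u // polar Q p u ≠ 0} := rfl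
  rw [h6, h1] at h2
  calc Nat.card {u // Q u = 0 ∧ polar Q p u ≠ 0} * Fintype.card F ^ 2 + Fintype.card M
      = Fintype.card F * (Fintype.card F * Nat.card {u // Q u = 0 ∧ polar Q p u ≠ 0}) +
        Nat.card {y // polar Q p y = 0} * Fintype.card F := by rw [h3]; ring
    _ = Fintype.card F * Fintype.card M := by conv_rhs => rw [h2]
                                              ring

/-- inside the hyperplane of `x` -/
theorem card_nonortho2 {p x : M} (h : SP Q p x) :
    Nat.card {u // Q u = 0 ∧ polar Q x u = 0 ∧ polar Q p u ≠ 0} * Fintype.card F ^ 3 + Fintype.card M =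
      Fintype.card F * Fintype.card M := by
  have h1 := card_shift (fun u => polar Q x u = 0 ∧ polar Q p u ≠ 0) (fun u => Q u) (fun u => polar Q p u) p
    (fun u c hu => by
      rw [par, psr, par, psr, polar_self_of h.qp, pc Q x p, h.px, mul_zero, add_zero, add_zero]; exact hu)
    (fun u c _ => by change Q (u + c • p) = Q u + c * polar Q p u; rw [qadd, qsmul, h.qp, psr, pc Q u p]; ring)
    (fun u c _ => by change polar Q p (u + c • p) = polar Q p u; rw [par, psr, polar_self_of h.qp, mul_zero, add_zero])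
    (fun _ hu => hu.2) 0
  have h2 := card_split (fun u : M => polar Q x u = 0) (fun u => polar Q p u = 0)
  have h3 := card_perp1 (Q := Q) h.symm.p0
  have h4 := card_perp2 (Q := Q) h.symm.li
  have h5 : Nat.card {u // (polar Q x u = 0 ∧ polar Q p u ≠ 0) ∧ Q u = 0} =
      Nat.card {u // Q u = 0 ∧ polar Q x u = 0 ∧ polar Q p u ≠ 0} :=
    card_congr_iff fun u => and_comm
  rw [h5] at h1
  have h6 : Nat.card {u // polar Q x u = 0 ∧ ¬ polar Q p u = 0} = Nat.card {u // polar Q x u = 0 ∧ polar Q p u ≠ 0} := rfl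
  rw [h6, h1] at h2
  calc Nat.card {u // Q u = 0 ∧ polar Q x u = 0 ∧ polar Q p u ≠ 0} * Fintype.card F ^ 3 + Fintype.card M
      = Fintype.card F ^ 2 * (Fintype.card F * Nat.card {u // Q u = 0 ∧ polar Q x u = 0 ∧ polar Q p u ≠ 0}) +
        Nat.card {y // polar Q x y = 0 ∧ polar Q p y = 0} * Fintype.card F ^ 2 := by rw [h4]; ring
    _ = Fintype.card F * (Nat.card {y // polar Q x y = 0} * Fintype.card F) := by rw [h2]; ring
    _ = Fintype.card F * Fintype.card M := by rw [h3]

/-- number of nonzero singular vectors -/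
noncomputable def N0 (Q : QuadraticForm F M) : ℕ := Nat.card {u : M // Q u = 0 ∧ u ≠ 0}

theorem card_line (p : M) (hp : p ≠ 0) : Nat.card {u : M // u ∈ Submodule.span F {p}} = Fintype.card F := by
  rw [card_submodule, finrank_span_singleton hp, pow_one]

theorem card_LL {p x : M} (h : SP Q p x) : Nat.card {u : M // u ∈ LL F p x} = Fintype.card F ^ 2 := by
  rw [card_submodule, finrank_LL h]

theorem card_line_ne (p : M) (hp : p ≠ 0) :
    Nat.card {u : M // u ∈ Submodule.span F {p} ∧ u ≠ 0} + 1 = Fintype.card F := by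
  have h1 := card_split (fun u : M => u ∈ Submodule.span F {p}) (fun u => u = 0)
  rw [card_line p hp] at h1
  have h2 : Nat.card {u : M // u ∈ Submodule.span F {p} ∧ u = 0} = 1 := by
    rw [Nat.card_eq_one_iff_unique]
    exact ⟨⟨fun a b => Subtype.ext (a.2.2.trans b.2.2.symm)⟩, ⟨⟨0, zero_mem _, rfl⟩⟩⟩
  have h3 : Nat.card {u : M // u ∈ Submodule.span F {p} ∧ ¬ u = 0} = Nat.card {u : M // u ∈ Submodule.span F {p} ∧ u ≠ 0} := rfl
  rw [h2, h3] at h1
  omega

/-- (C1) -/
theorem card_SP {p : M} (hp : p ≠ 0) (hq : Q p = 0) :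
    N0 Q + 1 = Nat.card {u // SP Q p u} + Fintype.card F + Nat.card {u // Q u = 0 ∧ polar Q p u ≠ 0} := by
  have h1 := card_split (fun u : M => Q u = 0 ∧ u ≠ 0) (fun u => polar Q p u = 0)
  have h2 := card_split (fun u : M => (Q u = 0 ∧ u ≠ 0) ∧ polar Q p u = 0) (fun u => u ∈ Submodule.span F {p})
  have h3 : Nat.card {u // (Q u = 0 ∧ u ≠ 0) ∧ ¬ polar Q p u = 0} = Nat.card {u // Q u = 0 ∧ polar Q p u ≠ 0} := by
    apply card_congr_iff
    intro u
    constructor
    · rintro ⟨⟨h1, _⟩, h2⟩; exact ⟨h1, h2⟩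
    · rintro ⟨h1, h2⟩
      refine ⟨⟨h1, ?_⟩, h2⟩
      rintro rfl
      exact h2 (polar_zero_right Q p)
  have h4 : Nat.card {u // ((Q u = 0 ∧ u ≠ 0) ∧ polar Q p u = 0) ∧ ¬ u ∈ Submodule.span F {p}} =
      Nat.card {u // SP Q p u} := by
    apply card_congr_iff
    intro u
    constructor
    · rintro ⟨⟨⟨h1, _⟩, h2⟩, h3⟩; exact ⟨hp, h3, hq, h1, h2⟩
    · intro h
      exact ⟨⟨⟨h.qx, h.symm.p0⟩, h.px⟩, h.ind⟩
  have h5 : Nat.card {u // ((Q u = 0 ∧ u ≠ 0) ∧ polar Q p u = 0) ∧ u ∈ Submodule.span F {p}} =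
      Nat.card {u : M // u ∈ Submodule.span F {p} ∧ u ≠ 0} := by
    apply card_congr_iff
    intro u
    constructor
    · rintro ⟨⟨⟨_, h1⟩, _⟩, h3⟩; exact ⟨h3, h1⟩
    · rintro ⟨h1, h2⟩
      obtain ⟨c, rfl⟩ := Submodule.mem_span_singleton.1 h1
      exact ⟨⟨⟨by rw [qsmul, hq, mul_zero], h2⟩, by rw [psr, polar_self_of hq, mul_zero]⟩, h1⟩
  have h6 := card_line_ne (F := F) p hp
  rw [h3, h2, h4, h5] at h1
  rw [N0, h1]
  omega

/-- (C2) -/
theorem card_Zp {p x : M} (h : SP Q p x) :
    Nat.card {u // SP Q x u} + Fintype.card F = Nat.card {u // Zp Q p x u} + Fintype.card F ^ 2 +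
      Nat.card {u // Q u = 0 ∧ polar Q x u = 0 ∧ polar Q p u ≠ 0} := by
  have h1 := card_split (fun u : M => SP Q x u) (fun u => polar Q p u = 0)
  have h2 := card_split (fun u : M => SP Q x u ∧ polar Q p u = 0) (fun u => u ∈ LL F p x)
  have h3 : Nat.card {u // SP Q x u ∧ ¬ polar Q p u = 0} =
      Nat.card {u // Q u = 0 ∧ polar Q x u = 0 ∧ polar Q p u ≠ 0} := by
    apply card_congr_iff
    intro u
    constructor
    · rintro ⟨h1, h2⟩; exact ⟨h1.qx, h1.px, h2⟩
    · rintro ⟨h1, h2, h3⟩
      refine ⟨⟨h.symm.p0, fun h4 => h3 ?_, h.qx, h1, h2⟩, h3⟩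
      obtain ⟨c, rfl⟩ := Submodule.mem_span_singleton.1 h4
      rw [psr, h.px, mul_zero]
  have h4 : Nat.card {u // (SP Q x u ∧ polar Q p u = 0) ∧ ¬ u ∈ LL F p x} = Nat.card {u // Zp Q p x u} := by
    apply card_congr_iff
    intro u
    constructor
    · rintro ⟨⟨h1, h2⟩, h3⟩; exact ⟨h1.qx, h2, h1.px, h3⟩
    · intro hu
      exact ⟨⟨hu.sp_right h.symm.p0 h.qx, hu.2.1⟩, hu.2.2.2⟩
  have h5 := card_split (fun u : M => u ∈ LL F p x) (fun u => u ∈ Submodule.span F {x})
  have h6 : Nat.card {u : M // u ∈ LL F p x ∧ u ∈ Submodule.span F {x}} = Nat.card {u : M // u ∈ Submodule.span F {x}} := by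
    apply card_congr_iff
    intro u
    exact ⟨fun h => h.2, fun h => ⟨Submodule.span_mono (by simp) h, h⟩⟩
  have h7 : Nat.card {u : M // u ∈ LL F p x ∧ ¬ u ∈ Submodule.span F {x}} =
      Nat.card {u // (SP Q x u ∧ polar Q p u = 0) ∧ u ∈ LL F p x} := by
    apply card_congr_iff
    intro u
    constructor
    · rintro ⟨h1, h2⟩
      exact ⟨⟨h.of_mem (right_mem p x) h1 h.symm.p0 h2, h.polar (left_mem p x) h1⟩, h1⟩
    · rintro ⟨⟨h1, _⟩, h3⟩; exact ⟨h3, h1.ind⟩
  rw [card_LL h, h6, h7, card_line x h.symm.p0] at h5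
  rw [h3, h2, h4] at h1
  omega

end Cfsg.Agent.LSO
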