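import Cfsg.Agent.LSO.Schur

/-!
The dimension formula.
-/

set_option autoImplicit false
set_option linter.unusedSectionVars false
set_option linter.style.haveILetI false

namespace Cfsg.Agent.LSO

open QuadraticMap Module Cfsg.Agent.H39 Cfsg.Agent.LSU
open Cfsg.Agent.Orth hiding map_mul
open Cfsg.Agent.LSSL (fixS mem_fixS avg avg_mem avg_of_fix isProj_avg avg_mul_of_mem mul_avg_of_mem avg_comm avg_comm_op
  mem_fixS_closure PP PP_mem PP_of_mem cardA_ne sum_PP)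
open scoped Classical

variable {F M : Type*} [Field F] [AddCommGroup M] [Module F M] [Fintype F] [Fintype M] [FiniteDimensional F M]
variable {Q : QuadraticForm F M} [Nice Q]
variable {V : Type*} [AddCommGroup V] [Module ℂ V] {ρ : Representation ℂ (Gr Q) V} {ψ : AddChar F ℂ}

theorem card_SP_ortho {p x : M} (h : SP Q p x) :
    Nat.card {u // SP Q x u ∧ polar Q p u = 0} + Fintype.card F = Nat.card {u // Zp Q p x u} + Fintype.card F ^ 2 := by
  have h1 := card_split (fun u : M => SP Q x u) (fun u => polar Q p u = 0)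
  have h3 : Nat.card {u // SP Q x u ∧ ¬ polar Q p u = 0} =
      Nat.card {u // Q u = 0 ∧ polar Q x u = 0 ∧ polar Q p u ≠ 0} := by
    apply card_congr_iff
    intro u
    constructor
    · rintro ⟨h1, h2⟩; exact ⟨h1.qx, h1.px, h2⟩
    · rintro ⟨h1, h2, h3⟩
      refine ⟨⟨h.symm.p0, fun h4 => h3 ?_, h.qx, h1, h2⟩, h3⟩
      obtain ⟨c, rfl⟩ := Submodule.mem_span_singleton.1 h4
      rw [psr, h.px, mul_zero]
  have h2 := card_Zp h
  rw [h3] at h1
  omega

variable [FiniteDimensional ℂ V]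

theorem trace_pj_eq {p p' : M} (hp : p ≠ 0) (hq : Q p = 0) (hp' : p' ≠ 0) (hq' : Q p' = 0) :
    LinearMap.trace ℂ V (pj ρ p) = LinearMap.trace ℂ V (pj ρ p') := by
  obtain ⟨c, hc⟩ := exists_move (Q := Q) hp hp' (by rw [hq, hq'])
  apply trace_conj' ρ c
  rw [pj_conj hq, hc]

theorem trace_pj_pj {p x p' x' : M} (h : SP Q p x) (h' : SP Q p' x') :
    LinearMap.trace ℂ V (pj ρ p * pj ρ x) = LinearMap.trace ℂ V (pj ρ p' * pj ρ x') := by
  obtain ⟨c, hc1, hc2⟩ := exists_pair h h'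
  apply trace_conj' ρ c
  rw [← mul_assoc, pj_conj h.qp, hc1, mul_assoc, pj_conj h.qx, hc2, mul_assoc]

theorem trace_pj_hp {p x p' x' : M} (h : HP Q p x) (h' : HP Q p' x') :
    LinearMap.trace ℂ V (pj ρ p * pj ρ x) = LinearMap.trace ℂ V (pj ρ p' * pj ρ x') := by
  obtain ⟨c, hc1, hc2⟩ := exists_hp h h'
  apply trace_conj' ρ c
  rw [← mul_assoc, pj_conj h.qp, hc1, mul_assoc, pj_conj h.qx, hc2, mul_assoc]

theorem trace_pj_non {p u p' x' : M} (hp : Q p = 0) (hu : Q u = 0) (hpu : polar Q p u ≠ 0) (h' : HP Q p' x') :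
    LinearMap.trace ℂ V (pj ρ p * pj ρ u) = LinearMap.trace ℂ V (pj ρ p' * pj ρ x') := by
  rw [← pj_smul hu (inv_ne_zero hpu)]
  apply trace_pj_hp ⟨hp, by rw [qsmul, hu, mul_zero], by rw [psr, inv_mul_cancel₀ hpu]⟩ h'

theorem trace_pj_pE {p x a : M} (h : SP Q p x) (ha : a ∈ LL F p x) (ha0 : a ≠ 0) :
    LinearMap.trace ℂ V (pj ρ a * pE ρ (LL F p x)) = LinearMap.trace ℂ V (pE ρ (LL F p x) * pj ρ p) := by
  obtain ⟨c, hc, hcf⟩ := exists_Nm h ha ha0
  rw [pj_comm_pE ρ h (left_mem p x)]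
  symm
  apply trace_conj' ρ c
  rw [← mul_assoc, pj_conj h.qp, hcf, mul_assoc, pE_comm ρ (fun a ha => h.TS ha) hc, mul_assoc]

/-- (T1) -/
theorem T1 {p x : M} (h : SP Q p x) :
    LinearMap.trace ℂ V (KL ρ p x * (pE ρ (LL F p x) - pT ρ (LL F p x))) =
      ((Fintype.card F : ℂ) ^ 2 - 1) * (LinearMap.trace ℂ V (pE ρ (LL F p x) * pj ρ p) -
        LinearMap.trace ℂ V (pT ρ (LL F p x))) := by
  rw [mul_sub, KL_mul_pT ρ h, map_sub, map_smul, KL, Finset.sum_mul, map_sum,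
    Finset.sum_congr rfl (g := fun _ => LinearMap.trace ℂ V (pE ρ (LL F p x) * pj ρ p))
      (fun a ha => trace_pj_pE h (mem_Om.1 ha).2 (mem_Om.1 ha).1),
    Finset.sum_const, nsmul_eq_mul, card_Om' h, smul_eq_mul]
  ring

/-- (T2) -/
theorem T2 {p x : M} (h : SP Q p x) :
    LinearMap.trace ℂ V (pj ρ p * (KL ρ p x * (pE ρ (LL F p x) - pT ρ (LL F p x)))) =
      ((Fintype.card F : ℂ) - 1) * LinearMap.trace ℂ V (pE ρ (LL F p x) * pj ρ p) +
      ((Fintype.card F : ℂ) ^ 2 - Fintype.card F) * LinearMap.trace ℂ V (pj ρ p * pj ρ x) -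
      ((Fintype.card F : ℂ) ^ 2 - 1) * LinearMap.trace ℂ V (pT ρ (LL F p x)) := by
  set L := LL F p x with hL
  rw [mul_sub, KL_mul_pT ρ h, mul_sub, map_sub, mul_smul_comm, pj_mul_pT ρ (left_mem p x), map_smul, smul_eq_mul,
    KL, Finset.sum_mul, Finset.mul_sum, map_sum]
  congr 1
  have h1 : ∀ a ∈ Om F p x, LinearMap.trace ℂ V (pj ρ p * (pj ρ a * pE ρ L)) =
      if a ∈ Submodule.span F {p} then LinearMap.trace ℂ V (pE ρ L * pj ρ p)
        else LinearMap.trace ℂ V (pj ρ p * pj ρ x) := by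
    intro a ha
    rw [mem_Om] at ha
    split_ifs with hs
    · obtain ⟨c, rfl⟩ := Submodule.mem_span_singleton.1 hs
      have hc : c ≠ 0 := by
        rintro rfl
        exact ha.1 (zero_smul _ _)
      rw [pj_smul h.qp hc, ← mul_assoc, pj_mul_pj, hL, pj_comm_pE ρ h (left_mem p x)]
    · have hk : SP Q p a := h.of_mem (left_mem p x) ha.2 h.p0 hs
      have hLa : LL F p a = L := LL_eq h hk (left_mem p x) ha.2
      have e1 := pE_mul_pj_pj ρ hk
      rw [hLa] at e1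
      rw [hL, ← pj_comm_pE ρ h ha.2, ← mul_assoc, ← pj_comm_pE ρ h (left_mem p x), mul_assoc, ← hL, e1]
      exact trace_pj_pj hk h
  rw [Finset.sum_congr rfl h1, Finset.sum_ite, Finset.sum_const, Finset.sum_const]
  have h3 : ((Om F p x).filter (fun a => a ∈ Submodule.span F {p})).card + 1 = Fintype.card F := by
    rw [← card_line_ne (F := F) p h.p0, Nat.card_eq_fintype_card, Fintype.card_subtype]
    congr 2
    ext a
    simp only [Finset.mem_filter, mem_Om, Finset.mem_univ, true_and]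
    constructor
    · rintro ⟨⟨h1, _⟩, h3⟩
      exact ⟨h3, h1⟩
    · rintro ⟨h1, h3⟩
      exact ⟨⟨h3, Submodule.span_mono (by simp) h1⟩, h1⟩
  have h4 := Finset.card_filter_add_card_filter_not (s := Om F p x) (fun a => a ∈ Submodule.span F {p})
  have h5 := card_Om h
  rw [← h4] at h5
  have h6 : (((Om F p x).filter (fun a => a ∈ Submodule.span F {p})).card : ℂ) = (Fintype.card F : ℂ) - 1 := by
    rw [← h3]; push_cast; ring
  have h7 : (((Om F p x).filter (fun a => ¬ a ∈ Submodule.span F {p})).card : ℂ) =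
      (Fintype.card F : ℂ) ^ 2 - Fintype.card F := by
    have h8 : ((((Om F p x).filter (fun a => a ∈ Submodule.span F {p})).card +
        ((Om F p x).filter (fun a => ¬ a ∈ Submodule.span F {p})).card + 1 : ℕ) : ℂ) = ((Fintype.card F ^ 2 : ℕ) : ℂ) := by
      rw [h5]
    push_cast at h8
    linear_combination h8 - h6
  rw [nsmul_eq_mul, nsmul_eq_mul, h6, h7]

/-- (T4) -/
theorem T4 {p : M} (hp : p ≠ 0) (hq : Q p = 0) :
    LinearMap.trace ℂ V (KV ρ) = (N0 Q : ℂ) * LinearMap.trace ℂ V (pj ρ p) := by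
  rw [KV, map_sum, Finset.sum_congr rfl (g := fun _ => LinearMap.trace ℂ V (pj ρ p)), Finset.sum_const, nsmul_eq_mul,
    N0, Nat.card_eq_fintype_card, Fintype.card_subtype]
  intro a ha
  simp only [Finset.mem_filter, Finset.mem_univ, true_and] at ha
  exact trace_pj_eq ha.2 ha.1 hp hq

/-- (T5) -/
theorem T5 {p x p' : M} (h : SP Q p x) (h' : HP Q p p') :
    LinearMap.trace ℂ V (pj ρ p * KV ρ) = ((Fintype.card F : ℂ) - 1) * LinearMap.trace ℂ V (pj ρ p) +
      (Nat.card {u // SP Q p u} : ℂ) * LinearMap.trace ℂ V (pj ρ p * pj ρ x) +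
      (Nat.card {u // Q u = 0 ∧ polar Q p u ≠ 0} : ℂ) * LinearMap.trace ℂ V (pj ρ p * pj ρ p') := by
  rw [KV, Finset.mul_sum, map_sum, Finset.sum_filter]
  have h1 : ∀ a : M, (if Q a = 0 ∧ a ≠ 0 then LinearMap.trace ℂ V (pj ρ p * pj ρ a) else 0) =
      (if a ∈ Submodule.span F {p} ∧ a ≠ 0 then LinearMap.trace ℂ V (pj ρ p) else 0) +
      (if SP Q p a then LinearMap.trace ℂ V (pj ρ p * pj ρ x) else 0) +
      (if Q a = 0 ∧ polar Q p a ≠ 0 then LinearMap.trace ℂ V (pj ρ p * pj ρ p') else 0) := by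
    intro a
    by_cases ha : Q a = 0 ∧ a ≠ 0
    · rw [if_pos ha]
      by_cases hs : a ∈ Submodule.span F {p}
      · obtain ⟨c, rfl⟩ := Submodule.mem_span_singleton.1 hs
        have hc : c ≠ 0 := by
          rintro rfl
          exact ha.2 (zero_smul _ _)
        rw [if_pos ⟨hs, ha.2⟩, if_neg (fun h => h.ind hs),
          if_neg (fun h => h.2 (by rw [psr, polar_self_of h'.qp, mul_zero])), pj_smul h.qp hc, pj_mul_pj, add_zero, add_zero]
      · rw [if_neg (fun h => hs h.1), zero_add]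
        by_cases hpa : polar Q p a = 0
        · have hi : SP Q p a := ⟨h.p0, hs, h.qp, ha.1, hpa⟩
          rw [if_pos hi, if_neg (fun h => h.2 hpa), add_zero]
          exact trace_pj_pj hi h
        · rw [if_neg (fun h => hpa h.px), if_pos ⟨ha.1, hpa⟩, zero_add]
          exact trace_pj_non h.qp ha.1 hpa h'
    · rw [if_neg ha, if_neg, if_neg, if_neg, add_zero, add_zero]
      · rintro ⟨h1, h2⟩
        apply ha
        refine ⟨h1, ?_⟩
        rintro rfl
        exact h2 (polar_zero_right Q p)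
      · intro h1
        exact ha ⟨h1.qx, h1.symm.p0⟩
      · rintro ⟨h1, h2⟩
        apply ha
        refine ⟨?_, h2⟩
        obtain ⟨c, rfl⟩ := Submodule.mem_span_singleton.1 h1
        rw [qsmul, h.qp, mul_zero]
  have h2 : (Nat.card {u : M // u ∈ Submodule.span F {p} ∧ u ≠ 0} : ℂ) = (Fintype.card F : ℂ) - 1 := by
    rw [← card_line_ne (F := F) p h.p0]; push_cast; ring
  have h0 : ∑ a : M, (if Q a = 0 ∧ a ≠ 0 then LinearMap.trace ℂ V (pj ρ p * pj ρ a) else 0) = _ :=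
    Finset.sum_congr rfl fun a _ => h1 a
  rw [h0, Finset.sum_add_distrib, Finset.sum_add_distrib, sum_ite_card, sum_ite_card, sum_ite_card, h2]

/-- the trace of `pj p * Pr p' u` -/
theorem trace_theta {p p' x : M} (h' : HP Q p p') (hx : Q x = 0) (hx0 : x ≠ 0) (hpx : polar Q p x = 0)
    (hp'x : polar Q p' x = 0) {u : M} (hu : SP Q p' u) :
    LinearMap.trace ℂ V (pj ρ p * Pr ρ ψ p' u) = LinearMap.trace ℂ V (pj ρ p * Pr ρ ψ p' x) := by
  set u' := u + (-(polar Q p u)) • p' with hu'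
  have h1 : Pr ρ ψ p' u = Pr ρ ψ p' u' := by rw [hu', Pr_add_self]
  have e1 : Q u' = 0 := by rw [hu', qadd, qsmul, psr, h'.qx, hu.qx, pc Q u p', hu.px]; ring
  have e2 : polar Q p u' = 0 := by rw [hu', par, psr, h'.px]; ring
  have e3 : polar Q p' u' = 0 := by rw [hu', par, psr, hu.px, polar_self_of h'.qx]; ring
  have e0 : u' ≠ 0 := by
    intro h0
    apply hu.ind
    rw [Submodule.mem_span_singleton]
    refine ⟨polar Q p u, ?_⟩
    rw [hu', neg_smul, ← sub_eq_add_neg, sub_eq_zero] at h0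
    exact h0.symm
  obtain ⟨c, hc1, hc2, hc3⟩ := exists_triple h' e0 e1 e2 e3 h' hx0 hx hpx hp'x
  rw [h1]
  apply trace_conj' ρ c
  rw [← mul_assoc, pj_conj h'.qp, hc1, mul_assoc, Pr_conj h'.qx, hc2, hc3, mul_assoc]

/-- value of the trace of `pj p * Pr p' u` -/
theorem trace_theta_all (H : Hyp ρ ψ) {p p' x : M} (h' : HP Q p p') (hx : Q x = 0) (hx0 : x ≠ 0) (hpx : polar Q p x = 0)
    (hp'x : polar Q p' x = 0) (u : M) :
    LinearMap.trace ℂ V (pj ρ p * Pr ρ ψ p' u) =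
      (if u ∈ Submodule.span F {p'} then LinearMap.trace ℂ V (pj ρ p * pj ρ p') else 0) +
      (if SP Q p' u then LinearMap.trace ℂ V (pj ρ p * Pr ρ ψ p' x) else 0) := by
  have hp'0 : p' ≠ 0 := h'.symm.p0
  by_cases hs : u ∈ Submodule.span F {p'}
  · rw [if_pos hs, if_neg (fun h => h.ind hs), add_zero, Pr_of_line hs]
  · rw [if_neg hs, zero_add]
    split_ifs with hi
    · exact trace_theta h' hx hx0 hpx hp'x hi
    · by_cases h1 : polar Q p' u = 0
      · have h2 : Q u ≠ 0 := fun h2 => hi ⟨hp'0, hs, h'.qx, h2, h1⟩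
        rw [(Pr_eq_zero_iff p' u).2 (H.zero p' u hp'0 h'.qx h1 h2), mul_zero, map_zero]
      · rw [Pr_of_not_ortho H.hψ h'.qx (by rw [pc]; exact h1), mul_zero, map_zero]

/-- (7) -/
theorem trace_I7a (H : Hyp ρ ψ) {p p' x : M} (h' : HP Q p p') (hx : Q x = 0) (hx0 : x ≠ 0) (hpx : polar Q p x = 0)
    (hp'x : polar Q p' x = 0) :
    (Fintype.card F : ℂ) * LinearMap.trace ℂ V (pj ρ p) = (Fintype.card F : ℂ) * LinearMap.trace ℂ V (pj ρ p * pj ρ p') +
      (Nat.card {u // SP Q p' u} : ℂ) * LinearMap.trace ℂ V (pj ρ p * Pr ρ ψ p' x) := by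
  rw [trace_sum (ρ := ρ) H.hψ h'.symm.p0, Finset.sum_congr rfl fun u _ => trace_theta_all H h' hx hx0 hpx hp'x u,
    Finset.sum_add_distrib, sum_ite_card, sum_ite_card, card_line p' h'.symm.p0]

/-- (6) -/
theorem trace_I7b (H : Hyp ρ ψ) {p p' x : M} (h' : HP Q p p') (hx : Q x = 0) (hx0 : x ≠ 0) (hpx : polar Q p x = 0)
    (hp'x : polar Q p' x = 0) :
    LinearMap.trace ℂ V (pj ρ p * ∑ c : F, ρ (E Q p' (c • x))) =
      (Fintype.card F : ℂ) * LinearMap.trace ℂ V (pj ρ p * pj ρ p') +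
      (Nat.card {u // SP Q p' u ∧ polar Q x u = 0} : ℂ) * LinearMap.trace ℂ V (pj ρ p * Pr ρ ψ p' x) := by
  rw [sum_E H.hψ h'.symm.p0 hp'x, Finset.mul_sum, map_sum]
  have h3 : ∀ u, LinearMap.trace ℂ V (pj ρ p * if polar Q u x = 0 then Pr ρ ψ p' u else 0) =
      (if u ∈ Submodule.span F {p'} then LinearMap.trace ℂ V (pj ρ p * pj ρ p') else 0) +
      (if SP Q p' u ∧ polar Q x u = 0 then LinearMap.trace ℂ V (pj ρ p * Pr ρ ψ p' x) else 0) := by
    intro u
    by_cases h0 : polar Q u x = 0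
    · have h0' : polar Q x u = 0 := by rw [pc, h0]
      rw [if_pos h0, trace_theta_all H h' hx hx0 hpx hp'x u]
      congr 1
      by_cases hi : SP Q p' u
      · rw [if_pos hi, if_pos ⟨hi, h0'⟩]
      · rw [if_neg hi, if_neg (fun h => hi h.1)]
    · rw [if_neg h0, mul_zero, map_zero, if_neg, if_neg, add_zero]
      · rintro ⟨_, h1⟩
        exact h0 (by rw [pc, h1])
      · intro h1
        obtain ⟨c, rfl⟩ := Submodule.mem_span_singleton.1 h1
        exact h0 (by rw [psl, hp'x, mul_zero])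
  rw [Finset.sum_congr rfl fun u _ => h3 u, Finset.sum_add_distrib, sum_ite_card, sum_ite_card, card_line p' h'.symm.p0]

/-- comparison of the two operators -/
theorem sum_E_swap {p' x : M} (hp' : Q p' = 0) (hx : Q x = 0) (hp'x : polar Q p' x = 0) :
    ∑ c : F, ρ (E Q p' (c • x)) = ∑ c : F, ρ (E Q x (c • p')) := by
  rw [← Equiv.sum_comp (Equiv.neg F)]
  refine Finset.sum_congr rfl fun c _ => ?_
  rw [Equiv.neg_apply, E_swap hp' (by rw [qsmul, hx, mul_zero]) (by rw [psr, hp'x, mul_zero]),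
    E_smul (-c) (by rw [polar_neg_right, pc, hp'x, neg_zero]) hx]
  congr 2
  module

/-- (1) -/
theorem trace_one (H : Hyp ρ ψ) {p : M} (hp : p ≠ 0) (hq : Q p = 0) :
    (Fintype.card F : ℂ) * finrank ℂ V = (Fintype.card F : ℂ) * LinearMap.trace ℂ V (pj ρ p) +
      (Nat.card {u // SP Q p u} : ℂ) := by
  have h1 := trace_sum (ρ := ρ) H.hψ hp 1
  rw [LinearMap.trace_one] at h1
  rw [h1]
  have h3 : ∀ u, LinearMap.trace ℂ V (1 * Pr ρ ψ p u) =
      (if u ∈ Submodule.span F {p} then LinearMap.trace ℂ V (pj ρ p) else 0) + (if SP Q p u then 1 else 0) := by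
    intro u
    rw [one_mul]
    by_cases hs : u ∈ Submodule.span F {p}
    · rw [if_pos hs, if_neg (fun h => h.ind hs), add_zero, Pr_of_line hs]
    · rw [if_neg hs, zero_add]
      split_ifs with hi
      · rw [trace_Pr, H.one p u hi]; simp
      · by_cases h1 : polar Q p u = 0
        · have h2 : Q u ≠ 0 := fun h2 => hi ⟨hp, hs, hq, h2, h1⟩
          rw [(Pr_eq_zero_iff p u).2 (H.zero p u hp hq h1 h2), map_zero]
        · rw [Pr_of_not_ortho H.hψ hq (by rw [pc]; exact h1), map_zero]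
  rw [Finset.sum_congr rfl fun u _ => h3 u, Finset.sum_add_distrib, sum_ite_card, sum_ite_card, card_line p hp, mul_one]

/-- trace of `pE * pj p` as a dimension -/
theorem exists_eX {p x : M} (h : SP Q p x) : ∃ eX t : ℕ, t ≤ eX ∧ LinearMap.trace ℂ V (pE ρ (LL F p x) * pj ρ p) = eX ∧
    LinearMap.trace ℂ V (pT ρ (LL F p x)) = t := by
  let W1 : Submodule ℂ V := fixS ρ (UB Q (LL F p x)) ⊓ wt (Uf ρ p) 0
  have hcomm := pj_comm_pE ρ h (left_mem p x)
  have h1 : LinearMap.IsProj W1 (pE ρ (LL F p x) * pj ρ p) := by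
    refine ⟨fun v => ⟨avg_mem ρ _ _, ?_⟩, fun v hv => ?_⟩
    · rw [hcomm]
      exact PP_mem (Uf_add ρ p) 0 _
    · rw [Module.End.mul_apply, pj, PP_of_mem hv.2]
      exact avg_of_fix ρ hv.1
  have h2 : fixS ρ (NN Q (LL F p x)) ≤ W1 := by
    intro v hv
    refine ⟨fun a ha => hv a (UB_le_NN _ ha), mem_W_zero.2 fun y hy => hv _ (E_mem_NN (left_mem p x) hy)⟩
  exact ⟨finrank ℂ W1, finrank ℂ (fixS ρ (NN Q (LL F p x))), Submodule.finrank_mono h2, h1.trace, (isProj_avg ρ _).trace⟩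

theorem exists_SP (Q : QuadraticForm F M) [Nice Q] : ∃ p x, SP Q p x := by
  obtain ⟨p, hp, -, -, hp0⟩ := exists_sing_off Q 0 0
  obtain ⟨x, hx, hpx, -, hx0⟩ := exists_sing_off Q p p
  refine ⟨p, x, ?_, ?_, hp, hx, hpx⟩
  · rintro rfl
    exact hp0 (zero_mem _)
  · intro h
    exact hx0 (Submodule.span_mono (by simp) h)

/-- a hyperbolic partner of `p` orthogonal to `x` -/
theorem exists_partner_ortho {p x : M} (h : SP Q p x) : ∃ p', HP Q p p' ∧ polar Q x p' = 0 := by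
  obtain ⟨p', h1, h2, h3⟩ := exists_partner3 (Q := Q) (p := x) (u := x) h.qp
    (by
      intro h1
      rw [Set.pair_eq_singleton] at h1
      exact h.symm.ind h1) (by rw [pc, h.px]) (by rw [pc, h.px])
  exact ⟨p', h1, h2⟩

/-- **the dimension formula** -/
theorem main_eq (H : Hyp ρ ψ) (hirr : ρ.IsIrreducible) [Nontrivial V] {p x : M} (h : SP Q p x) :
    ∃ d y : ℕ, Fintype.card F * finrank ℂ V = Fintype.card F * d + Nat.card {u // SP Q p u} ∧
      (N0 Q : ℤ) * d * (y + Fintype.card F - 1) = finrank ℂ V * (Nat.card {u // Zp Q p x u} * (y + Fintype.card F - 1) +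
        (Fintype.card F + 1) * ((Fintype.card F : ℤ) ^ 2 - 1) * y) := by
  obtain ⟨p', hpp', hxp'⟩ := exists_partner_ortho h
  have hp'x : polar Q p' x = 0 := by rw [pc, hxp']
  have hx0 : x ≠ 0 := h.symm.p0
  obtain ⟨e, t, hte, he, ht⟩ := exists_eX (ρ := ρ) h
  have h1 := trace_one (ρ := ρ) H h.p0 h.qp
  have h2 := trace_I1 H h
  have h3 := trace_I2 H h
  obtain ⟨κ, hκ⟩ := exists_kappa H h
  obtain ⟨lam, hlam⟩ := exists_lambda hirr
  have hT1 := T1 (ρ := ρ) h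
  have hT2 := T2 (ρ := ρ) h
  have hT4 := T4 (ρ := ρ) h.p0 h.qp
  have hT5 := T5 (ρ := ρ) h hpp'
  have h6 := trace_I6 (ρ := ρ) H h (y := p') hxp' (by rw [hpp'.px]; exact one_ne_zero)
  rw [← sum_E_swap hpp'.qx h.qx hp'x, trace_I7b H hpp' h.qx hx0 h.px hp'x] at h6
  have h7 := trace_I7a (ρ := ρ) H hpp' h.qx hx0 h.px hp'x
  -- counting
  have hsp' : SP Q x p' := ⟨hx0, fun h1 => by
    obtain ⟨c, hc⟩ := Submodule.mem_span_singleton.1 h1
    have h2 := hpp'.px
    rw [← hc, psr, h.px, mul_zero] at h2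
    exact zero_ne_one h2, h.qx, hpp'.qx, hxp'⟩
  have c1 := card_SP (Q := Q) h.p0 h.qp
  have c2 := card_nonortho (Q := Q) h.p0 h.qp
  have c1' := card_SP (Q := Q) hpp'.symm.p0 hpp'.qx
  have c2' := card_nonortho (Q := Q) hpp'.symm.p0 hpp'.qx
  have c1'' := card_SP (Q := Q) hx0 h.qx
  have c2'' := card_nonortho (Q := Q) hx0 h.qx
  have c3 := card_Zp h
  have c4 := card_nonortho2 h
  have c3' := card_Zp hsp'
  have c4' := card_nonortho2 hsp'
  have c5 := card_SP_ortho hsp'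
  have hq1 : 1 < Fintype.card F := Fintype.one_lt_card
  have hqC := cardF_ne F
  -- all the numbers
  set q := Fintype.card F with hq
  set S1 := Nat.card {u // SP Q p u} with hS1
  set Z := Nat.card {u // Zp Q p x u} with hZ
  set n5 := Nat.card {u // Q u = 0 ∧ polar Q p u ≠ 0} with hn5
  set n6 := Nat.card {u // Q u = 0 ∧ polar Q x u = 0 ∧ polar Q p u ≠ 0} with hn6
  have hq0 : 0 < q := by omega
  have e5' : Nat.card {u // Q u = 0 ∧ polar Q p' u ≠ 0} = n5 :=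
    Nat.eq_of_mul_eq_mul_right (pow_pos hq0 2) (by omega)
  have e5'' : Nat.card {u // Q u = 0 ∧ polar Q x u ≠ 0} = n5 :=
    Nat.eq_of_mul_eq_mul_right (pow_pos hq0 2) (by omega)
  have e6' : Nat.card {u // Q u = 0 ∧ polar Q p' u = 0 ∧ polar Q x u ≠ 0} = n6 :=
    Nat.eq_of_mul_eq_mul_right (pow_pos hq0 3) (by omega)
  rw [e5'] at c1'
  rw [e5''] at c1''
  rw [e6'] at c3'
  have eS' : Nat.card {u // SP Q p' u} = S1 := by omega
  have eSx : Nat.card {u // SP Q x u} = S1 := by omega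
  rw [eS'] at c3' h7
  rw [eSx] at c3
  have eZ' : Nat.card {u // Zp Q x p' u} = Z := by omega
  rw [eZ'] at c5
  set S2 := Nat.card {u // SP Q p' u ∧ polar Q x u = 0} with hS2
  set τ1 := LinearMap.trace ℂ V (pj ρ p * pj ρ x) with hτ1
  set τ2 := LinearMap.trace ℂ V (pj ρ p * pj ρ p') with hτ2
  set θ := LinearMap.trace ℂ V (pj ρ p * Pr ρ ψ p' x) with hθ
  set D := finrank ℂ V with hD
  obtain ⟨d, hd⟩ : ∃ d : ℕ, LinearMap.trace ℂ V (pj ρ p) = d := ⟨_, trace_pj p⟩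
  rw [hκ, map_smul, map_sub, smul_eq_mul] at hT1
  rw [hκ, mul_smul_comm, mul_sub, pj_mul_pT ρ (left_mem p x), ← pj_comm_pE ρ h (left_mem p x), map_smul, map_sub,
    smul_eq_mul] at hT2
  rw [hlam, map_smul, LinearMap.trace_one, smul_eq_mul] at hT4
  rw [hlam, mul_smul_comm, mul_one, map_smul, smul_eq_mul] at hT5
  have h3' : LinearMap.trace ℂ V (pE ρ (LL F p x) * pj ρ x) = e := by
    rw [← he, pj_comm_pE ρ h (right_mem p x), trace_pj_pE h (right_mem p x) hx0]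
  rw [h3'] at h3
  rw [he, ht, h3] at hT1
  rw [he, ht] at hT2
  rw [he] at h2
  rw [hd] at h1 h2 hT4 hT5 h7
  obtain ⟨y, hy⟩ : ∃ y, e = t + y := ⟨e - t, by omega⟩
  refine ⟨d, y, by exact_mod_cast h1, ?_⟩
  rw [hy] at hT1 hT2 h2
  have k1 : ((N0 Q + 1 : ℕ) : ℂ) = ((S1 + q + n5 : ℕ) : ℂ) := by rw [c1]
  have k3 : ((S1 + q : ℕ) : ℂ) = ((Z + q ^ 2 + n6 : ℕ) : ℂ) := by rw [c3]
  have k5 : ((S2 + q : ℕ) : ℂ) = ((Z + q ^ 2 : ℕ) : ℂ) := by rw [c5]
  have k6 : (n5 : ℂ) = q * n6 := by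
    have : n5 * q ^ 2 = (q * n6) * q ^ 2 := by
      have h8 : n5 * q ^ 2 + Fintype.card M = n6 * q ^ 3 + Fintype.card M := by rw [c2, c4]
      have h9 : n5 * q ^ 2 = n6 * q ^ 3 := by omega
      rw [h9]; ring
    have := Nat.eq_of_mul_eq_mul_right (pow_pos hq0 2) this
    exact_mod_cast this
  push_cast at k1 k3 k5 hT1 hT2 h2
  have hS0 : (S1 : ℂ) ≠ 0 := by
    have : Nonempty {u // SP Q p u} := ⟨⟨x, h⟩⟩
    have h8 : 0 < S1 := Nat.card_pos
    exact_mod_cast h8.ne'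
  have hq1' : (q : ℂ) - 1 ≠ 0 := by
    rw [sub_ne_zero]
    exact_mod_cast hq1.ne'
  -- consequences
  -- (A) `(q+1) y^2 = y s + q (τ1 - t) s`
  have hA : ((q : ℂ) + 1) * y ^ 2 = y * (y + q - 1) + q * (τ1 - t) * (y + q - 1) := by
    apply mul_left_cancel₀ hq1'
    linear_combination (-(y : ℂ)) * hT1 + ((y : ℂ) + q - 1) * hT2
  -- (B)
  have hB : (n5 : ℂ) * τ2 = S1 * (q * τ1 + Z * ((q : ℂ) ^ 2)⁻¹) - q * S1 * d + n5 * d := by
    have e1 : (S2 : ℂ) = S1 - n6 := by linear_combination k5 - k3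
    rw [k6]
    rw [e1] at h6
    linear_combination (S1 : ℂ) * h6 + (S1 - n6) * h7
  -- (C)
  have hC : ((q : ℂ) - 1) * d + S1 * τ1 + n5 * τ2 = N0 Q * d - S1 * ((q + 1) * (d - τ1) - Z * ((q : ℂ) ^ 2)⁻¹) := by
    rw [hB]
    linear_combination (-(d : ℂ)) * k1
  have hDd : (N0 Q : ℂ) * d * d = D * (N0 Q * d - S1 * ((q + 1) * (d - τ1) - Z * ((q : ℂ) ^ 2)⁻¹)) := by
    rw [← hC, ← hT5]
    linear_combination (-(d : ℂ)) * hT4
  have hZ2 : (Z : ℂ) * ((q : ℂ) ^ 2)⁻¹ = d - (t + y) := by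
    rw [← h2]
    field_simp
  have hfin : (N0 Q : ℂ) * d = D * q * ((q + 1) * (d - τ1) - Z * ((q : ℂ) ^ 2)⁻¹) := by
    apply mul_left_cancel₀ hS0
    linear_combination (-(q : ℂ)) * hDd - (N0 Q : ℂ) * d * h1
  have hZ3 : (Z : ℂ) = q ^ 2 * (d - (t + y)) := by rw [← h2]
  have hgoal : (N0 Q : ℂ) * d * (y + q - 1) = D * (Z * (y + q - 1) + (q + 1) * ((q : ℂ) ^ 2 - 1) * y) := by
    rw [hZ2] at hfin
    rw [hfin, hZ3]
    linear_combination (D : ℂ) * (q + 1) * hA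
  exact_mod_cast hgoal

end Cfsg.Agent.LSO
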