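import Cfsg.Agent.LSO.Main

/-!
Stabilizers of weights act trivially: fields with few elements.
-/

set_option autoImplicit false
set_option linter.unusedSectionVars false
set_option linter.style.haveILetI false

namespace Cfsg.Agent.LSO

open QuadraticMap Module Cfsg.Agent.H39 Cfsg.Agent.LSU
open Cfsg.Agent.Orth hiding map_mul
open scoped Classical

variable {F M : Type*} [Field F] [AddCommGroup M] [Module F M] [Fintype F] [Fintype M] [FiniteDimensional F M]
variable {Q : QuadraticForm F M} [Nice Q]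

theorem finrank_span3 (a b c : M) : finrank F (Submodule.span F {a, b, c}) ≤ 3 := by
  have h3 : finrank F (Submodule.span F ((({a, b, c} : Finset M) : Set M))) ≤ ({a, b, c} : Finset M).card :=
    finrank_span_finset_le_card _
  have h4 : (({a, b, c} : Finset M) : Set M) = {a, b, c} := by simp
  rw [h4] at h3
  exact h3.trans Finset.card_le_three

theorem finrank_span4 (a b c d : M) : finrank F (Submodule.span F {a, b, c, d}) ≤ 4 := by
  have h3 : finrank F (Submodule.span F ((({a, b, c, d} : Finset M) : Set M))) ≤ ({a, b, c, d} : Finset M).card :=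
    finrank_span_finset_le_card _
  have h4 : (({a, b, c, d} : Finset M) : Set M) = {a, b, c, d} := by simp
  rw [h4] at h3
  exact h3.trans Finset.card_le_four

variable {V : Type*} [AddCommGroup V] [Module ℂ V] {ρ : Representation ℂ (Gr Q) V} {ψ : AddChar F ℂ}

theorem fix_add {p u w y1 y2 : M} (h1 : polar Q w y1 = 0) (h2 : polar Q w y2 = 0)
    (H1 : ∀ v ∈ Wt ρ ψ p u, ρ (E Q w y1) v = v) (H2 : ∀ v ∈ Wt ρ ψ p u, ρ (E Q w y2) v = v) :
    ∀ v ∈ Wt ρ ψ p u, ρ (E Q w (y1 + y2)) v = v := by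
  intro v hv
  rw [E_add h1 h2, map_mul, Module.End.mul_apply, H2 v hv, H1 v hv]

variable [FiniteDimensional ℂ V]

/-- one commutator -/
theorem fix_move {p u w y' s : M} {g : Gr Q} (hW : finrank ℂ (Wt ρ ψ p u) ≤ 1) (hp : Q p = 0) (hw : Q w = 0)
    (hpw : polar Q p w = 0) (huw : polar Q u w = 0) (hwy : polar Q w y' = 0) (hpy : polar Q p y' = 0)
    (huy : polar Q u y' = 0) (gp : ac g p = p) (gu : ac g u = u) (gw : ac g w = w) (hws : polar Q w s = 0)
    (gy : ac g y' = s + y') : ∀ v ∈ Wt ρ ψ p u, ρ (E Q w s) v = v := by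
  refine core ρ hW (a := g) (b := E Q w y') (pres_of_fix hp gp gu)
    (pres_of_fix hp (E_fix hw hwy hpw hpy) (E_fix hw hwy huw huy)) ?_
  rw [E_conj hw hwy, gw, gy, E_add hws hwy, mul_assoc]

theorem fix_sing {p u w s : M} (hd : 9 ≤ finrank F M) (hW : finrank ℂ (Wt ρ ψ p u) ≤ 1) (hp : Q p = 0) (hw : Q w = 0)
    (hpw : polar Q p w = 0) (huw : polar Q u w = 0) (hs : Q s = 0) (hps : polar Q p s = 0) (hus : polar Q u s = 0)
    (hws : polar Q w s = 0) : ∀ v ∈ Wt ρ ψ p u, ρ (E Q w s) v = v := by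
  set L := Submodule.span F {p, u, w, s} with hL
  have h4 : finrank F L ≤ 4 := finrank_span4 p u w s
  have h5 := finrank_perp (nd Q) L
  obtain ⟨c, hc, hc'⟩ : ∃ c ∈ perp Q L, c ∉ L := by
    by_contra hcon
    push Not at hcon
    have h1 := Submodule.finrank_mono (show perp Q L ≤ L from hcon)
    omega
  rw [mem_perp] at hc
  obtain ⟨y', hy, hy1⟩ := exists_ortho_not (nd Q) L hc'
  have mp : p ∈ L := Submodule.subset_span (by simp)
  have mu : u ∈ L := Submodule.subset_span (by simp)
  have mw : w ∈ L := Submodule.subset_span (by simp)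
  have ms : s ∈ L := Submodule.subset_span (by simp)
  have hsc : polar Q s c = 0 := hc s ms
  refine fix_move (g := E Q s c) (y' := y') hW hp hw hpw huw (by rw [pc, hy w mw]) (by rw [pc, hy p mp])
    (by rw [pc, hy u mu]) (E_fix hs hsc hps (hc p mp)) (E_fix hs hsc hus (hc u mu)) (E_fix hs hsc hws (hc w mw)) hws ?_
  rw [ac_E hs hsc, hy1, hy s ms]
  module

theorem fix_big {p u w y : M} (hd : 9 ≤ finrank F M) (hW : finrank ℂ (Wt ρ ψ p u) ≤ 1) (hp : Q p = 0) (hw : Q w = 0)
    (hpw : polar Q p w = 0) (huw : polar Q u w = 0) (hpy : polar Q p y = 0) (huy : polar Q u y = 0)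
    (hwy : polar Q w y = 0) : ∀ v ∈ Wt ρ ψ p u, ρ (E Q w y) v = v := by
  set L := Submodule.span F {p, u, w} with hL
  have h4 : finrank F L ≤ 3 := finrank_span3 p u w
  obtain ⟨C, hC⟩ := Submodule.exists_isCompl L
  have hCfin : finrank F L + finrank F C = finrank F M := Submodule.finrank_add_eq_of_isCompl hC
  have hP := finrank_perp (nd Q) L
  have hPC : 3 ≤ finrank F ↥(perp Q L ⊓ C) := by
    have h1 := Submodule.finrank_sup_add_finrank_inf_eq (perp Q L) C
    have h2 := Submodule.finrank_le (perp Q L ⊔ C)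
    omega
  obtain ⟨s, hs, hs0, hsq⟩ := GeoMax.Ort.exists_sing_mem Q _ hPC
  have mp : p ∈ L := Submodule.subset_span (by simp)
  have mu : u ∈ L := Submodule.subset_span (by simp)
  have mw : w ∈ L := Submodule.subset_span (by simp)
  have hps : polar Q p s = 0 := hs.1 p mp
  have hus : polar Q u s = 0 := hs.1 u mu
  have hws : polar Q w s = 0 := hs.1 w mw
  have hsL : s ∉ L := by
    intro h
    apply hs0
    have := hC.disjoint
    rw [Submodule.disjoint_def] at this
    exact this _ h hs.2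
  have key2 : ∀ y, polar Q y s ≠ 0 → polar Q p y = 0 → polar Q u y = 0 → polar Q w y = 0 →
      ∀ v ∈ Wt ρ ψ p u, ρ (E Q w y) v = v := by
    intro y hys hpy huy hwy
    set c := Q y / polar Q y s with hc
    have e1 : Q (y - c • s) = 0 := by
      rw [qsub, qsmul, psr, hsq, hc]; field_simp; ring
    have e2 : polar Q p (y - c • s) = 0 := by rw [pdr, psr, hpy, hps]; ring
    have e3 : polar Q u (y - c • s) = 0 := by rw [pdr, psr, huy, hus]; ring
    have e4 : polar Q w (y - c • s) = 0 := by rw [pdr, psr, hwy, hws]; ring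
    have e5 : y = (y - c • s) + c • s := by abel
    rw [e5]
    exact fix_add e4 (by rw [psr, hws, mul_zero]) (fix_sing hd hW hp hw hpw huw e1 e2 e3 e4)
      (fix_sing hd hW hp hw hpw huw (by rw [qsmul, hsq, mul_zero]) (by rw [psr, hps, mul_zero])
        (by rw [psr, hus, mul_zero]) (by rw [psr, hws, mul_zero]))
  by_cases hys : polar Q y s = 0
  · obtain ⟨z, hz, hzs⟩ := exists_ortho_not (nd Q) _ hsL
    have hpz : polar Q p z = 0 := by rw [pc]; exact hz p mp
    have huz : polar Q u z = 0 := by rw [pc]; exact hz u mu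
    have hwz : polar Q w z = 0 := by rw [pc]; exact hz w mw
    have e5 : y = (y + z) + -z := by abel
    rw [e5]
    refine fix_add (by rw [par, hwy, hwz, add_zero]) (by rw [polar_neg_right, hwz, neg_zero]) (key2 _ ?_ ?_ ?_ ?_)
      (key2 _ ?_ ?_ ?_ ?_)
    · rw [pal, hys, hzs, zero_add]; exact one_ne_zero
    · rw [par, hpy, hpz, add_zero]
    · rw [par, huy, huz, add_zero]
    · rw [par, hwy, hwz, add_zero]
    · rw [polar_neg_left, hzs]; exact neg_ne_zero.2 one_ne_zero
    · rw [polar_neg_right, hpz, neg_zero]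
    · rw [polar_neg_right, huz, neg_zero]
    · rw [polar_neg_right, hwz, neg_zero]
  · exact key2 y hys hpy huy hwy

/-- dimension eight, minus type -/
theorem fix_eight {p u w y : M} (hd : 8 ≤ finrank F M) (hW : finrank ℂ (Wt ρ ψ p u) ≤ 1) (hp : Q p = 0) (hw : Q w = 0)
    (hpw : polar Q p w = 0) (huw : polar Q u w = 0)
    (hani : ∀ z, Q z = 0 → polar Q p z = 0 → polar Q u z = 0 → polar Q w z = 0 → z ∈ Submodule.span F {p, u, w})
    (hpy : polar Q p y = 0) (huy : polar Q u y = 0)
    (hwy : polar Q w y = 0) : ∀ v ∈ Wt ρ ψ p u, ρ (E Q w y) v = v := by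
  set X := Submodule.span F {p, u, w} with hX
  have h3 : finrank F X ≤ 3 := finrank_span3 p u w
  have hP := finrank_perp (nd Q) X
  have mp : p ∈ X := Submodule.subset_span (by simp)
  have mu : u ∈ X := Submodule.subset_span (by simp)
  have mw : w ∈ X := Submodule.subset_span (by simp)
  have key : ∀ a, a ∉ X → polar Q p a = 0 → polar Q u a = 0 → polar Q w a = 0 →
      ∀ v ∈ Wt ρ ψ p u, ρ (E Q w a) v = v := by
    intro a ha hpa hua hwa
    have hqa : Q a ≠ 0 := fun h => ha (hani a h hpa hua hwa)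
    set L := Submodule.span F {p, u, w, a} with hL
    have h4 : finrank F L ≤ 4 := finrank_span4 p u w a
    have hXL : X ≤ L := by
      apply Submodule.span_mono
      intro z hz
      simp only [Set.mem_insert_iff, Set.mem_singleton_iff] at hz ⊢
      tauto
    have haL : a ∈ L := Submodule.subset_span (by simp)
    obtain ⟨e, he, he'⟩ : ∃ e ∈ perp Q X, e ∉ L := by
      by_contra hcon
      push Not at hcon
      have h1 := Submodule.finrank_mono (show perp Q X ≤ L from hcon)
      omega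
    rw [mem_perp] at he
    obtain ⟨z, hz, hzL, hza⟩ : ∃ z, (∀ x ∈ X, polar Q x z = 0) ∧ z ∉ L ∧ polar Q a z ≠ 0 := by
      by_cases hea : polar Q a e = 0
      · obtain ⟨z1, hz1, hz1a⟩ := exists_ortho_not (nd Q) X ha
        by_cases hz1L : z1 ∈ L
        · refine ⟨z1 + e, fun x hx => by rw [par, he x hx, pc, hz1 x hx, add_zero], fun h => he' ?_, ?_⟩
          · have := Submodule.sub_mem _ h hz1L
            rwa [add_sub_cancel_left] at this
          · rw [par, hea, pc, hz1a, add_zero]; exact one_ne_zero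
        · exact ⟨z1, fun x hx => by rw [pc, hz1 x hx], hz1L, by rw [pc, hz1a]; exact one_ne_zero⟩
      · exact ⟨e, he, he', hea⟩
    have hqz : Q z ≠ 0 := fun h => hzL (hXL (hani z h (hz p mp) (hz u mu) (hz w mw)))
    set k := polar Q a z / Q z with hk
    have hk0 : k ≠ 0 := div_ne_zero hza hqz
    set b := a - k • z with hb
    have hqb : Q b = Q a := by
      rw [hb, qsub, qsmul, psr, hk]; field_simp; ring
    have hxb : ∀ x ∈ X, polar Q x a = 0 → polar Q x b = 0 := fun x hx h => by rw [hb, pdr, psr, hz x hx, h]; ring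
    have hab : a ∉ Submodule.span F {b, p, u, w} := by
      intro h
      obtain ⟨β, x, hx, hbx⟩ := Submodule.mem_span_insert.1 h
      have e1 : (β * k) • z = x + (β - 1) • a := by
        have : a = β • (a - k • z) + x := hbx
        have e2 : (β * k) • z = β • a + x - (β • (a - k • z) + x) := by module
        rw [e2, ← this]; module
      by_cases hβ : β = 0
      · apply ha
        rw [hbx, hβ, zero_smul, zero_add]; exact hx
      · apply hzL
        have e2 : z = (β * k)⁻¹ • (x + (β - 1) • a) := by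
          rw [← e1, smul_smul, inv_mul_cancel₀ (mul_ne_zero hβ hk0), one_smul]
        rw [e2]
        exact Submodule.smul_mem _ _ (Submodule.add_mem _ (hXL hx) (Submodule.smul_mem _ _ haL))
    obtain ⟨y'', hy, hy1⟩ := exists_ortho_not (nd Q) _ hab
    have hyp : polar Q y'' p = 0 := hy p (Submodule.subset_span (by simp))
    have hyu : polar Q y'' u = 0 := hy u (Submodule.subset_span (by simp))
    have hyw : polar Q y'' w = 0 := hy w (Submodule.subset_span (by simp))
    have hyb : polar Q y'' b = 0 := hy b (Submodule.subset_span (by simp))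
    have hqb0 : Q b ≠ 0 := by rw [hqb]; exact hqa
    let g : Gr Q := ⟨reflProd Q [⟨a, hqa⟩, ⟨b, hqb0⟩], reflProd_mem_commutator (nd Q) (by simp) (by
      rw [nrm_cons, nrm_cons, nrm_nil, mul_one]
      exact ⟨Q a, by rw [hqb]⟩)⟩
    have hg : ∀ x, ac g x = (refl Q a hqa : M ≃ₗ[F] M) ((refl Q b hqb0 : M ≃ₗ[F] M) x) := fun x => rfl
    have hgf : ∀ x, polar Q x a = 0 → polar Q x b = 0 → ac g x = x := by
      intro x h1 h2
      rw [hg, refl_apply_of_ortho hqb0 h2, refl_apply_of_ortho hqa h1]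
    refine fix_move (g := g) (y' := (-Q a) • y'') hW hp hw hpw huw ?_ ?_ ?_ (hgf p hpa (hxb p mp hpa))
      (hgf u hua (hxb u mu hua)) (hgf w hwa (hxb w mw hwa)) hwa ?_
    · rw [psr, pc, hyw, mul_zero]
    · rw [psr, pc, hyp, mul_zero]
    · rw [psr, pc, hyu, mul_zero]
    · rw [hg, refl_apply_of_ortho hqb0 (by rw [psl, hyb, mul_zero]), refl_apply, psl, hy1, mul_one, mul_neg,
        inv_mul_cancel₀ hqa]
      module
  by_cases hyX : y ∈ X
  · obtain ⟨a, ha, haX⟩ : ∃ a ∈ perp Q X, a ∉ X := by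
      by_contra hcon
      push Not at hcon
      have h1 := Submodule.finrank_mono (show perp Q X ≤ X from hcon)
      omega
    rw [mem_perp] at ha
    have e5 : y = (y + a) + -a := by abel
    rw [e5]
    refine fix_add (by rw [par, hwy, ha w mw, add_zero]) (by rw [polar_neg_right, ha w mw, neg_zero]) (key _ ?_ ?_ ?_ ?_)
      (key _ ?_ ?_ ?_ ?_)
    · intro h
      have := Submodule.sub_mem _ h hyX
      rw [add_sub_cancel_left] at this
      exact haX this
    · rw [par, hpy, ha p mp, add_zero]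
    · rw [par, huy, ha u mu, add_zero]
    · rw [par, hwy, ha w mw, add_zero]
    · intro h
      have := Submodule.neg_mem _ h
      rw [neg_neg] at this
      exact haX this
    · rw [polar_neg_right, ha p mp, neg_zero]
    · rw [polar_neg_right, ha u mu, neg_zero]
    · rw [polar_neg_right, ha w mw, neg_zero]
  · exact key y hyX hpy huy hwy

/-- maximality of the span of three singular vectors in dimension eight, minus type -/
theorem ani_of_card {p x w : M} (h : SP Q p x) (hw : Q w = 0) (hpw : polar Q p w = 0) (hxw : polar Q x w = 0)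
    (hwi : w ∉ LL F p x) (hd : finrank F M = 8)
    (hN : (N0 Q : ℤ) + 1 = (Fintype.card F : ℤ) ^ 7 - (Fintype.card F : ℤ) ^ 4 + (Fintype.card F : ℤ) ^ 3) :
    ∀ z, Q z = 0 → polar Q p z = 0 → polar Q x z = 0 → polar Q w z = 0 → z ∈ Submodule.span F {p, x, w} := by
  have hq1 : 1 < Fintype.card F := Fintype.one_lt_card
  have hM : Fintype.card M = Fintype.card F ^ 8 := by rw [card_M F M, hd]
  have hli : LinearIndependent F ![w, p, x] := by
    have e : (![w, p, x] : Fin 3 → M) = Fin.cons w ![p, x] := rfl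
    rw [e, linearIndependent_finCons]
    refine ⟨h.li, ?_⟩
    have h2 : Set.range ![p, x] = {p, x} := by simp [Set.pair_comm]
    rw [h2]; exact hwi
  have hX : Nat.card {z // z ∈ Submodule.span F {p, x, w}} = Fintype.card F ^ 3 := by
    rw [card_submodule]
    congr 1
    have h1 := finrank_span_eq_card hli
    rw [Fintype.card_fin] at h1
    have h2 : Set.range ![w, p, x] = {p, x, w} := by
      ext z
      simp only [Set.mem_range, Fin.exists_fin_succ, Set.mem_insert_iff, Set.mem_singleton_iff]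
      constructor
      · rintro (h | h | h | h)
        · right; right; exact h.symm
        · left; exact h.symm
        · right; left; exact h.symm
        · obtain ⟨i, _⟩ := h
          exact i.elim0
      · rintro (h | h | h)
        · right; left; exact h.symm
        · right; right; left; exact h.symm
        · left; exact h.symm
    rw [h2] at h1
    exact h1
  -- counting
  have c1 := card_SP (Q := Q) h.symm.p0 h.qx
  have c2 := card_nonortho (Q := Q) h.symm.p0 h.qx
  have c3 := card_Zp h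
  have c4 := card_nonortho2 h
  have c5 := card_split (fun z : M => z ∈ LL F p x ∨ Zp Q p x z) (fun z => z ∈ LL F p x)
  have e1 : Nat.card {z // (z ∈ LL F p x ∨ Zp Q p x z) ∧ z ∈ LL F p x} = Fintype.card F ^ 2 := by
    rw [← card_LL h]
    exact card_congr_iff fun z => ⟨fun h => h.2, fun h => ⟨Or.inl h, h⟩⟩
  have e2 : Nat.card {z // (z ∈ LL F p x ∨ Zp Q p x z) ∧ ¬ z ∈ LL F p x} = Nat.card {z // Zp Q p x z} := by
    exact card_congr_iff fun z => ⟨fun h => h.1.resolve_left h.2, fun h => ⟨Or.inr h, h.2.2.2⟩⟩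
  have e3 : Nat.card {z // z ∈ LL F p x ∨ Zp Q p x z} = Nat.card {z // Q z = 0 ∧ polar Q p z = 0 ∧ polar Q x z = 0} := by
    refine card_congr_iff fun z => ⟨?_, fun h1 => ?_⟩
    · rintro (h1 | h1)
      · exact ⟨h.TS h1, h.polar (left_mem p x) h1, h.polar (right_mem p x) h1⟩
      · exact ⟨h1.1, h1.2.1, h1.2.2.1⟩
    · by_cases hz : z ∈ LL F p x
      · exact Or.inl hz
      · exact Or.inr ⟨h1.1, h1.2.1, h1.2.2, hz⟩
  rw [e1, e2, e3] at c5
  have c6 := card_split (fun z : M => Q z = 0 ∧ polar Q p z = 0 ∧ polar Q x z = 0) (fun z => polar Q w z = 0)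
  have c7 := card_shift (fun u => polar Q p u = 0 ∧ polar Q x u = 0 ∧ polar Q w u ≠ 0) (fun u => Q u)
    (fun u => polar Q w u) w
    (fun u c hu => by
      rw [par, psr, hpw, par, psr, hxw, par, psr, polar_self_of hw, mul_zero, add_zero, add_zero, add_zero]; exact hu)
    (fun u c _ => by change Q (u + c • w) = Q u + c * polar Q w u; rw [qadd, qsmul, hw, psr, pc Q u w]; ring)
    (fun u c _ => by change polar Q w (u + c • w) = polar Q w u; rw [par, psr, polar_self_of hw, mul_zero, add_zero])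
    (fun _ hu => hu.2.2) 0
  have c8 := card_split (fun u : M => polar Q p u = 0 ∧ polar Q x u = 0) (fun u => polar Q w u = 0)
  have c9 := card_perp2 (Q := Q) h.li
  have c10 := card_perp3 (Q := Q) h.li hwi
  have e4 : Nat.card {u // (polar Q p u = 0 ∧ polar Q x u = 0) ∧ polar Q w u = 0} =
      Nat.card {y // polar Q p y = 0 ∧ polar Q x y = 0 ∧ polar Q w y = 0} := card_congr_iff fun z => and_assoc
  have e5 : Nat.card {u // (polar Q p u = 0 ∧ polar Q x u = 0) ∧ ¬ polar Q w u = 0} =
      Nat.card {y // polar Q p y = 0 ∧ polar Q x y = 0 ∧ polar Q w y ≠ 0} := card_congr_iff fun z => and_assoc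
  have e6 : Nat.card {z // (Q z = 0 ∧ polar Q p z = 0 ∧ polar Q x z = 0) ∧ ¬ polar Q w z = 0} =
      Nat.card {u // (polar Q p u = 0 ∧ polar Q x u = 0 ∧ polar Q w u ≠ 0) ∧ Q u = 0} :=
    card_congr_iff fun z => by tauto
  rw [e4, e5, c7] at c8
  rw [e6] at c6
  set q := Fintype.card F with hqd
  set n1 := Nat.card {u // SP Q x u}
  set n2 := Nat.card {u // Q u = 0 ∧ polar Q x u ≠ 0}
  set n3 := Nat.card {u // Zp Q p x u}
  set n4 := Nat.card {u // Q u = 0 ∧ polar Q x u = 0 ∧ polar Q p u ≠ 0}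
  set n5 := Nat.card {z // Q z = 0 ∧ polar Q p z = 0 ∧ polar Q x z = 0}
  set n6 := Nat.card {z // (Q z = 0 ∧ polar Q p z = 0 ∧ polar Q x z = 0) ∧ polar Q w z = 0} with hn6
  set n7 := Nat.card {u // (polar Q p u = 0 ∧ polar Q x u = 0 ∧ polar Q w u ≠ 0) ∧ Q u = 0}
  set n8 := Nat.card {u // polar Q p u = 0 ∧ polar Q x u = 0}
  set n9 := Nat.card {y // polar Q p y = 0 ∧ polar Q x y = 0 ∧ polar Q w y = 0}
  have hq0 : (q : ℤ) ≠ 0 := by
    have : (0 : ℤ) < q := by exact_mod_cast (by omega : 0 < q)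
    exact this.ne'
  have z2 : (n2 : ℤ) = q ^ 7 - q ^ 6 := by
    apply mul_right_cancel₀ (pow_ne_zero 2 hq0)
    have : ((n2 * q ^ 2 + Fintype.card M : ℕ) : ℤ) = ((q * Fintype.card M : ℕ) : ℤ) := by rw [c2]
    rw [hM] at this
    push_cast at this
    linear_combination this
  have z4 : (n4 : ℤ) = q ^ 6 - q ^ 5 := by
    apply mul_right_cancel₀ (pow_ne_zero 3 hq0)
    have : ((n4 * q ^ 3 + Fintype.card M : ℕ) : ℤ) = ((q * Fintype.card M : ℕ) : ℤ) := by rw [c4]
    rw [hM] at this
    push_cast at this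
    linear_combination this
  have z8 : (n8 : ℤ) = q ^ 6 := by
    apply mul_right_cancel₀ (pow_ne_zero 2 hq0)
    have : ((n8 * q ^ 2 : ℕ) : ℤ) = ((Fintype.card M : ℕ) : ℤ) := by rw [c9]
    rw [hM] at this
    push_cast at this
    linear_combination this
  have z9 : (n9 : ℤ) = q ^ 5 := by
    apply mul_right_cancel₀ (pow_ne_zero 3 hq0)
    have : ((n9 * q ^ 3 : ℕ) : ℤ) = ((Fintype.card M : ℕ) : ℤ) := by rw [c10]
    rw [hM] at this
    push_cast at this
    linear_combination this
  have z7 : (n7 : ℤ) = q ^ 5 - q ^ 4 := by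
    apply mul_left_cancel₀ hq0
    have : ((n8 : ℕ) : ℤ) = ((n9 + q * n7 : ℕ) : ℤ) := by rw [c8]
    push_cast at this
    linear_combination -this + z8 - z9
  have z6 : (n6 : ℤ) = q ^ 3 := by
    have k1 : ((N0 Q + 1 : ℕ) : ℤ) = ((n1 + q + n2 : ℕ) : ℤ) := by rw [c1]
    have k2 : ((n1 + q : ℕ) : ℤ) = ((n3 + q ^ 2 + n4 : ℕ) : ℤ) := by rw [c3]
    have k3 : ((n5 : ℕ) : ℤ) = ((q ^ 2 + n3 : ℕ) : ℤ) := by rw [c5]
    have k4 : ((n5 : ℕ) : ℤ) = ((n6 + n7 : ℕ) : ℤ) := by rw [c6]
    push_cast at k1 k2 k3 k4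
    linear_combination -k4 + k3 - k2 - k1 - z7 + hN - z2 - z4
  have z6' : n6 = q ^ 3 := by exact_mod_cast z6
  intro z hz1 hz2 hz3 hz4
  -- the inclusion is an equality
  have hTS : ∀ a ∈ Submodule.span F {p, x, w}, (Q a = 0 ∧ polar Q p a = 0 ∧ polar Q x a = 0) ∧ polar Q w a = 0 := by
    intro a ha
    obtain ⟨c1, c2, c3, rfl⟩ := Submodule.mem_span_triple.1 ha
    refine ⟨⟨?_, ?_, ?_⟩, ?_⟩
    · simp only [qadd, qsmul, psl, psr, pal, par, h.qp, h.qx, hw, h.px, hpw, hxw]; ring
    · simp only [psr, par, polar_self_of h.qp, h.px, hpw]; ring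
    · simp only [psr, par, polar_self_of h.qx, pc Q x p, h.px, hxw]; ring
    · simp only [psr, par, polar_self_of hw, pc Q w p, pc Q w x, hpw, hxw]; ring
  have c11 := card_split (fun a : M => (Q a = 0 ∧ polar Q p a = 0 ∧ polar Q x a = 0) ∧ polar Q w a = 0)
    (fun a => a ∈ Submodule.span F {p, x, w})
  have e7 : Nat.card {a // ((Q a = 0 ∧ polar Q p a = 0 ∧ polar Q x a = 0) ∧ polar Q w a = 0) ∧
      a ∈ Submodule.span F {p, x, w}} = q ^ 3 := by
    rw [← hX]
    exact card_congr_iff fun a => ⟨fun h => h.2, fun h => ⟨hTS a h, h⟩⟩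
  rw [e7, ← hn6, z6'] at c11
  by_contra hcon
  have : Nonempty {a // ((Q a = 0 ∧ polar Q p a = 0 ∧ polar Q x a = 0) ∧ polar Q w a = 0) ∧
      ¬ a ∈ Submodule.span F {p, x, w}} := ⟨⟨z, ⟨⟨hz1, hz2, hz3⟩, hz4⟩, hcon⟩⟩
  have h0 : 0 < Nat.card {a // ((Q a = 0 ∧ polar Q p a = 0 ∧ polar Q x a = 0) ∧ polar Q w a = 0) ∧
      ¬ a ∈ Submodule.span F {p, x, w}} := Nat.card_pos
  omega

end Cfsg.Agent.LSO
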