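import Cfsg.Agent.OMax.Gen
import Cfsg.Agent.GeoMax.OBasic
import Cfsg.Agent.Orth.Adjust2

/-!
The commutator subgroup of an orthogonal group: action, Eichler elements, transitivity.
-/

set_option autoImplicit false
set_option linter.unusedSectionVars false

namespace Cfsg.Agent.LSO

open QuadraticMap Module Cfsg.Agent.Orth

variable {F M : Type*} [Field F] [AddCommGroup M] [Module F M]

/-- non-degenerate forms in dimension at least seven -/
class Nice (Q : QuadraticForm F M) : Prop where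
  nd : (polarBilin Q).Nondegenerate
  dim : 7 ≤ finrank F M

/-- the commutator subgroup of the isometry group -/
abbrev Gr (Q : QuadraticForm F M) : Type _ := ↥(commutator (OGrp Q))

variable {Q : QuadraticForm F M}

/-- action on vectors -/
def ac (g : Gr Q) (x : M) : M := ((g : OGrp Q) : M ≃ₗ[F] M) x

theorem ac_mul (g h : Gr Q) (x : M) : ac (g * h) x = ac g (ac h x) := rfl
theorem ac_one (x : M) : ac (1 : Gr Q) x = x := rfl
theorem ac_inv_ac (g : Gr Q) (x : M) : ac g⁻¹ (ac g x) = x := by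
  rw [← ac_mul, inv_mul_cancel, ac_one]
theorem ac_ac_inv (g : Gr Q) (x : M) : ac g (ac g⁻¹ x) = x := by
  rw [← ac_mul, mul_inv_cancel, ac_one]
theorem ac_add (g : Gr Q) (x y : M) : ac g (x + y) = ac g x + ac g y := map_add _ _ _
theorem ac_sub (g : Gr Q) (x y : M) : ac g (x - y) = ac g x - ac g y := map_sub _ _ _
theorem ac_neg (g : Gr Q) (x : M) : ac g (-x) = -ac g x := map_neg _ _
theorem ac_smul (g : Gr Q) (c : F) (x : M) : ac g (c • x) = c • ac g x := map_smul _ _ _
theorem ac_zero (g : Gr Q) : ac g 0 = 0 := map_zero _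
theorem ac_q (g : Gr Q) (x : M) : Q (ac g x) = Q x := OGrp_q _ _
theorem ac_polar (g : Gr Q) (x y : M) : polar Q (ac g x) (ac g y) = polar Q x y := OGrp_polar _ _ _
theorem ac_ext {g h : Gr Q} (H : ∀ x, ac g x = ac h x) : g = h := Subtype.ext (OGrp_ext H)
theorem ac_ne_zero (g : Gr Q) {x : M} (hx : x ≠ 0) : ac g x ≠ 0 := by
  intro h
  apply hx
  rw [← ac_inv_ac g x, h, ac_zero]
theorem ac_inj (g : Gr Q) {x y : M} (h : ac g x = ac g y) : x = y := by
  rw [← ac_inv_ac g x, h, ac_inv_ac]
theorem polar_ac (g : Gr Q) (x y : M) : polar Q x (ac g y) = polar Q (ac g⁻¹ x) y := by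
  rw [← ac_polar g (ac g⁻¹ x) y, ac_ac_inv]

open Classical in
/-- the Eichler element (if it makes sense) -/
noncomputable def E (Q : QuadraticForm F M) (p x : M) : Gr Q :=
  if h : ∃ (ha : Q p = 0) (hab : polar Q p x = 0), eich Q p x ha hab ∈ commutator (OGrp Q) then
    ⟨eich Q p x h.1 h.2.1, h.2.2⟩ else 1

theorem E_of_ne {p x : M} (h : Q p ≠ 0) : E Q p x = 1 := by
  rw [E, dif_neg]
  rintro ⟨h1, _⟩
  exact h h1

theorem polar_self_of {p : M} (h : Q p = 0) : polar Q p p = 0 := by rw [pself, h, mul_zero]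

section
variable [Finite F] [FiniteDimensional F M] [Nice Q]

theorem nd (Q : QuadraticForm F M) [Nice Q] : (polarBilin Q).Nondegenerate := Nice.nd

theorem ac_E {p x : M} (hp : Q p = 0) (hpx : polar Q p x = 0) (z : M) :
    ac (E Q p x) z = z + polar Q z x • p - polar Q z p • x - (Q x * polar Q z p) • p := by
  have hd : 7 ≤ finrank F M := Nice.dim (Q := Q)
  have h : eich Q p x hp hpx ∈ commutator (OGrp Q) := OMax.eich_mem_comm (nd Q) (by omega) hp hpx
  rw [E, dif_pos ⟨hp, hpx, h⟩]
  exact eich_apply Q p x hp hpx z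

theorem E_fix {p x z : M} (hp : Q p = 0) (hpx : polar Q p x = 0) (h1 : polar Q z p = 0) (h2 : polar Q z x = 0) :
    ac (E Q p x) z = z := by
  rw [ac_E hp hpx, h1, h2]; simp

theorem E_add {p x y : M} (hx : polar Q p x = 0) (hy : polar Q p y = 0) : E Q p (x + y) = E Q p x * E Q p y := by
  by_cases hp : Q p = 0
  · apply ac_ext
    intro z
    rw [ac_mul, ac_E hp (by rw [par, hx, hy, add_zero]), ac_E hp hx, ac_E hp hy]
    simp only [pal, pdl, psl, par, qadd, hx, hy, polar_self_of hp, pc Q x p, pc Q y p, pc Q y x]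
    module
  · rw [E_of_ne hp, E_of_ne hp, E_of_ne hp, one_mul]

theorem E_zero (p : M) : E Q p 0 = 1 := by
  by_cases hp : Q p = 0
  · apply ac_ext
    intro z
    rw [ac_E hp (polar_zero_right Q p), ac_one, polar_zero_right, QuadraticMap.map_zero]
    simp
  · rw [E_of_ne hp]

theorem E_smul {p x : M} (c : F) (hx : polar Q p x = 0) (hp : Q p = 0) : E Q (c • p) x = E Q p (c • x) := by
  apply ac_ext
  intro z
  rw [ac_E (by rw [qsmul, hp, mul_zero]) (by rw [psl, hx, mul_zero]), ac_E hp (by rw [psr, hx, mul_zero])]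
  simp only [psr, qsmul]
  module

theorem E_swap {p x : M} (hp : Q p = 0) (hq : Q x = 0) (hx : polar Q p x = 0) : E Q p x = E Q x (-p) := by
  have hxp : polar Q x (-p) = 0 := by rw [polar_neg_right, pc, hx, neg_zero]
  apply ac_ext
  intro z
  rw [ac_E hp hx, ac_E hq hxp]
  simp only [polar_neg_right, QuadraticMap.map_neg, hp, hq]
  module

theorem E_self {p : M} (hp : Q p = 0) (c : F) : E Q p (c • p) = 1 := by
  have h : polar Q p (c • p) = 0 := by rw [psr, polar_self_of hp, mul_zero]
  apply ac_ext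
  intro z
  rw [ac_E hp h, ac_one]
  simp only [psr, qsmul, hp]
  module

theorem E_add_self {p x : M} (hp : Q p = 0) (hx : polar Q p x = 0) (c : F) : E Q p (x + c • p) = E Q p x := by
  rw [E_add hx (by rw [psr, polar_self_of hp, mul_zero]), E_self hp, mul_one]

theorem E_conj {p x : M} (hp : Q p = 0) (hx : polar Q p x = 0) (g : Gr Q) :
    g * E Q p x = E Q (ac g p) (ac g x) * g := by
  apply ac_ext
  intro z
  rw [ac_mul, ac_mul, ac_E hp hx, ac_E (by rw [ac_q, hp]) (by rw [ac_polar, hx])]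
  simp only [ac_add, ac_sub, ac_smul, ac_q, ac_polar]

theorem E_addl {a b y : M} (ha : Q a = 0) (hb : Q b = 0) (hab : polar Q a b = 0) (hay : polar Q a y = 0)
    (hby : polar Q b y = 0) : E Q (a + b) y = E Q a y * E Q b y * E Q a (Q y • b) := by
  have h1 : Q (a + b) = 0 := by rw [qadd, ha, hb, hab]; simp
  have h2 : polar Q (a + b) y = 0 := by rw [pal, hay, hby, add_zero]
  have h3 : polar Q a (Q y • b) = 0 := by rw [psr, hab, mul_zero]
  apply ac_ext
  intro z
  rw [ac_mul, ac_mul, ac_E h1 h2, ac_E ha hay, ac_E hb hby, ac_E ha h3]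
  simp only [pal, pdl, psl, par, pdr, psr, qsmul, ha, hb, hab, hay, hby, pc Q b a, polar_self_of ha, polar_self_of hb,
    pc Q y a, pc Q y b, pself]
  module

end

end Cfsg.Agent.LSO
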