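import Cfsg.Agent.LSO.Stab

/-!
The unipotent radical of the stabilizer of a totally singular line.
-/

set_option autoImplicit false
set_option linter.unusedSectionVars false
set_option linter.style.haveILetI false

namespace Cfsg.Agent.LSO

open QuadraticMap Module Cfsg.Agent.H39 Cfsg.Agent.LSU
open Cfsg.Agent.Orth hiding map_mul
open Cfsg.Agent.LSSL (fixS mem_fixS avg avg_mem avg_of_fix isProj_avg avg_mul_of_mem mul_avg_of_mem avg_comm avg_comm_op
  mem_fixS_closure PP PP_mem PP_of_mem cardA_ne)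
open scoped Classical

variable {F M : Type*} [Field F] [AddCommGroup M] [Module F M]

/-- the plane spanned by two vectors -/
def LL (F : Type*) {M : Type*} [Field F] [AddCommGroup M] [Module F M] (p x : M) : Submodule F M :=
  Submodule.span F {p, x}

theorem left_mem (p x : M) : p ∈ LL F p x := Submodule.subset_span (by simp)
theorem right_mem (p x : M) : x ∈ LL F p x := Submodule.subset_span (by simp)
theorem mem_LL {p x a : M} : a ∈ LL F p x ↔ ∃ c d : F, c • p + d • x = a := Submodule.mem_span_pair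

theorem LL_symm (p x : M) : LL F p x = LL F x p := by
  rw [LL, LL, Set.pair_comm]

variable {Q : QuadraticForm F M}

theorem SP.TS {p x : M} (h : SP Q p x) {a : M} (ha : a ∈ LL F p x) : Q a = 0 := by
  obtain ⟨c, d, rfl⟩ := mem_LL.1 ha
  rw [qadd, qsmul, qsmul, psl, psr, h.qp, h.qx, h.px]; ring

theorem SP.polar {p x : M} (h : SP Q p x) {a b : M} (ha : a ∈ LL F p x) (hb : b ∈ LL F p x) :
    QuadraticMap.polar Q a b = 0 := by
  have h1 := h.TS (Submodule.add_mem _ ha hb)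
  rw [qadd, h.TS ha, h.TS hb] at h1
  simpa using h1

theorem polar_LL {p x a y : M} (ha : a ∈ LL F p x) (h1 : polar Q p y = 0) (h2 : polar Q x y = 0) :
    polar Q a y = 0 := by
  obtain ⟨c, d, rfl⟩ := mem_LL.1 ha
  rw [pal, psl, psl, h1, h2]; ring

variable [Fintype F] [Fintype M] [FiniteDimensional F M] [Nice Q]

instance finiteGr (Q : QuadraticForm F M) : Finite (Gr Q) :=
  Finite.of_injective (fun g : Gr Q => (fun x => ac g x : M → M)) (fun _ _ h => ac_ext (congrFun h))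

theorem finrank_LL {p x : M} (h : SP Q p x) : finrank F (LL F p x) = 2 := by
  have h1 := finrank_span_eq_card h.li
  rw [Fintype.card_fin] at h1
  have h2 : Set.range ![p, x] = {p, x} := by simp [Set.pair_comm]
  rw [h2] at h1
  exact h1

theorem LL_eq {p x p' x' : M} (h : SP Q p x) (h' : SP Q p' x') (hp : p' ∈ LL F p x) (hx : x' ∈ LL F p x) :
    LL F p' x' = LL F p x := by
  apply Submodule.eq_of_le_of_finrank_eq
  · rw [LL, Submodule.span_le]
    intro z hz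
    rcases hz with rfl | hz
    · exact hp
    · rw [Set.mem_singleton_iff] at hz
      rw [hz]; exact hx
  · rw [finrank_LL h, finrank_LL h']

theorem SP.of_mem {p x a b : M} (h : SP Q p x) (ha : a ∈ LL F p x) (hb : b ∈ LL F p x) (ha0 : a ≠ 0)
    (hi : b ∉ Submodule.span F {a}) : SP Q a b :=
  ⟨ha0, hi, h.TS ha, h.TS hb, h.polar ha hb⟩

theorem SP.smul {p x : M} (h : SP Q p x) {c : F} (hc : c ≠ 0) : SP Q p (c • x) := by
  refine ⟨h.p0, fun h1 => h.ind ?_, h.qp, by rw [qsmul, h.qx, mul_zero], by rw [psr, h.px, mul_zero]⟩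
  have := Submodule.smul_mem _ c⁻¹ h1
  rwa [smul_smul, inv_mul_cancel₀ hc, one_smul] at this


/-- elements preserving a subspace -/
def Nm (L : Submodule F M) (c : Gr Q) : Prop := ∀ a, ac c a ∈ L ↔ a ∈ L

theorem Nm.inv {L : Submodule F M} {c : Gr Q} (hc : Nm L c) : Nm L c⁻¹ := by
  intro a
  rw [← hc (ac c⁻¹ a), ac_ac_inv]

theorem Nm_mul {L : Submodule F M} {a b : Gr Q} (ha : Nm L a) (hb : Nm L b) : Nm L (a * b) := by
  intro h
  rw [ac_mul, ha, hb]

theorem Nm_one (L : Submodule F M) : Nm L (1 : Gr Q) := by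
  intro h
  rw [ac_one]

theorem Nm.perp {L : Submodule F M} {c : Gr Q} (hc : Nm L c) {y : M} (hy : ∀ b ∈ L, polar Q b y = 0) :
    ∀ b ∈ L, polar Q b (ac c y) = 0 := by
  intro b hb
  rw [polar_ac]
  exact hy _ ((hc.inv b).2 hb)

/-- the unipotent radical -/
def UB (Q : QuadraticForm F M) (L : Submodule F M) : Subgroup (Gr Q) :=
  Subgroup.closure {g | ∃ a ∈ L, ∃ y, (∀ b ∈ L, polar Q b y = 0) ∧ g = E Q a y}

/-- the group generated by the unipotent radicals of the points -/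
def NN (Q : QuadraticForm F M) (L : Submodule F M) : Subgroup (Gr Q) :=
  Subgroup.closure {g | ∃ a ∈ L, ∃ y, polar Q a y = 0 ∧ g = E Q a y}

theorem E_mem_UB {L : Submodule F M} {a y : M} (ha : a ∈ L) (hy : ∀ b ∈ L, polar Q b y = 0) : E Q a y ∈ UB Q L :=
  Subgroup.subset_closure ⟨a, ha, y, hy, rfl⟩

theorem E_mem_NN {L : Submodule F M} {a y : M} (ha : a ∈ L) (hy : polar Q a y = 0) : E Q a y ∈ NN Q L :=
  Subgroup.subset_closure ⟨a, ha, y, hy, rfl⟩

theorem UB_le_NN (L : Submodule F M) : UB Q L ≤ NN Q L := by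
  rw [UB, Subgroup.closure_le]
  rintro _ ⟨a, ha, y, hy, rfl⟩
  exact E_mem_NN ha (hy a ha)

theorem closure_conj {G : Type*} [Group G] {S : Set G} {c : G} (h : ∀ a ∈ S, c * a * c⁻¹ ∈ Subgroup.closure S) :
    ∀ a ∈ Subgroup.closure S, c * a * c⁻¹ ∈ Subgroup.closure S := by
  intro a ha
  induction ha using Subgroup.closure_induction with
  | mem x hx => exact h x hx
  | one => simp
  | mul x y _ _ hx hy =>
    have e : c * (x * y) * c⁻¹ = (c * x * c⁻¹) * (c * y * c⁻¹) := by group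
    rw [e]; exact Subgroup.mul_mem _ hx hy
  | inv x _ hx =>
    have e : c * x⁻¹ * c⁻¹ = (c * x * c⁻¹)⁻¹ := by group
    rw [e]; exact Subgroup.inv_mem _ hx

theorem closure_conj_iff {G : Type*} [Group G] {S : Set G} {c : G} (h : ∀ a ∈ S, c * a * c⁻¹ ∈ Subgroup.closure S)
    (h' : ∀ a ∈ S, c⁻¹ * a * c⁻¹⁻¹ ∈ Subgroup.closure S) : ∀ a, a ∈ Subgroup.closure S ↔ c * a * c⁻¹ ∈ Subgroup.closure S := by
  intro a
  refine ⟨closure_conj h a, fun ha => ?_⟩
  have := closure_conj h' _ ha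
  have e : c⁻¹ * (c * a * c⁻¹) * c⁻¹⁻¹ = a := by group
  rwa [e] at this

theorem E_conj' {p y : M} (hp : Q p = 0) (hy : polar Q p y = 0) (c : Gr Q) :
    c * E Q p y * c⁻¹ = E Q (ac c p) (ac c y) := by
  rw [E_conj hp hy, mul_inv_cancel_right]

theorem Nm.UB {L : Submodule F M} (hL : ∀ a ∈ L, Q a = 0) {c : Gr Q} (hc : Nm L c) :
    ∀ a, a ∈ UB Q L ↔ c * a * c⁻¹ ∈ UB Q L := by
  have h1 : ∀ c : Gr Q, Nm L c → ∀ a ∈ {g | ∃ a ∈ L, ∃ y, (∀ b ∈ L, polar Q b y = 0) ∧ g = E Q a y},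
      c * a * c⁻¹ ∈ LSO.UB Q L := by
    rintro c hc _ ⟨a, ha, y, hy, rfl⟩
    rw [E_conj' (hL a ha) (hy a ha)]
    exact E_mem_UB ((hc a).2 ha) (hc.perp hy)
  exact closure_conj_iff (h1 c hc) (h1 c⁻¹ hc.inv)

theorem Nm.NN {L : Submodule F M} (hL : ∀ a ∈ L, Q a = 0) {c : Gr Q} (hc : Nm L c) :
    ∀ a, a ∈ NN Q L ↔ c * a * c⁻¹ ∈ NN Q L := by
  have h1 : ∀ c : Gr Q, Nm L c → ∀ a ∈ {g | ∃ a ∈ L, ∃ y, polar Q a y = 0 ∧ g = E Q a y},
      c * a * c⁻¹ ∈ LSO.NN Q L := by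
    rintro c hc _ ⟨a, ha, y, hy, rfl⟩
    rw [E_conj' (hL a ha) hy]
    exact E_mem_NN ((hc a).2 ha) (by rw [ac_polar, hy])
  exact closure_conj_iff (h1 c hc) (h1 c⁻¹ hc.inv)

theorem Nm_E {p x : M} (h : SP Q p x) {a y : M} (ha : a ∈ LL F p x) (hy : polar Q a y = 0) :
    Nm (LL F p x) (E Q a y) := by
  have h1 : ∀ b ∈ LL F p x, ∀ y, polar Q a y = 0 → ac (E Q a y) b ∈ LL F p x := by
    intro b hb y hy
    rw [ac_E (h.TS ha) hy, h.polar hb ha]
    have e : b + polar Q b y • a - (0 : F) • y - (Q y * 0) • a = b + polar Q b y • a := by module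
    rw [e]
    exact Submodule.add_mem _ hb (Submodule.smul_mem _ _ ha)
  have h2 : ∀ b, ac (E Q a (-y)) (ac (E Q a y) b) = b := by
    intro b
    rw [← ac_mul, ← E_add (by rw [polar_neg_right, hy, neg_zero]) hy, neg_add_cancel, E_zero, ac_one]
  intro b
  refine ⟨fun hb => ?_, fun hb => h1 b hb y hy⟩
  have := h1 _ hb (-y) (by rw [polar_neg_right, hy, neg_zero])
  rwa [h2] at this

theorem Nm_of_pair {p x : M} (h : SP Q p x) {c : Gr Q} (hp : ac c p ∈ LL F p x)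
    (hx : ac c x ∈ LL F p x) : Nm (LL F p x) c := by
  have hL := LL_eq h (h.ac c) hp hx
  intro k
  constructor
  · intro h1
    rw [← hL] at h1
    obtain ⟨a, b, hab⟩ := mem_LL.1 h1
    rw [← ac_smul, ← ac_smul, ← ac_add] at hab
    rw [← ac_inj c hab]
    exact mem_LL.2 ⟨a, b, rfl⟩
  · intro h1
    obtain ⟨a, b, rfl⟩ := mem_LL.1 h1
    rw [ac_add, ac_smul, ac_smul]
    exact Submodule.add_mem _ (Submodule.smul_mem _ _ hp) (Submodule.smul_mem _ _ hx)

theorem Nm_of_mem_NN {p x : M} (h : SP Q p x) {a : Gr Q} (ha : a ∈ NN Q (LL F p x)) : Nm (LL F p x) a := by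
  induction ha using Subgroup.closure_induction with
  | mem b hb =>
    obtain ⟨b, hb, y, hy, rfl⟩ := hb
    exact Nm_E h hb hy
  | one => exact Nm_one _
  | mul x y _ _ hx hy => exact Nm_mul hx hy
  | inv x _ hx => exact hx.inv

variable {V : Type*} [AddCommGroup V] [Module ℂ V] (ρ : Representation ℂ (Gr Q) V)
variable {ψ : AddChar F ℂ}

/-- projection to the fixed points of the unipotent radical -/
noncomputable def pE (L : Submodule F M) : V →ₗ[ℂ] V := avg ρ (UB Q L)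
/-- projection to the fixed points of `NN` -/
noncomputable def pT (L : Submodule F M) : V →ₗ[ℂ] V := avg ρ (NN Q L)

section
variable {L : Submodule F M}

theorem pE_comm (hL : ∀ a ∈ L, Q a = 0) {c : Gr Q} (hc : Nm L c) : ρ c * pE ρ L = pE ρ L * ρ c :=
  avg_comm ρ (hc.UB hL)

theorem pT_comm (hL : ∀ a ∈ L, Q a = 0) {c : Gr Q} (hc : Nm L c) : ρ c * pT ρ L = pT ρ L * ρ c :=
  avg_comm ρ (hc.NN hL)

theorem pE_mul_pT (L : Submodule F M) : pE ρ L * pT ρ L = pT ρ L := by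
  ext v
  exact avg_of_fix ρ fun a ha => avg_mem ρ (NN Q L) v a (UB_le_NN L ha)

theorem avg_mul_avg {G : Type*} [Group G] [Finite G] (ρ : Representation ℂ G V) {H K : Subgroup G} (h : H ≤ K) :
    avg ρ K * avg ρ H = avg ρ K := by
  letI : Fintype H := Fintype.ofFinite _
  have h1 : ∀ a : H, avg ρ K * ρ (a : G) = avg ρ K := fun a => avg_mul_of_mem ρ (h a.2)
  have h2 : avg ρ H = (Fintype.card H : ℂ)⁻¹ • ∑ a : H, ρ a := rfl
  rw [h2, mul_smul_comm, Finset.mul_sum, Finset.sum_congr rfl (g := fun _ => avg ρ K) (fun a _ => h1 a),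
    Finset.sum_const, Finset.card_univ, ← Nat.cast_smul_eq_nsmul ℂ, smul_smul, inv_mul_cancel₀, one_smul]
  simp [Fintype.card_ne_zero]

theorem pT_mul_pE (L : Submodule F M) : pT ρ L * pE ρ L = pT ρ L := avg_mul_avg ρ (UB_le_NN L)

theorem pE_mul_pE (L : Submodule F M) : pE ρ L * pE ρ L = pE ρ L := by
  ext v
  exact avg_of_fix ρ (avg_mem ρ _ v)

theorem pT_mul_pT (L : Submodule F M) : pT ρ L * pT ρ L = pT ρ L := by
  ext v
  exact avg_of_fix ρ (avg_mem ρ _ v)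

end

variable {p x : M}

theorem pj_comm_pE (h : SP Q p x) {a : M} (ha : a ∈ LL F p x) :
    pE ρ (LL F p x) * pj ρ a = pj ρ a * pE ρ (LL F p x) := by
  apply avg_comm_op
  rintro _ ⟨b, hb, y, hy, rfl⟩
  rw [pj_conj (h.TS ha), E_fix (h.TS hb) (hy b hb) (h.polar ha hb) (hy a ha)]

theorem pj_mul_pT {a : M} (ha : a ∈ LL F p x) : pj ρ a * pT ρ (LL F p x) = pT ρ (LL F p x) := by
  ext v
  exact pj_apply_of_fix fun y hy => avg_mem ρ (NN Q (LL F p x)) v _ (E_mem_NN ha hy)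

theorem pT_mul_pj {a : M} (ha : a ∈ LL F p x) : pT ρ (LL F p x) * pj ρ a = pT ρ (LL F p x) := by
  rw [pj, LSSL.PP_zero, mul_smul_comm, Finset.mul_sum, Finset.sum_congr rfl (g := fun _ => pT ρ (LL F p x)),
    Finset.sum_const, Finset.card_univ, ← Nat.cast_smul_eq_nsmul ℂ, smul_smul, inv_mul_cancel₀ (cardA_ne _), one_smul]
  intro y _
  exact avg_mul_of_mem ρ (E_mem_NN ha y.2)

theorem E_comb {y : M} (h : SP Q p x) (h1 : polar Q p y = 0) (h2 : polar Q x y = 0) (a b : F) :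
    E Q (a • p + b • x) y = E Q p (a • y) * E Q x (b • y) * E Q p (a • Q y • b • x) := by
  rw [E_addl (by rw [qsmul, h.qp, mul_zero]) (by rw [qsmul, h.qx, mul_zero]) (by rw [psl, psr, h.px]; ring)
    (by rw [psl, h1, mul_zero]) (by rw [psl, h2, mul_zero]), E_smul a h1 h.qp, E_smul b h2 h.qx,
    E_smul a (by rw [psr, psr, h.px]; ring) h.qp]

/-- a vector fixed by the two standard parts is fixed by `UB` -/
theorem mem_fix_UB (h : SP Q p x) {v : V} (h1 : ∀ y, polar Q p y = 0 → polar Q x y = 0 → ρ (E Q p y) v = v)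
    (h2 : ∀ y, polar Q p y = 0 → polar Q x y = 0 → ρ (E Q x y) v = v) :
    v ∈ fixS ρ (UB Q (LL F p x)) := by
  apply mem_fixS_closure
  rintro _ ⟨c, hc, y, hy, rfl⟩
  obtain ⟨a, b, rfl⟩ := mem_LL.1 hc
  have e1 : polar Q p y = 0 := hy p (left_mem p x)
  have e2 : polar Q x y = 0 := hy x (right_mem p x)
  rw [E_comb h e1 e2, map_mul, map_mul, Module.End.mul_apply, Module.End.mul_apply,
    h1 (a • Q y • b • x) (by rw [psr, psr, psr, h.px]; ring) (by rw [psr, psr, psr, polar_self_of h.qx]; ring),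
    h2 (b • y) (by rw [psr, e1]; ring) (by rw [psr, e2]; ring), h1 (a • y) (by rw [psr, e1]; ring) (by rw [psr, e2]; ring)]

/-- (I3) -/
theorem pE_mul_pj_pj (h : SP Q p x) : pE ρ (LL F p x) * (pj ρ p * pj ρ x) = pj ρ p * pj ρ x := by
  ext v
  rw [Module.End.mul_apply]
  apply avg_of_fix
  apply mem_fix_UB ρ h
  · intro y hy _
    rw [Module.End.mul_apply, pj_fix p _ hy]
  · intro y hy hy'
    rw [Module.End.mul_apply]
    have h1 : ρ (E Q x y) (pj ρ p (pj ρ x v)) = pj ρ (ac (E Q x y) p) (ρ (E Q x y) (pj ρ x v)) :=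
      congrArg (fun A : V →ₗ[ℂ] V => A (pj ρ x v)) (pj_conj h.qp (E Q x y))
    rw [h1, E_fix h.qx hy' h.px hy, pj_fix x _ hy']

/-- the average kills weights outside of the line -/
theorem pE_mul_Pr_of_not (hψ : ψ ≠ 0) (h : SP Q p x) {a u : M} (ha : a ∈ LL F p x) (hu : u ∉ LL F p x) :
    pE ρ (LL F p x) * Pr ρ ψ a u = 0 := by
  obtain ⟨y, hy, hy1⟩ := exists_ortho_not (nd Q) _ hu
  obtain ⟨c, hc⟩ := exists_psi_ne hψ
  have hy' : ∀ b ∈ LL F p x, polar Q b (c • y) = 0 := fun b hb => by rw [psr, pc, hy b hb, mul_zero]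
  have h1 : pE ρ (LL F p x) * ρ (E Q a (c • y)) = pE ρ (LL F p x) := avg_mul_of_mem ρ (E_mem_UB ha hy')
  have h2 : pE ρ (LL F p x) * (ρ (E Q a (c • y)) * Pr ρ ψ a u) = pE ρ (LL F p x) * Pr ρ ψ a u := by
    rw [← mul_assoc, h1]
  rw [E_mul_Pr u (hy' a ha), psr, pc Q u y, hy1, mul_one, mul_smul_comm] at h2
  have h3 : (ψ c - 1) • (pE ρ (LL F p x) * Pr ρ ψ a u) = 0 := by rw [sub_smul, one_smul, h2, sub_self]
  exact (smul_eq_zero.1 h3).resolve_left (sub_ne_zero.2 hc)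

theorem Pr_mul_pE_of_not (hψ : ψ ≠ 0) (h : SP Q p x) {a u : M} (ha : a ∈ LL F p x) (hu : u ∉ LL F p x) :
    Pr ρ ψ a u * pE ρ (LL F p x) = 0 := by
  obtain ⟨y, hy, hy1⟩ := exists_ortho_not (nd Q) _ hu
  obtain ⟨c, hc⟩ := exists_psi_ne hψ
  have hy' : ∀ b ∈ LL F p x, polar Q b (c • y) = 0 := fun b hb => by rw [psr, pc, hy b hb, mul_zero]
  have h1 : ρ (E Q a (c • y)) * pE ρ (LL F p x) = pE ρ (LL F p x) := mul_avg_of_mem ρ (E_mem_UB ha hy')
  have h2 : Pr ρ ψ a u * ρ (E Q a (c • y)) * pE ρ (LL F p x) = Pr ρ ψ a u * pE ρ (LL F p x) := by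
    rw [mul_assoc, h1]
  rw [Pr_mul_E u (hy' a ha), psr, pc Q u y, hy1, mul_one, smul_mul_assoc] at h2
  have h3 : (ψ c - 1) • (Pr ρ ψ a u * pE ρ (LL F p x)) = 0 := by rw [sub_smul, one_smul, h2, sub_self]
  exact (smul_eq_zero.1 h3).resolve_left (sub_ne_zero.2 hc)

/-- hypotheses -/
structure Hyp (ρ : Representation ℂ (Gr Q) V) (ψ : AddChar F ℂ) : Prop where
  fix : FixA ρ ψ
  hψ : ψ ≠ 0
  one : ∀ p u : M, SP Q p u → finrank ℂ (Wt ρ ψ p u) = 1
  zero : ∀ p u : M, p ≠ 0 → Q p = 0 → polar Q p u = 0 → Q u ≠ 0 → Wt ρ ψ p u = ⊥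

variable [FiniteDimensional ℂ V] {ρ}

/-- weight spaces inside the line -/
theorem Wt_le_fix (H : Hyp ρ ψ) (h : SP Q p x) {b : F} (hb : b ≠ 0) :
    ∀ v ∈ Wt ρ ψ p (b • x), v ∈ fixS ρ (UB Q (LL F p x)) := by
  intro v hv
  apply mem_fix_UB ρ h
  · intro y hy hy'
    rw [mem_Wt.1 hv y hy, psl, hy', mul_zero, AddChar.map_zero_eq_one, one_smul]
  · intro y hy hy'
    exact fixB H.fix h hb (h.smul hb) hy hy' v hv

/-- every nontrivial weight of the line is a multiple -/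
theorem exists_smul_of_mem (h : SP Q p x) {a u : M} (ha : a ∈ LL F p x) (hu : u ∈ LL F p x) (hi : SP Q a u) :
    LL F a u = LL F p x := LL_eq h hi ha hu

theorem pE_mul_Pr_of_mem (H : Hyp ρ ψ) (h : SP Q p x) {a u : M} (ha : a ∈ LL F p x) (hu : u ∈ LL F p x) (hi : SP Q a u) :
    pE ρ (LL F p x) * Pr ρ ψ a u = Pr ρ ψ a u := by
  ext v
  have h1 := Wt_le_fix H hi one_ne_zero (Pr ρ ψ a u v) (by rw [one_smul]; exact Pr_mem a u v)
  rw [LL_eq h hi ha hu] at h1
  exact avg_of_fix ρ h1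

end Cfsg.Agent.LSO
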