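import Cfsg.Agent.LSO.Final

/-!
The alternative for the degree of a nontrivial irreducible representation of small degree.
-/

set_option autoImplicit false
set_option linter.unusedSectionVars false
set_option linter.style.haveILetI false

namespace Cfsg.Agent.LSO

open QuadraticMap Module Cfsg.Agent.H39 Cfsg.Agent.LSU
open Cfsg.Agent.Orth hiding map_mul
open scoped Classical

variable {F M : Type*} [Field F] [AddCommGroup M] [Module F M] [Fintype F] [Fintype M] [FiniteDimensional F M]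
variable {Q : QuadraticForm F M} [Nice Q]

theorem card_value {p x : M} (h : SP Q p x) (a : F) :
    Nat.card {u // (polar Q p u = 0 ∧ polar Q x u ≠ 0) ∧ Q u = a} * Fintype.card F ^ 3 + Fintype.card M =
      Fintype.card F * Fintype.card M := by
  have h1 := card_shift (fun u => polar Q p u = 0 ∧ polar Q x u ≠ 0) (fun u => Q u) (fun u => polar Q x u) x
    (fun u c hu => by
      rw [par, psr, par, psr, polar_self_of h.qx, h.px, mul_zero, add_zero, add_zero]; exact hu)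
    (fun u c _ => by change Q (u + c • x) = Q u + c * polar Q x u; rw [qadd, qsmul, h.qx, psr, pc Q u x]; ring)
    (fun u c _ => by change polar Q x (u + c • x) = polar Q x u; rw [par, psr, polar_self_of h.qx, mul_zero, add_zero])
    (fun _ hu => hu.2) a
  have h2 := card_split (fun u : M => polar Q p u = 0) (fun u => polar Q x u = 0)
  have h3 := card_perp1 (Q := Q) h.p0
  have h4 := card_perp2 (Q := Q) h.li
  have h6 : Nat.card {u // polar Q p u = 0 ∧ ¬ polar Q x u = 0} = Nat.card {u // polar Q p u = 0 ∧ polar Q x u ≠ 0} := rfl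
  rw [h6, h1] at h2
  calc Nat.card {u // (polar Q p u = 0 ∧ polar Q x u ≠ 0) ∧ Q u = a} * Fintype.card F ^ 3 + Fintype.card M
      = Fintype.card F ^ 2 * (Fintype.card F * Nat.card {u // (polar Q p u = 0 ∧ polar Q x u ≠ 0) ∧ Q u = a}) +
        Nat.card {y // polar Q p y = 0 ∧ polar Q x y = 0} * Fintype.card F ^ 2 := by rw [h4]; ring
    _ = Fintype.card F * (Nat.card {y // polar Q p y = 0} * Fintype.card F) := by rw [h2]; ring
    _ = Fintype.card F * Fintype.card M := by rw [h3]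

variable {V : Type*} [AddCommGroup V] [Module ℂ V] {ρ : Representation ℂ (Gr Q) V} {ψ : AddChar F ℂ}

theorem coe_E {p x : M} (hp : Q p = 0) (hx : polar Q p x = 0) : (E Q p x : OGrp Q) = eich Q p x hp hx := by
  refine OGrp_ext fun z => ?_
  rw [eich_apply]
  exact ac_E hp hx z

/-- generation -/
theorem trivial_of_E (h : ∀ p x : M, Q p = 0 → polar Q p x = 0 → ρ (E Q p x) = 1) (g : Gr Q) : ρ g = 1 := by
  have hd : 7 ≤ finrank F M := Nice.dim (Q := Q)
  have h1 : OMax.SGrp Q ≤ (MonoidHom.ker ρ).map (commutator (OGrp Q)).subtype := by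
    rw [OMax.SGrp, Subgroup.closure_le]
    rintro _ ⟨a, b, ha, hab, rfl⟩
    exact ⟨E Q a b, h a b ha hab, coe_E ha hab⟩
  have h2 := h1 (OMax.comm_le_SGrp (nd Q) hd g.2)
  obtain ⟨k, hk, hkg⟩ := h2
  have : k = g := Subtype.ext hkg
  rw [← this]; exact hk

variable [FiniteDimensional ℂ V]

/-- lower bound from a family of weights -/
theorem card_le_of_weights (hψ : ψ ≠ 0) {p : M} (hp : p ≠ 0) (S : M → Prop) (k : ℕ)
    (h : ∀ u, S u → k ≤ finrank ℂ (Wt ρ ψ p u)) :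
    Nat.card {u // S u} * k ≤ Fintype.card F * finrank ℂ V := by
  have h1 := trace_sum (ρ := ρ) hψ hp 1
  rw [LinearMap.trace_one] at h1
  have h2 : ∀ u, LinearMap.trace ℂ V (1 * Pr ρ ψ p u) = (finrank ℂ (Wt ρ ψ p u) : ℂ) := fun u => by
    rw [one_mul, trace_Pr]
  rw [Finset.sum_congr rfl fun u _ => h2 u, ← Nat.cast_sum, ← Nat.cast_mul] at h1
  have h3 : Fintype.card F * finrank ℂ V = ∑ u : M, finrank ℂ (Wt ρ ψ p u) := by exact_mod_cast h1
  rw [h3, Nat.card_eq_fintype_card, Fintype.card_subtype, ← smul_eq_mul, ← Finset.sum_const]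
  refine (Finset.sum_le_sum fun u hu => h u (Finset.mem_filter.1 hu).2).trans ?_
  exact Finset.sum_le_sum_of_subset (Finset.filter_subset _ _)

theorem pow_eq (Q : QuadraticForm F M) [Nice Q] :
    Fintype.card M = Fintype.card F ^ 4 * Fintype.card F ^ (finrank F M - 4) := by
  have hd : 7 ≤ finrank F M := Nice.dim (Q := Q)
  rw [card_M F M, ← pow_add]
  congr 1
  omega

/-- numbers -/
theorem num_aux {q n6 h m : ℕ} (hq : 1 ≤ q) (hm : m = q ^ 4 * h) (h1 : n6 * q ^ 3 + m = q * m) : n6 + q * h = q ^ 2 * h := by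
  apply Nat.eq_of_mul_eq_mul_right (pow_pos hq 3)
  rw [hm] at h1
  calc (n6 + q * h) * q ^ 3 = n6 * q ^ 3 + q ^ 4 * h := by ring
    _ = q ^ 2 * h * q ^ 3 := by rw [h1]; ring

theorem zero_of_small (hψ : ψ ≠ 0) (hβ : ∃ β : F, β ≠ 0 ∧ β * β ≠ 1)
    (hD : finrank ℂ V < 2 * (Fintype.card F - 1) * Fintype.card F ^ (finrank F M - 4)) (p u : M) (hp : p ≠ 0)
    (hq : Q p = 0) (hpu : polar Q p u = 0) (hu : Q u ≠ 0) : Wt ρ ψ p u = ⊥ := by
  by_contra hne
  obtain ⟨β, hβ0, hβ1⟩ := hβ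
  -- the weights of the same norm up to squares
  have key : ∀ u' : M, polar Q p u' = 0 → (Q u' = Q u ∨ Q u' = β * β * Q u) → 1 ≤ finrank ℂ (Wt ρ ψ p u') := by
    have hstep : ∀ (c : F) (u' : M), c ≠ 0 → polar Q p u' = 0 → Q u' = c * c * Q u → 1 ≤ finrank ℂ (Wt ρ ψ p u') := by
      intro c u' hc h1 h2
      have hli : ∀ {a b : M}, a ≠ 0 → Q a = 0 → Q b ≠ 0 → LinearIndependent F ![a, b] := by
        intro a b ha hqa hb
        apply li_pair ha
        intro h3
        obtain ⟨d, rfl⟩ := Submodule.mem_span_singleton.1 h3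
        apply hb
        rw [qsmul, hqa, mul_zero]
      obtain ⟨g, hg1, hg2⟩ := exists_pair_gen (Q := Q) (a := c • p) (b := c • u) (a' := p) (b' := u')
        (hli (smul_ne_zero hc hp) (by rw [qsmul, hq, mul_zero]) (by rw [qsmul]; exact mul_ne_zero (mul_ne_zero hc hc) hu))
        (hli hp hq (by rw [h2]; exact mul_ne_zero (mul_ne_zero hc hc) hu)) (by rw [qsmul, hq, mul_zero])
        (by rw [qsmul, h2]) (by rw [psl, psr, hpu, h1]; ring)
      rw [← (conjW (ρ := ρ) (ψ := ψ) (by rw [qsmul, hq, mul_zero]) g hg1 hg2).finrank_eq, Wt_smul hq hc]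
      rw [Nat.one_le_iff_ne_zero]
      intro h0
      exact hne (Submodule.finrank_eq_zero.1 h0)
    intro u' h1 h2
    rcases h2 with h2 | h2
    · exact hstep 1 u' one_ne_zero h1 (by rw [h2]; ring)
    · exact hstep β u' hβ0 h1 h2
  obtain ⟨x, hx⟩ : ∃ x, SP Q p x := by
    obtain ⟨x, hx, hpx, -, hx0⟩ := exists_sing_off Q p p
    exact ⟨x, hp, fun h => hx0 (Submodule.span_mono (by simp) h), hq, hx, hpx⟩
  have h1 := card_le_of_weights (ρ := ρ) hψ hp (fun u' => polar Q p u' = 0 ∧ (Q u' = Q u ∨ Q u' = β * β * Q u)) 1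
    (fun u' hu' => key u' hu'.1 hu'.2)
  have h2 : Nat.card {u' // (polar Q p u' = 0 ∧ polar Q x u' ≠ 0) ∧ Q u' = Q u} +
      Nat.card {u' // (polar Q p u' = 0 ∧ polar Q x u' ≠ 0) ∧ Q u' = β * β * Q u} ≤
      Nat.card {u' // polar Q p u' = 0 ∧ (Q u' = Q u ∨ Q u' = β * β * Q u)} := by
    rw [card_split (fun u' => polar Q p u' = 0 ∧ (Q u' = Q u ∨ Q u' = β * β * Q u)) (fun u' => Q u' = Q u)]
    refine Nat.add_le_add ?_ ?_
    · rw [Nat.card_eq_fintype_card, Nat.card_eq_fintype_card]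
      apply Fintype.card_subtype_mono
      intro u' h
      exact ⟨⟨h.1.1, Or.inl h.2⟩, h.2⟩
    · rw [Nat.card_eq_fintype_card, Nat.card_eq_fintype_card]
      apply Fintype.card_subtype_mono
      intro u' h
      refine ⟨⟨h.1.1, Or.inr h.2⟩, ?_⟩
      change ¬ Q u' = Q u
      rw [h.2]
      intro h3
      apply hβ1
      have h4 : (β * β - 1) * Q u = 0 := by linear_combination h3
      exact sub_eq_zero.1 ((mul_eq_zero.1 h4).resolve_right hu)
  have hq1 : 1 < Fintype.card F := Fintype.one_lt_card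
  have h3 := num_aux (by omega) (pow_eq Q) (card_value hx (Q u))
  have h4 := num_aux (by omega) (pow_eq Q) (card_value hx (β * β * Q u))
  set q := Fintype.card F with hqd
  set h := q ^ (finrank F M - 4) with hh
  set n1 := Nat.card {u' // (polar Q p u' = 0 ∧ polar Q x u' ≠ 0) ∧ Q u' = Q u}
  set n2 := Nat.card {u' // (polar Q p u' = 0 ∧ polar Q x u' ≠ 0) ∧ Q u' = β * β * Q u}
  rw [mul_one] at h1
  have h5 : n1 + n2 ≤ q * finrank ℂ V := h2.trans h1
  obtain ⟨r, hr⟩ : ∃ r, q = r + 1 := ⟨q - 1, by omega⟩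
  rw [hr] at h3 h4 h5 hD
  rw [Nat.add_sub_cancel] at hD
  have h6 : (r + 1) * finrank ℂ V + (r + 1) ≤ (r + 1) * (2 * r * h) := by
    have : finrank ℂ V + 1 ≤ 2 * r * h := hD
    calc (r + 1) * finrank ℂ V + (r + 1) = (r + 1) * (finrank ℂ V + 1) := by ring
      _ ≤ _ := Nat.mul_le_mul_left _ this
  nlinarith

theorem finrank_Wt_eq {p u p' u' : M} (h : SP Q p u) (h' : SP Q p' u') :
    finrank ℂ (Wt ρ ψ p u) = finrank ℂ (Wt ρ ψ p' u') := by
  obtain ⟨g, hg1, hg2⟩ := exists_pair h h'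
  exact (conjW h.qp g hg1 hg2).finrank_eq

theorem one_of_small (hψ : ψ ≠ 0) (hβ : ∃ β : F, β ≠ 0 ∧ β * β ≠ 1)
    (hD : finrank ℂ V < 2 * (Fintype.card F - 1) * Fintype.card F ^ (finrank F M - 4)) (hnt : ∃ g v, ρ g v ≠ v)
    (p u : M) (hpu : SP Q p u) : finrank ℂ (Wt ρ ψ p u) = 1 := by
  apply le_antisymm
  · by_contra hcon
    push Not at hcon
    have h1 := card_le_of_weights (ρ := ρ) hψ hpu.p0 (fun u' => SP Q p u') 2
      (fun u' hu' => by rw [finrank_Wt_eq hu' hpu]; omega)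
    have hq1 : 1 < Fintype.card F := Fintype.one_lt_card
    have c3 := card_Zp hpu.symm
    have h3 := num_aux (by omega) (pow_eq Q) (card_nonortho2 hpu.symm)
    have hsp : Nat.card {u' // Q u' = 0 ∧ polar Q p u' = 0 ∧ polar Q u u' ≠ 0} ≤ Nat.card {u' // SP Q p u'} := by
      have : Fintype.card F ≤ Fintype.card F ^ 2 := by nlinarith
      omega
    set q := Fintype.card F with hqd
    set h := q ^ (finrank F M - 4) with hh
    obtain ⟨r, hr⟩ : ∃ r, q = r + 1 := ⟨q - 1, by omega⟩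
    rw [hr] at h3 h1 hD
    rw [Nat.add_sub_cancel] at hD
    have h6 : (r + 1) * finrank ℂ V + (r + 1) ≤ (r + 1) * (2 * r * h) := by
      have : finrank ℂ V + 1 ≤ 2 * r * h := hD
      calc (r + 1) * finrank ℂ V + (r + 1) = (r + 1) * (finrank ℂ V + 1) := by ring
        _ ≤ _ := Nat.mul_le_mul_left _ this
    nlinarith
  · -- nontriviality
    have h1 : ∃ a b : M, Q a = 0 ∧ polar Q a b = 0 ∧ ρ (E Q a b) ≠ 1 := by
      by_contra hcon
      push Not at hcon
      obtain ⟨g, v, hgv⟩ := hnt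
      apply hgv
      rw [trivial_of_E (fun a b ha hab => hcon a b ha hab) g]; rfl
    obtain ⟨a, b, ha, hab, hE⟩ := h1
    have ha0 : a ≠ 0 := by
      rintro rfl
      apply hE
      have : E Q (0 : M) b = 1 := by
        apply ac_ext
        intro z
        rw [ac_E ha hab, polar_zero_right, ac_one]
        simp
      rw [this, map_one]
    have h2 : ∃ y v, Uf ρ a y v ≠ v := by
      by_contra hcon
      push Not at hcon
      apply hE
      ext v
      exact hcon ⟨b, hab⟩ v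
    obtain ⟨φ, hφ0, hφ⟩ := exists_wt_ne_bot (Uf ρ a) (Uf_zero ρ a) (Uf_add ρ a) h2
    obtain ⟨w, rfl⟩ := exists_ch hψ a φ
    have hW : Wt ρ ψ a w ≠ ⊥ := hφ
    have haw : polar Q a w = 0 := by
      by_contra h3
      exact hW ((Pr_eq_zero_iff a w).1 (Pr_of_not_ortho hψ ha (by rw [pc]; exact h3)))
    have hqw : Q w = 0 := by
      by_contra h3
      exact hW (zero_of_small hψ hβ hD a w ha0 ha haw h3)
    have hSP : SP Q a w := ⟨ha0, fun h3 => hφ0 ((ch_zero_iff hψ).2 h3), ha, hqw, haw⟩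
    rw [finrank_Wt_eq hpu hSP, Nat.one_le_iff_ne_zero]
    intro h0
    exact hW (Submodule.finrank_eq_zero.1 h0)

theorem arith_alt {q h N S D Z d : ℤ} {y : ℕ} (hq2 : 2 ≤ q) (hD0 : 0 ≤ D)
    (h2 : N * d * (y + q - 1) = D * (Z * (y + q - 1) + (q + 1) * (q ^ 2 - 1) * y)) (k1 : q * D = q * d + S)
    (hZ : N - Z = (q ^ 2 - 1) * (1 + q * h)) :
    q * (q ^ 2 - 1) * (1 + q * h) * D = N * S ∨ N * S ≤ (q ^ 2 - 1) * (q ^ 2 * h - 1) * D := by
  have hmain : q * D * (q ^ 2 - 1) * ((1 + q * h) * (y + q - 1) - (q + 1) * y) = N * S * (y + q - 1) := by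
    linear_combination q * h2 + N * (y + q - 1) * k1 - q * D * (y + q - 1) * hZ
  rcases Nat.eq_zero_or_pos y with rfl | hy
  · left
    push_cast at hmain
    have h3 : q - 1 ≠ 0 := by omega
    apply mul_right_cancel₀ h3
    linear_combination hmain
  · right
    have hy' : (1 : ℤ) ≤ y := by exact_mod_cast hy
    generalize (y : ℤ) = z at *
    have hs : (0 : ℤ) < z + q - 1 := by omega
    have e3 : q * ((1 + q * h) * (z + q - 1) - (q + 1) * z) ≤ (q ^ 2 * h - 1) * (z + q - 1) := by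
      have h4 : (0 : ℤ) ≤ (q + 1) * ((q - 1) * (z - 1)) :=
        mul_nonneg (by omega) (mul_nonneg (by omega) (by omega))
      nlinarith
    have e4 : (0 : ℤ) ≤ q * D * (q ^ 2 - 1) := by
      apply mul_nonneg (mul_nonneg (by omega) hD0)
      nlinarith
    have e5 : q * (N * S) * (z + q - 1) ≤ q * ((q ^ 2 - 1) * (q ^ 2 * h - 1) * D) * (z + q - 1) := by
      calc q * (N * S) * (z + q - 1) = q * D * (q ^ 2 - 1) * (q * ((1 + q * h) * (z + q - 1) - (q + 1) * z)) := by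
            linear_combination (-q) * hmain
        _ ≤ q * D * (q ^ 2 - 1) * ((q ^ 2 * h - 1) * (z + q - 1)) := mul_le_mul_of_nonneg_left e3 e4
        _ = _ := by ring
    have e6 := le_of_mul_le_mul_right e5 hs
    exact le_of_mul_le_mul_left e6 (by omega)

/-- **the alternative** from the hypotheses -/
theorem alternative_of_hyp [Nontrivial V] (H : Hyp ρ ψ) (hirr : ρ.IsIrreducible) {q h N S D : ℤ}
    (hq : q = Fintype.card F) (hh : h = (Fintype.card F : ℤ) ^ (finrank F M - 4)) (hN : N = N0 Q)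
    (hS : S = N + 1 - q - (q - 1) * q ^ 2 * h) (hDD : D = finrank ℂ V) :
    q * (q ^ 2 - 1) * (1 + q * h) * D = N * S ∨ N * S ≤ (q ^ 2 - 1) * (q ^ 2 * h - 1) * D := by
  obtain ⟨p, x, hpx⟩ := exists_SP Q
  obtain ⟨d, y, h1, h2⟩ := main_eq H hirr hpx
  have hq1 : 1 < Fintype.card F := Fintype.one_lt_card
  have c1 := card_SP (Q := Q) hpx.p0 hpx.qp
  have c2 := card_nonortho (Q := Q) hpx.p0 hpx.qp
  have c1' := card_SP (Q := Q) hpx.symm.p0 hpx.qx
  have c2' := card_nonortho (Q := Q) hpx.symm.p0 hpx.qx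
  have c3 := card_Zp hpx
  have c4 := num_aux (by omega) (pow_eq Q) (card_nonortho2 hpx)
  have c5 : ∀ n, n * Fintype.card F ^ 2 + Fintype.card M = Fintype.card F * Fintype.card M →
      n + Fintype.card F ^ 2 * Fintype.card F ^ (finrank F M - 4) = Fintype.card F ^ 3 * Fintype.card F ^ (finrank F M - 4) := by
    intro n hn
    rw [pow_eq Q] at hn
    apply Nat.eq_of_mul_eq_mul_right (pow_pos (by omega : 0 < Fintype.card F) 2)
    calc (n + Fintype.card F ^ 2 * Fintype.card F ^ (finrank F M - 4)) * Fintype.card F ^ 2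
        = n * Fintype.card F ^ 2 + Fintype.card F ^ 4 * Fintype.card F ^ (finrank F M - 4) := by ring
      _ = _ := by rw [hn]; ring
  have c6 := c5 _ c2
  have c6' := c5 _ c2'
  have k1 : ((Fintype.card F * finrank ℂ V : ℕ) : ℤ) = ((Fintype.card F * d + Nat.card {u // SP Q p u} : ℕ) : ℤ) := by
    rw [h1]
  have k2 : ((N0 Q + 1 : ℕ) : ℤ) = ((Nat.card {u // SP Q p u} + Fintype.card F +
    Nat.card {u // Q u = 0 ∧ polar Q p u ≠ 0} : ℕ) : ℤ) := by rw [c1]
  have k2' : ((N0 Q + 1 : ℕ) : ℤ) = ((Nat.card {u // SP Q x u} + Fintype.card F +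
    Nat.card {u // Q u = 0 ∧ polar Q x u ≠ 0} : ℕ) : ℤ) := by rw [c1']
  have k3 : ((Nat.card {u // SP Q x u} + Fintype.card F : ℕ) : ℤ) = ((Nat.card {u // Zp Q p x u} + Fintype.card F ^ 2 +
      Nat.card {u // Q u = 0 ∧ polar Q x u = 0 ∧ polar Q p u ≠ 0} : ℕ) : ℤ) := by rw [c3]
  have k4 : ((Nat.card {u // Q u = 0 ∧ polar Q x u = 0 ∧ polar Q p u ≠ 0} +
    Fintype.card F * Fintype.card F ^ (finrank F M - 4) : ℕ) : ℤ) =
    ((Fintype.card F ^ 2 * Fintype.card F ^ (finrank F M - 4) : ℕ) : ℤ) := by rw [c4]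
  have k5 : ((Nat.card {u // Q u = 0 ∧ polar Q p u ≠ 0} + Fintype.card F ^ 2 * Fintype.card F ^ (finrank F M - 4) : ℕ) : ℤ)
    = ((Fintype.card F ^ 3 * Fintype.card F ^ (finrank F M - 4) : ℕ) : ℤ) := by rw [c6]
  have k5' : ((Nat.card {u // Q u = 0 ∧ polar Q x u ≠ 0} + Fintype.card F ^ 2 * Fintype.card F ^ (finrank F M - 4) : ℕ) : ℤ)
    = ((Fintype.card F ^ 3 * Fintype.card F ^ (finrank F M - 4) : ℕ) : ℤ) := by rw [c6']
  push_cast at k1 k2 k2' k3 k4 k5 k5'
  rw [← hh, ← hq] at k4 k5 k5'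
  rw [← hq] at k1 k2 k2' k3 h2
  rw [← hDD] at k1 h2
  rw [← hN] at k2 k2' h2
  set S1 : ℤ := (Nat.card {u // SP Q p u} : ℤ)
  set S1' : ℤ := (Nat.card {u // SP Q x u} : ℤ)
  set Z : ℤ := (Nat.card {u // Zp Q p x u} : ℤ)
  set n5 : ℤ := (Nat.card {u // Q u = 0 ∧ polar Q p u ≠ 0} : ℤ)
  set n5' : ℤ := (Nat.card {u // Q u = 0 ∧ polar Q x u ≠ 0} : ℤ)
  set n6 : ℤ := (Nat.card {u // Q u = 0 ∧ polar Q x u = 0 ∧ polar Q p u ≠ 0} : ℤ)
  have hSS : S1 = S := by rw [hS]; linear_combination -k2 - k5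
  have hZ : N - Z = (q ^ 2 - 1) * (1 + q * h) := by linear_combination k2' + k3 + k4 + k5'
  have hq2 : 2 ≤ q := by rw [hq]; exact_mod_cast hq1
  rw [hSS] at k1
  exact arith_alt hq2 (by rw [hDD]; exact Int.natCast_nonneg _) h2 (by linear_combination k1) hZ

theorem exists_psi (F : Type*) [Field F] [Fintype F] : ∃ ψ : AddChar F ℂ, ψ ≠ 0 := by
  haveI : Nontrivial (AddChar F ℂ) := by
    rw [← Fintype.one_lt_card_iff_nontrivial, AddChar.card_eq]
    exact Fintype.one_lt_card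
  exact exists_ne 0

/-- **the alternative** -/
theorem alternative (hβ : ∃ β : F, β ≠ 0 ∧ β * β ≠ 1) (hirr : ρ.IsIrreducible) (hnt : ∃ g v, ρ g v ≠ v)
    (hD : finrank ℂ V < 2 * (Fintype.card F - 1) * Fintype.card F ^ (finrank F M - 4)) {q h N S D : ℤ}
    (hq : q = Fintype.card F) (hh : h = (Fintype.card F : ℤ) ^ (finrank F M - 4)) (hN : N = N0 Q)
    (hS : S = N + 1 - q - (q - 1) * q ^ 2 * h) (hDD : D = finrank ℂ V) :
    q * (q ^ 2 - 1) * (1 + q * h) * D = N * S ∨ N * S ≤ (q ^ 2 - 1) * (q ^ 2 * h - 1) * D := by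
  haveI : Nontrivial V := by
    obtain ⟨g, v, hgv⟩ := hnt
    exact ⟨_, _, hgv⟩
  obtain ⟨ψ, hψ⟩ := exists_psi F
  have hone := one_of_small (ρ := ρ) hψ hβ hD hnt
  have hfix : FixA ρ ψ := fun p u w y hpu hw hwi h1 h2 h3 h4 h5 => fixA hβ (hone p u hpu).le hpu.qp hw hwi h1 h2 h3 h4 h5
  exact alternative_of_hyp ⟨hfix, hψ, hone, zero_of_small hψ hβ hD⟩ hirr hq hh hN hS hDD

end Cfsg.Agent.LSO
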