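import Cfsg.Agent.LSO.Fix

/-!
Representations with nonsingular weights only.
-/

set_option autoImplicit false
set_option linter.unusedSectionVars false
set_option linter.style.haveILetI false

namespace Cfsg.Agent.LSO

open QuadraticMap Module Cfsg.Agent.H39 Cfsg.Agent.LSU
open Cfsg.Agent.Orth hiding map_mul
open Cfsg.Agent.LSSL (cardA_ne)
open scoped Classical

variable {F M : Type*} [Field F] [AddCommGroup M] [Module F M] [Fintype F] [Fintype M] [FiniteDimensional F M]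
variable {Q : QuadraticForm F M} [Nice Q]

theorem exists_triple_gen {p x u p' x' u' : M} (h : HP Q p x) (hu0 : u ≠ 0) (hpu : polar Q p u = 0)
    (hxu : polar Q x u = 0) (h' : HP Q p' x') (hu0' : u' ≠ 0) (hpu' : polar Q p' u' = 0)
    (hxu' : polar Q x' u' = 0) (hq : Q u = Q u') : ∃ g : Gr Q, ac g p = p' ∧ ac g x = x' ∧ ac g u = u' := by
  have hli : ∀ {p x u : M}, HP Q p x → u ≠ 0 → polar Q p u = 0 → polar Q x u = 0 →
      LinearIndependent F ![p, x, u] := by
    intro p x u h hu0 h1 h2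
    rw [Fintype.linearIndependent_iff]
    intro c hc
    rw [Fin.sum_univ_three] at hc
    change c 0 • p + c 1 • x + c 2 • u = 0 at hc
    have e1 : c 1 = 0 := by
      have := congrArg (polar Q p) hc
      rw [par, par, psr, psr, psr, polar_self_of h.qp, h.px, h1, polar_zero_right] at this
      simpa using this
    have e0 : c 0 = 0 := by
      have := congrArg (polar Q x) hc
      rw [par, par, psr, psr, psr, polar_self_of h.qx, pc Q x p, h.px, h2, polar_zero_right] at this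
      simpa using this
    have e2 : c 2 = 0 := by
      rw [e0, e1, zero_smul, zero_smul, zero_add, zero_add] at hc
      exact (smul_eq_zero.1 hc).resolve_right hu0
    intro i
    fin_cases i
    · exact e0
    · exact e1
    · exact e2
  obtain ⟨g, hg⟩ := omega_witt (Q := Q) ![p, x, u] ![p', x', u'] (hli h hu0 hpu hxu) (hli h' hu0' hpu' hxu') (by
    intro i j
    fin_cases i <;> fin_cases j
    · change polar Q p p = polar Q p' p'; rw [polar_self_of h.qp, polar_self_of h'.qp]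
    · change polar Q p x = polar Q p' x'; rw [h.px, h'.px]
    · change polar Q p u = polar Q p' u'; rw [hpu, hpu']
    · change polar Q x p = polar Q x' p'; rw [h.symm.px, h'.symm.px]
    · change polar Q x x = polar Q x' x'; rw [polar_self_of h.qx, polar_self_of h'.qx]
    · change polar Q x u = polar Q x' u'; rw [hxu, hxu']
    · change polar Q u p = polar Q u' p'; rw [pc, hpu, pc, hpu']
    · change polar Q u x = polar Q u' x'; rw [pc, hxu, pc, hxu']
    · change polar Q u u = polar Q u' u'; rw [pself, pself, hq]) (by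
    intro i
    fin_cases i
    · change Q p = Q p'; rw [h.qp, h'.qp]
    · change Q x = Q x'; rw [h.qx, h'.qx]
    · exact hq) (by
    intro c _
    obtain ⟨z, h1, h2, h3⟩ := exists_norm2 Q p' u' c
    refine ⟨z - polar Q z x' • p', fun i => ?_, ?_⟩
    · fin_cases i
      · change polar Q p' (z - polar Q z x' • p') = 0
        rw [pdr, psr, h1, polar_self_of h'.qp]; simp
      · change polar Q x' (z - polar Q z x' • p') = 0
        rw [pdr, psr, pc Q x' z, h'.symm.px]; simp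
      · change polar Q u' (z - polar Q z x' • p') = 0
        rw [pdr, psr, h2, pc Q u' p', hpu']; simp
    · rw [qsub, qsmul, psr, h'.qp, pc Q z p', h1, h3]; ring)
  exact ⟨g, hg 0, hg 1, hg 2⟩

/-- nonsingular vectors orthogonal to `p`, `x` -/
def Yp (Q : QuadraticForm F M) (c : F) (p x u : M) : Prop := Q u = c ∧ polar Q p u = 0 ∧ polar Q x u = 0

variable {V : Type*} [AddCommGroup V] [Module ℂ V] {ρ : Representation ℂ (Gr Q) V} {ψ : AddChar F ℂ}

/-- hypotheses, nonsingular case -/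
structure HypN (ρ : Representation ℂ (Gr Q) V) (ψ : AddChar F ℂ) (c : F) : Prop where
  hc : c ≠ 0
  hψ : ψ ≠ 0
  fix : ∀ p u w y : M, p ≠ 0 → Q p = 0 → polar Q p u = 0 → Q u = c → Q w = 0 → polar Q p w = 0 → polar Q u w = 0 →
    polar Q p y = 0 → polar Q u y = 0 → polar Q w y = 0 → ∀ v ∈ Wt ρ ψ p u, ρ (E Q w y) v = v
  one : ∀ p u : M, p ≠ 0 → Q p = 0 → polar Q p u = 0 → Q u = c → finrank ℂ (Wt ρ ψ p u) = 1
  zero : ∀ p u : M, p ≠ 0 → Q p = 0 → polar Q p u = 0 → u ∉ Submodule.span F {p} → Q u ≠ c → Wt ρ ψ p u = ⊥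

variable [FiniteDimensional ℂ V] {c : F} {p x : M}

theorem trace_E_Pr_N (H : HypN ρ ψ c) (h : SP Q p x) {u y : M} (hu : Yp Q c p x u) (hp : polar Q p y = 0)
    (hx : polar Q x y = 0) : LinearMap.trace ℂ V (ρ (E Q p y) * Pr ρ ψ x u) = if polar Q u y = 0 then 1 else 0 := by
  obtain ⟨hqu, hpu, hxu⟩ := hu
  split_ifs with hy
  · have h1 : ρ (E Q p y) * Pr ρ ψ x u = Pr ρ ψ x u := by
      ext v
      exact H.fix x u p y h.symm.p0 h.qx hxu hqu h.qp (by rw [pc, h.px]) (by rw [pc, hpu]) hx hy hp _ (Pr_mem x u v)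
    rw [h1, trace_Pr, H.one x u h.symm.p0 h.qx hxu hqu]
    simp
  · refine trace_mul_Pr_of_map H.hψ (u' := u + polar Q u y • p) ?_ ?_
    · intro h1
      have h2 : u - (u + polar Q u y • p) = (-(polar Q u y)) • p := by module
      rw [h2] at h1
      apply h.symm.ind
      have := Submodule.smul_mem _ (-(polar Q u y))⁻¹ h1
      rwa [smul_smul, inv_mul_cancel₀ (neg_ne_zero.2 hy), one_smul] at this
    · intro v hv
      have h1 := (Wt_conj (ρ := ρ) (ψ := ψ) (u := u) h.qx (E Q p y)).2 hv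
      rw [ac_E h.qp hp, ac_E h.qp hp, hx, pc Q x p, h.px, pc Q u p, hpu] at h1
      have e1 : x + (0 : F) • p - (0 : F) • y - (Q y * 0) • p = x := by module
      have e2 : u + polar Q u y • p - (0 : F) • y - (Q y * 0) • p = u + polar Q u y • p := by module
      rwa [e1, e2] at h1

/-- sum over the line -/
theorem sum_trace_N (H : HypN ρ ψ c) (h : SP Q p x) {u : M} (hu : Yp Q c p x u) :
    ∑ b : F, LinearMap.trace ℂ V (Pr ρ ψ p (b • x) * Pr ρ ψ x u) = (Fintype.card F : ℂ)⁻¹ := by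
  rw [← map_sum, ← Finset.sum_mul, sum_Pr_line H.hψ, smul_mul_assoc, map_smul, Finset.sum_mul, map_sum]
  have h1 : ∀ y : Hy Q p, LinearMap.trace ℂ V (((if polar Q x y = 0 then (Fintype.card F : ℂ) else 0) • ρ (E Q p y)) *
      Pr ρ ψ x u) = if polar Q x y = 0 ∧ polar Q u y = 0 then (Fintype.card F : ℂ) else 0 := by
    intro y
    rw [smul_mul_assoc, map_smul]
    by_cases hy : polar Q x y = 0
    · rw [if_pos hy, trace_E_Pr_N H h hu y.2 hy]
      by_cases hy' : polar Q u y = 0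
      · rw [if_pos hy', if_pos ⟨hy, hy'⟩, smul_eq_mul, mul_one]
      · rw [if_neg hy', if_neg (fun h => hy' h.2), smul_zero]
    · rw [if_neg hy, if_neg (fun h => hy h.1), zero_smul]
  rw [Finset.sum_congr rfl fun y _ => h1 y, sum_ite_card]
  have h2 : Nat.card {y : Hy Q p // polar Q x y = 0 ∧ polar Q u y = 0} =
      Nat.card {y : M // polar Q p y = 0 ∧ polar Q x y = 0 ∧ polar Q u y = 0} :=
    Nat.card_congr
      { toFun := fun y => ⟨y.1.1, y.1.2, y.2.1, y.2.2⟩
        invFun := fun y => ⟨⟨y.1, y.2.1⟩, y.2.2.1, y.2.2.2⟩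
        left_inv := fun _ => rfl
        right_inv := fun _ => rfl }
  have huL : u ∉ LL F p x := fun h1 => H.hc (by rw [← hu.1, h.TS h1])
  have h3 := card_perp3 (Q := Q) h.li huL
  rw [← h2, ← card_Hy Q h.p0] at h3
  have hq := cardF_ne F
  have hA := cardA_ne (Hy Q p)
  have h4 : ((Nat.card {y : Hy Q p // polar Q x y = 0 ∧ polar Q u y = 0} * Fintype.card F ^ 3 : ℕ) : ℂ) =
      ((Fintype.card (Hy Q p) * Fintype.card F : ℕ) : ℂ) := by rw [h3]
  push_cast at h4
  have h5 : (Nat.card {y : Hy Q p // polar Q x y = 0 ∧ polar Q u y = 0} : ℂ) * (Fintype.card F : ℂ) ^ 2 =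
      Fintype.card (Hy Q p) := by
    apply mul_right_cancel₀ hq
    rw [← h4]; ring
  rw [smul_eq_mul, ← h5]
  have hN : (Nat.card {y : Hy Q p // polar Q x y = 0 ∧ polar Q u y = 0} : ℂ) ≠ 0 := by
    intro h0
    rw [h0, zero_mul] at h5
    exact hA h5.symm
  field_simp

theorem Pr_line_N (H : HypN ρ ψ c) {p u : M} (hp : p ≠ 0) (hq : Q p = 0) (hpu : polar Q p u = 0)
    (hs : u ∉ Submodule.span F {p}) (hu : Q u ≠ c) : Pr ρ ψ p u = 0 :=
  (Pr_eq_zero_iff p u).2 (H.zero p u hp hq hpu hs hu)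

theorem trace_pj_Pr_N (H : HypN ρ ψ c) (h : SP Q p x) {u : M} (hu : Yp Q c p x u) :
    LinearMap.trace ℂ V (pj ρ p * Pr ρ ψ x u) = (Fintype.card F : ℂ)⁻¹ := by
  rw [← sum_trace_N H h hu, Finset.sum_eq_single (0 : F)]
  · rw [zero_smul, Pr_zero]
  · intro b _ hb
    have hi : SP Q p (b • x) := h.smul hb
    rw [Pr_line_N H h.p0 h.qp hi.px hi.ind (by rw [hi.qx]; exact H.hc.symm), zero_mul, map_zero]
  · intro h; exact absurd (Finset.mem_univ _) h

theorem not_Yp_of_line (hc : c ≠ 0) (h : SP Q p x) {u : M} (hu : u ∈ Submodule.span F {x}) : ¬ Yp Q c p x u := by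
  rintro ⟨h1, -, -⟩
  obtain ⟨b, rfl⟩ := Submodule.mem_span_singleton.1 hu
  apply hc
  rw [← h1, qsmul, h.qx, mul_zero]

theorem trace_pj_Pr_all_N (H : HypN ρ ψ c) (h : SP Q p x) (u : M) :
    LinearMap.trace ℂ V (pj ρ p * Pr ρ ψ x u) =
      (if u ∈ Submodule.span F {x} then LinearMap.trace ℂ V (pj ρ p * pj ρ x) else 0) +
      (if Yp Q c p x u then (Fintype.card F : ℂ)⁻¹ else 0) := by
  by_cases hs : u ∈ Submodule.span F {x}
  · rw [if_pos hs, if_neg (not_Yp_of_line H.hc h hs), add_zero, Pr_of_line hs]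
  · rw [if_neg hs, zero_add]
    split_ifs with hz
    · exact trace_pj_Pr_N H h hz
    · by_cases h1 : polar Q x u = 0
      · by_cases h2 : polar Q p u = 0
        · rw [Pr_line_N H h.symm.p0 h.qx h1 hs (fun h3 => hz ⟨h3, h2, h1⟩), mul_zero, map_zero]
        · rw [pj_mul_Pr_of_not H.hψ h h2, map_zero]
      · rw [Pr_of_not_ortho H.hψ h.qx (by rw [pc]; exact h1), mul_zero, map_zero]

/-- (N3) -/
theorem trace_N3 (H : HypN ρ ψ c) (h : SP Q p x) :
    (Fintype.card F : ℂ) * LinearMap.trace ℂ V (pj ρ p) =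
      (Fintype.card F : ℂ) * LinearMap.trace ℂ V (pj ρ p * pj ρ x) +
      (Nat.card {u // Yp Q c p x u} : ℂ) * (Fintype.card F : ℂ)⁻¹ := by
  rw [trace_sum (ρ := ρ) H.hψ h.symm.p0, Finset.sum_congr rfl fun u _ => trace_pj_Pr_all_N H h u,
    Finset.sum_add_distrib, sum_ite_card, sum_ite_card, card_line x h.symm.p0]

theorem card_Yp_ortho {y : M} (h : SP Q p x) (hpy : polar Q p y ≠ 0) :
    Nat.card {u // Yp Q c p x u} = Fintype.card F * Nat.card {u // Yp Q c p x u ∧ polar Q u y = 0} :=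
  card_shift (Yp Q c p x) (fun u => polar Q u y) (fun _ => polar Q p y) p
    (fun u b hu => by
      obtain ⟨h1, h2, h3⟩ := hu
      refine ⟨?_, ?_, ?_⟩
      · rw [qadd, qsmul, psr, h.qp, h1, pc, h2]; ring
      · rw [par, psr, h2, polar_self_of h.qp]; ring
      · rw [par, psr, h3, pc Q x p, h.px]; ring)
    (fun u c _ => by rw [pal, psl]) (fun _ _ _ => rfl) (fun _ _ => hpy) 0

/-- (N6) -/
theorem trace_N6 (H : HypN ρ ψ c) (h : SP Q p x) {y : M} (hxy : polar Q x y = 0) (hpy : polar Q p y ≠ 0) :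
    LinearMap.trace ℂ V (pj ρ p * ∑ c : F, ρ (E Q x (c • y))) =
      (Fintype.card F : ℂ) * LinearMap.trace ℂ V (pj ρ p * pj ρ x) +
      (Nat.card {u // Yp Q c p x u} : ℂ) * ((Fintype.card F : ℂ) ^ 2)⁻¹ := by
  have hq := cardF_ne F
  rw [sum_E H.hψ h.symm.p0 hxy, Finset.mul_sum, map_sum]
  have h3 : ∀ u, LinearMap.trace ℂ V (pj ρ p * if polar Q u y = 0 then Pr ρ ψ x u else 0) =
      (if u ∈ Submodule.span F {x} then LinearMap.trace ℂ V (pj ρ p * pj ρ x) else 0) +
      (if Yp Q c p x u ∧ polar Q u y = 0 then (Fintype.card F : ℂ)⁻¹ else 0) := by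
    intro u
    by_cases h0 : polar Q u y = 0
    · rw [if_pos h0, trace_pj_Pr_all_N H h u]
      congr 1
      by_cases hz : Yp Q c p x u
      · rw [if_pos hz, if_pos ⟨hz, h0⟩]
      · rw [if_neg hz, if_neg (fun h => hz h.1)]
    · rw [if_neg h0, mul_zero, map_zero, if_neg, if_neg, add_zero]
      · rintro ⟨_, h1⟩
        exact h0 h1
      · intro h1
        obtain ⟨b, rfl⟩ := Submodule.mem_span_singleton.1 h1
        exact h0 (by rw [psl, hxy, mul_zero])
  rw [Finset.sum_congr rfl fun u _ => h3 u, Finset.sum_add_distrib, sum_ite_card, sum_ite_card,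
    card_line x h.symm.p0]
  have h4 : (Nat.card {u // Yp Q c p x u} : ℂ) = ((Fintype.card F * Nat.card {u // Yp Q c p x u ∧ polar Q u y = 0} : ℕ) : ℂ) := by
    rw [← card_Yp_ortho h hpy]
  rw [h4]
  push_cast
  field_simp

theorem trace_theta_N (hc : c ≠ 0) {p p' u₀ : M} (h' : HP Q p p') (hu₀ : Q u₀ = c) (hpx : polar Q p u₀ = 0)
    (hp'x : polar Q p' u₀ = 0) {u : M} (hu : polar Q p' u = 0) (hqu : Q u = c) :
    LinearMap.trace ℂ V (pj ρ p * Pr ρ ψ p' u) = LinearMap.trace ℂ V (pj ρ p * Pr ρ ψ p' u₀) := by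
  set u' := u + (-(polar Q p u)) • p' with hu'
  have h1 : Pr ρ ψ p' u = Pr ρ ψ p' u' := by rw [hu', Pr_add_self]
  have e1 : Q u' = c := by rw [hu', qadd, qsmul, psr, h'.qx, hqu, pc Q u p', hu]; ring
  have e2 : polar Q p u' = 0 := by rw [hu', par, psr, h'.px]; ring
  have e3 : polar Q p' u' = 0 := by rw [hu', par, psr, hu, polar_self_of h'.qx]; ring
  have hne : ∀ z : M, Q z = c → z ≠ 0 := by
    rintro z hz rfl
    exact hc (by rw [← hz, QuadraticMap.map_zero])
  obtain ⟨b, hc1, hc2, hc3⟩ := exists_triple_gen h' (hne _ e1) e2 e3 h' (hne _ hu₀) hpx hp'x (by rw [e1, hu₀])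
  rw [h1]
  apply trace_conj' ρ b
  rw [← mul_assoc, pj_conj h'.qp, hc1, mul_assoc, Pr_conj h'.qx, hc2, hc3, mul_assoc]

theorem trace_theta_all_N (H : HypN ρ ψ c) {p p' u₀ : M} (h' : HP Q p p') (hu₀ : Q u₀ = c) (hpx : polar Q p u₀ = 0)
    (hp'x : polar Q p' u₀ = 0) (u : M) :
    LinearMap.trace ℂ V (pj ρ p * Pr ρ ψ p' u) =
      (if u ∈ Submodule.span F {p'} then LinearMap.trace ℂ V (pj ρ p * pj ρ p') else 0) +
      (if polar Q p' u = 0 ∧ Q u = c then LinearMap.trace ℂ V (pj ρ p * Pr ρ ψ p' u₀) else 0) := by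
  have hp'0 : p' ≠ 0 := h'.symm.p0
  by_cases hs : u ∈ Submodule.span F {p'}
  · rw [if_pos hs, if_neg, add_zero, Pr_of_line hs]
    rintro ⟨-, h1⟩
    obtain ⟨b, rfl⟩ := Submodule.mem_span_singleton.1 hs
    apply H.hc
    rw [← h1, qsmul, h'.qx, mul_zero]
  · rw [if_neg hs, zero_add]
    split_ifs with hi
    · exact trace_theta_N H.hc h' hu₀ hpx hp'x hi.1 hi.2
    · by_cases h1 : polar Q p' u = 0
      · rw [Pr_line_N H hp'0 h'.qx h1 hs (fun h2 => hi ⟨h1, h2⟩), mul_zero, map_zero]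
      · rw [Pr_of_not_ortho H.hψ h'.qx (by rw [pc]; exact h1), mul_zero, map_zero]

/-- (N7) -/
theorem trace_N7a (H : HypN ρ ψ c) {p p' u₀ : M} (h' : HP Q p p') (hu₀ : Q u₀ = c) (hpx : polar Q p u₀ = 0)
    (hp'x : polar Q p' u₀ = 0) :
    (Fintype.card F : ℂ) * LinearMap.trace ℂ V (pj ρ p) = (Fintype.card F : ℂ) * LinearMap.trace ℂ V (pj ρ p * pj ρ p') +
      (Nat.card {u // polar Q p' u = 0 ∧ Q u = c} : ℂ) * LinearMap.trace ℂ V (pj ρ p * Pr ρ ψ p' u₀) := by
  rw [trace_sum (ρ := ρ) H.hψ h'.symm.p0, Finset.sum_congr rfl fun u _ => trace_theta_all_N H h' hu₀ hpx hp'x u,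
    Finset.sum_add_distrib, sum_ite_card, sum_ite_card, card_line p' h'.symm.p0]

theorem trace_N7b (H : HypN ρ ψ c) {p p' u₀ x : M} (h' : HP Q p p') (hu₀ : Q u₀ = c) (hpx : polar Q p u₀ = 0)
    (hp'u : polar Q p' u₀ = 0) (hp'x : polar Q p' x = 0) :
    LinearMap.trace ℂ V (pj ρ p * ∑ c : F, ρ (E Q p' (c • x))) =
      (Fintype.card F : ℂ) * LinearMap.trace ℂ V (pj ρ p * pj ρ p') +
      (Nat.card {u // Yp Q c p' x u} : ℂ) * LinearMap.trace ℂ V (pj ρ p * Pr ρ ψ p' u₀) := by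
  rw [sum_E H.hψ h'.symm.p0 hp'x, Finset.mul_sum, map_sum]
  have h3 : ∀ u, LinearMap.trace ℂ V (pj ρ p * if polar Q u x = 0 then Pr ρ ψ p' u else 0) =
      (if u ∈ Submodule.span F {p'} then LinearMap.trace ℂ V (pj ρ p * pj ρ p') else 0) +
      (if Yp Q c p' x u then LinearMap.trace ℂ V (pj ρ p * Pr ρ ψ p' u₀) else 0) := by
    intro u
    by_cases h0 : polar Q u x = 0
    · have h0' : polar Q x u = 0 := by rw [pc, h0]
      rw [if_pos h0, trace_theta_all_N H h' hu₀ hpx hp'u u]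
      congr 1
      by_cases hi : polar Q p' u = 0 ∧ Q u = c
      · rw [if_pos hi, if_pos ⟨hi.2, hi.1, h0'⟩]
      · rw [if_neg hi, if_neg (fun h => hi ⟨h.2.1, h.1⟩)]
    · rw [if_neg h0, mul_zero, map_zero, if_neg, if_neg, add_zero]
      · rintro ⟨_, _, h1⟩
        exact h0 (by rw [pc, h1])
      · intro h1
        obtain ⟨c, rfl⟩ := Submodule.mem_span_singleton.1 h1
        exact h0 (by rw [psl, hp'x, mul_zero])
  rw [Finset.sum_congr rfl fun u _ => h3 u, Finset.sum_add_distrib, sum_ite_card, sum_ite_card, card_line p' h'.symm.p0]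

/-- (N1) -/
theorem trace_one_N (H : HypN ρ ψ c) {p : M} (hp : p ≠ 0) (hq : Q p = 0) :
    (Fintype.card F : ℂ) * finrank ℂ V = (Fintype.card F : ℂ) * LinearMap.trace ℂ V (pj ρ p) +
      (Nat.card {u // polar Q p u = 0 ∧ Q u = c} : ℂ) := by
  have h1 := trace_sum (ρ := ρ) H.hψ hp 1
  rw [LinearMap.trace_one] at h1
  rw [h1]
  have h3 : ∀ u, LinearMap.trace ℂ V (1 * Pr ρ ψ p u) =
      (if u ∈ Submodule.span F {p} then LinearMap.trace ℂ V (pj ρ p) else 0) +
      (if polar Q p u = 0 ∧ Q u = c then 1 else 0) := by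
    intro u
    rw [one_mul]
    by_cases hs : u ∈ Submodule.span F {p}
    · rw [if_pos hs, if_neg, add_zero, Pr_of_line hs]
      rintro ⟨-, h1⟩
      obtain ⟨b, rfl⟩ := Submodule.mem_span_singleton.1 hs
      apply H.hc
      rw [← h1, qsmul, hq, mul_zero]
    · rw [if_neg hs, zero_add]
      split_ifs with hi
      · rw [trace_Pr, H.one p u hp hq hi.1 hi.2]; simp
      · by_cases h1 : polar Q p u = 0
        · rw [Pr_line_N H hp hq h1 hs (fun h2 => hi ⟨h1, h2⟩), map_zero]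
        · rw [Pr_of_not_ortho H.hψ hq (by rw [pc]; exact h1), map_zero]
  rw [Finset.sum_congr rfl fun u _ => h3 u, Finset.sum_add_distrib, sum_ite_card, sum_ite_card, card_line p hp, mul_one]

/-! ### counting -/

theorem card_value1 (a : F) {p : M} (hp : p ≠ 0) (hq : Q p = 0) :
    Nat.card {u // polar Q p u ≠ 0 ∧ Q u = a} * Fintype.card F ^ 2 + Fintype.card M =
      Fintype.card F * Fintype.card M := by
  have h1 := card_shift (fun u => polar Q p u ≠ 0) (fun u => Q u) (fun u => polar Q p u) p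
    (fun u c hu => by rw [par, psr, polar_self_of hq, mul_zero, add_zero]; exact hu)
    (fun u c _ => by change Q (u + c • p) = Q u + c * polar Q p u; rw [qadd, qsmul, hq, psr, pc Q u p]; ring)
    (fun u c _ => by change polar Q p (u + c • p) = polar Q p u; rw [par, psr, polar_self_of hq, mul_zero, add_zero])
    (fun _ hu => hu) a
  have h2 := card_split (fun _ : M => True) (fun u => polar Q p u = 0)
  have h3 := card_perp1 (Q := Q) hp
  have h4 : Nat.card {u : M // True} = Fintype.card M := by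
    rw [← Nat.card_eq_fintype_card]
    exact Nat.card_congr (Equiv.subtypeUnivEquiv fun _ => trivial)
  simp only [true_and] at h2
  rw [h4] at h2
  have h6 : Nat.card {u // ¬ polar Q p u = 0} = Nat.card {u // polar Q p u ≠ 0} := rfl
  rw [h6, h1] at h2
  calc Nat.card {u // polar Q p u ≠ 0 ∧ Q u = a} * Fintype.card F ^ 2 + Fintype.card M
      = Fintype.card F * (Fintype.card F * Nat.card {u // polar Q p u ≠ 0 ∧ Q u = a}) +
        Nat.card {y // polar Q p y = 0} * Fintype.card F := by rw [h3]; ring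
    _ = Fintype.card F * Fintype.card M := by conv_rhs => rw [h2]
                                              ring

theorem card_S' (a : F) {p : M} (hp : p ≠ 0) (hq : Q p = 0) :
    Nat.card {u : M // Q u = a} = Nat.card {u // polar Q p u = 0 ∧ Q u = a} + Nat.card {u // polar Q p u ≠ 0 ∧ Q u = a} := by
  rw [card_split (fun u : M => Q u = a) (fun u => polar Q p u = 0)]
  congr 1
  · exact card_congr_iff fun u => and_comm
  · exact card_congr_iff fun u => and_comm

theorem card_Yp (a : F) (h : SP Q p x) :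
    Nat.card {u // polar Q p u = 0 ∧ Q u = a} = Nat.card {u // Yp Q a p x u} +
      Nat.card {u // (polar Q p u = 0 ∧ polar Q x u ≠ 0) ∧ Q u = a} := by
  rw [card_split (fun u : M => polar Q p u = 0 ∧ Q u = a) (fun u => polar Q x u = 0)]
  congr 1
  · exact card_congr_iff fun u => ⟨fun h => ⟨h.1.2, h.1.1, h.2⟩, fun h => ⟨⟨h.2.1, h.1⟩, h.2.2⟩⟩
  · exact card_congr_iff fun u => ⟨fun h => ⟨⟨h.1.1, h.2⟩, h.1.2⟩, fun h => ⟨⟨h.1.1, h.2⟩, h.1.2⟩⟩

/-- **dimension** in the nonsingular case -/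
theorem dim_N (H : HypN ρ ψ c) (hirr : ρ.IsIrreducible) [Nontrivial V] {q w : ℤ} (hq : q = Fintype.card F) (hw : w ≠ 0)
    (hM : (Fintype.card M : ℤ) = q ^ 4 * w ^ 2) (hN : (N0 Q : ℤ) = (q ^ 2 * w + 1) * (q * w - 1))
    (hκ : (Nat.card {u : M // Q u = c} : ℤ) = q ^ 3 * w ^ 2 + q * w) :
    (finrank ℂ V : ℤ) * (q ^ 2 - 1) = (q ^ 2 * w + 1) * (q * w + 1) := by
  obtain ⟨p, x, h⟩ := exists_SP Q
  obtain ⟨p', hpp', hxp'⟩ := exists_partner_ortho h
  have hp'x : polar Q p' x = 0 := by rw [pc, hxp']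
  have hx0 : x ≠ 0 := h.symm.p0
  obtain ⟨u₀, hu1, hu2, hu3⟩ := exists_norm2 Q p p' c
  obtain ⟨lam, hlam⟩ := exists_lambda hirr
  have h1 := trace_one_N (ρ := ρ) H h.p0 h.qp
  have h3 := trace_N3 H h
  have hT4 := T4 (ρ := ρ) h.p0 h.qp
  have hT5 := T5 (ρ := ρ) h hpp'
  have h6 := trace_N6 (ρ := ρ) H h (y := p') hxp' (by rw [hpp'.px]; exact one_ne_zero)
  rw [← sum_E_swap hpp'.qx h.qx hp'x, trace_N7b H hpp' hu3 hu1 hu2 hp'x] at h6
  have h7 := trace_N7a (ρ := ρ) H hpp' hu3 hu1 hu2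
  have hsp' : SP Q p' x := by
    refine ⟨hpp'.symm.p0, fun h1 => ?_, hpp'.qx, h.qx, hp'x⟩
    obtain ⟨b, hb⟩ := Submodule.mem_span_singleton.1 h1
    have h2 := h.px
    rw [← hb, psr, hpp'.px, mul_one] at h2
    rw [h2, zero_smul] at hb
    exact hx0 hb.symm
  have c1 := card_SP (Q := Q) h.p0 h.qp
  have c2 := card_nonortho (Q := Q) h.p0 h.qp
  have c3 := card_S' (Q := Q) c h.p0 h.qp
  have c4 := card_value1 (Q := Q) c h.p0 h.qp
  have c3' := card_S' (Q := Q) c hpp'.symm.p0 hpp'.qx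
  have c4' := card_value1 (Q := Q) c hpp'.symm.p0 hpp'.qx
  have c5 := card_Yp c h
  have c6 := card_value h c
  have c5' := card_Yp c hsp'
  have c6' := card_value hsp' c
  have hq1 : 1 < Fintype.card F := Fintype.one_lt_card
  have hqZ : (1 : ℤ) < q := by rw [hq]; exact_mod_cast hq1
  have hq0 : q ≠ 0 := by omega
  have hZ : ∀ {a b : ℕ}, a = b → (a : ℤ) = b := fun h => by rw [h]
  have c1 := hZ c1
  have c2 := hZ c2
  have c3 := hZ c3
  have c4 := hZ c4
  have c3' := hZ c3'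
  have c4' := hZ c4'
  have c5 := hZ c5
  have c6 := hZ c6
  have c5' := hZ c5'
  have c6' := hZ c6'
  push_cast at c1 c2 c3 c4 c3' c4' c5 c6 c5' c6'
  rw [← hq] at c1 c2 c4 c4' c6 c6'
  rw [hM] at c2 c4 c4' c6 c6'
  rw [hκ] at c3 c3'
  rw [hN] at c1
  set S1 := Nat.card {u // SP Q p u}
  set n5 := Nat.card {u // Q u = 0 ∧ polar Q p u ≠ 0}
  set T := Nat.card {u // polar Q p u = 0 ∧ Q u = c}
  set T' := Nat.card {u // polar Q p' u = 0 ∧ Q u = c}
  set Y := Nat.card {u // Yp Q c p x u}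
  set Y' := Nat.card {u // Yp Q c p' x u}
  set m1 := Nat.card {u // polar Q p u ≠ 0 ∧ Q u = c}
  set m1' := Nat.card {u // polar Q p' u ≠ 0 ∧ Q u = c}
  set m2 := Nat.card {u // (polar Q p u = 0 ∧ polar Q x u ≠ 0) ∧ Q u = c}
  set m2' := Nat.card {u // (polar Q p' u = 0 ∧ polar Q x u ≠ 0) ∧ Q u = c}
  have k1 : (m1 : ℤ) = (q - 1) * q ^ 2 * w ^ 2 := by
    apply mul_right_cancel₀ (pow_ne_zero 2 hq0)
    linear_combination c4
  have k1' : (m1' : ℤ) = (q - 1) * q ^ 2 * w ^ 2 := by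
    apply mul_right_cancel₀ (pow_ne_zero 2 hq0)
    linear_combination c4'
  have k2 : (m2 : ℤ) = (q - 1) * q * w ^ 2 := by
    apply mul_right_cancel₀ (pow_ne_zero 3 hq0)
    linear_combination c6
  have k2' : (m2' : ℤ) = (q - 1) * q * w ^ 2 := by
    apply mul_right_cancel₀ (pow_ne_zero 3 hq0)
    linear_combination c6'
  have k3 : (n5 : ℤ) = (q - 1) * q ^ 2 * w ^ 2 := by
    apply mul_right_cancel₀ (pow_ne_zero 2 hq0)
    linear_combination c2
  have kT : (T : ℤ) = q * w * (q * w + 1) := by linear_combination -c3 - k1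
  have kT' : (T' : ℤ) = q * w * (q * w + 1) := by linear_combination -c3' - k1'
  have kY : (Y : ℤ) = q * w * (w + 1) := by linear_combination -c5 + kT - k2
  have kY' : (Y' : ℤ) = q * w * (w + 1) := by linear_combination -c5' + kT' - k2'
  have kS : (S1 : ℤ) = q * (q * w + 1) * (w - 1) := by linear_combination -c1 - k3
  -- complex numbers
  have cc : ∀ {a b : ℤ}, a = b → (a : ℂ) = b := fun h => by rw [h]
  have kT := cc kT
  have kT' := cc kT'
  have kY := cc kY
  have kY' := cc kY'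
  have kS := cc kS
  have k3 := cc k3
  have hN := cc hN
  push_cast at kT kT' kY kY' kS k3 hN
  have hqC : (q : ℂ) ≠ 0 := by exact_mod_cast hq0
  have hwC : (w : ℂ) ≠ 0 := by exact_mod_cast hw
  have hq' : (Fintype.card F : ℂ) = (q : ℂ) := by rw [hq]; push_cast; rfl
  have hq1' : (q : ℂ) - 1 ≠ 0 := by
    rw [sub_ne_zero]
    exact_mod_cast (by omega : q ≠ 1)
  rw [hq'] at h1 h3 h6 h7 hT5
  rw [hlam, map_smul, LinearMap.trace_one, smul_eq_mul] at hT4
  rw [hlam, mul_smul_comm, mul_one, map_smul, smul_eq_mul] at hT5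
  set τ1 := LinearMap.trace ℂ V (pj ρ p * pj ρ x) with hτ1
  set τ2 := LinearMap.trace ℂ V (pj ρ p * pj ρ p') with hτ2
  set θ := LinearMap.trace ℂ V (pj ρ p * Pr ρ ψ p' u₀) with hθ
  set D := finrank ℂ V with hD
  set d := LinearMap.trace ℂ V (pj ρ p) with hd
  rw [kT] at h1
  rw [kY] at h3 h6
  rw [kY'] at h6
  rw [kT'] at h7
  rw [kS, k3] at hT5
  rw [hN] at hT4
  have a1 : (D : ℂ) = d + w * (q * w + 1) := by
    apply mul_left_cancel₀ hqC
    linear_combination h1
  have a3 : (q : ℂ) * τ1 = q * d - w * (w + 1) := by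
    have : (q : ℂ) * w * (w + 1) * (q : ℂ)⁻¹ = w * (w + 1) := by field_simp
    rw [this] at h3
    linear_combination -h3
  have a7 : τ2 = d - w * (q * w + 1) * θ := by
    apply mul_left_cancel₀ hqC
    linear_combination -h7
  have a6 : (q : ℂ) ^ 2 * w * θ = w + 1 := by
    have e : (q : ℂ) * w * (w + 1) * ((q : ℂ) ^ 2)⁻¹ = w * (w + 1) * (q : ℂ)⁻¹ := by field_simp
    rw [e] at h6
    have h8 : (q : ℂ) * (q * τ2 + q * w * (w + 1) * θ) = q * (q * τ1) + w * (w + 1) := by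
      rw [h6]; field_simp
    rw [a3, a7] at h8
    have hk : ((q : ℂ) - 1) * w ≠ 0 := mul_ne_zero hq1' hwC
    apply mul_left_cancel₀ hk
    linear_combination -h8
  -- Schur
  have b1 : (D : ℂ) * (((q : ℂ) - 1) * d + q * (q * w + 1) * (w - 1) * τ1 + (q - 1) * q ^ 2 * w ^ 2 * τ2) =
      (q ^ 2 * w + 1) * (q * w - 1) * d * d := by
    rw [← hT5]
    linear_combination d * hT4
  have b2 : ((q : ℂ) - 1) * d + q * (q * w + 1) * (w - 1) * τ1 + (q - 1) * q ^ 2 * w ^ 2 * τ2 =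
      (q ^ 2 * w + 1) * (q * w - 1) * d - w * (w + 1) * (q * w + 1) * (q * w - 1) := by
    rw [a7]
    linear_combination (q * w + 1) * (w - 1) * a3 - (q - 1) * w ^ 2 * (q * w + 1) * a6
  rw [b2] at b1
  -- cancel
  have hqw : (q : ℂ) * w - 1 ≠ 0 := by
    rw [sub_ne_zero]
    have : q * w ≠ 1 := by
      intro h
      have := Int.eq_one_or_neg_one_of_mul_eq_one h
      omega
    exact_mod_cast this
  have hqw1 : (q : ℂ) * w + 1 ≠ 0 := by
    have : q * w + 1 ≠ 0 := by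
      intro h
      have h2 : q * (-w) = 1 := by linear_combination -h
      have := Int.eq_one_or_neg_one_of_mul_eq_one h2
      omega
    exact_mod_cast this
  have b3 : (w + 1) * (D : ℂ) = (q ^ 2 * w + 1) * d := by
    have hk : ((q : ℂ) * w - 1) * (w * (q * w + 1)) ≠ 0 := mul_ne_zero hqw (mul_ne_zero hwC hqw1)
    apply mul_left_cancel₀ hk
    linear_combination -b1 + (q ^ 2 * w + 1) * (q * w - 1) * d * a1
  have b4 : (D : ℂ) * (q ^ 2 - 1) = (q ^ 2 * w + 1) * (q * w + 1) := by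
    apply mul_left_cancel₀ hwC
    linear_combination (q ^ 2 * w + 1) * a1 - b3
  exact_mod_cast b4

end Cfsg.Agent.LSO
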