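import Cfsg.Agent.LSO.Trans
import Cfsg.Agent.LSSL.Wt

/-!
Weights of the unipotent radicals of the stabilizers of singular points.
-/

set_option autoImplicit false
set_option linter.unusedSectionVars false

namespace Cfsg.Agent.LSO

open QuadraticMap Module Cfsg.Agent.H39 Cfsg.Agent.LSU Cfsg.Agent.LSSL
open Cfsg.Agent.Orth hiding map_mul
open scoped Classical

variable {F M : Type*} [Field F] [AddCommGroup M] [Module F M]

/-- the hyperplane orthogonal to `p` -/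
def Hy (Q : QuadraticForm F M) (p : M) : Submodule F M where
  carrier := {x | polar Q p x = 0}
  add_mem' {a b} ha hb := by
    change polar Q p (a + b) = 0
    rw [par, ha, hb, add_zero]
  zero_mem' := polar_zero_right Q p
  smul_mem' c x hx := by
    change polar Q p (c • x) = 0
    rw [psr, hx, mul_zero]

theorem mem_Hy {Q : QuadraticForm F M} {p x : M} : x ∈ Hy Q p ↔ polar Q p x = 0 := Iff.rfl

theorem Hy_eq_perp (Q : QuadraticForm F M) (p : M) : Hy Q p = perp Q (Submodule.span F {p}) := by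
  ext x
  rw [mem_perp, mem_Hy]
  constructor
  · intro h u hu
    obtain ⟨c, rfl⟩ := Submodule.mem_span_singleton.1 hu
    rw [psl, h, mul_zero]
  · intro h
    exact h p (Submodule.mem_span_singleton_self p)

variable [Fintype F] [Fintype M] [FiniteDimensional F M]

noncomputable instance fintypeHy (Q : QuadraticForm F M) (p : M) : Fintype (Hy Q p) := Fintype.ofFinite _

theorem card_M (F : Type*) (M : Type*) [Field F] [AddCommGroup M] [Module F M] [Fintype F] [Fintype M]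
    [FiniteDimensional F M] : Fintype.card M = Fintype.card F ^ finrank F M :=
  Module.card_eq_pow_finrank

theorem card_Hy (Q : QuadraticForm F M) [Nice Q] {p : M} (hp : p ≠ 0) :
    Fintype.card (Hy Q p) * Fintype.card F = Fintype.card M := by
  have h1 := finrank_perp (nd Q) (Submodule.span F {p})
  rw [← Hy_eq_perp, finrank_span_singleton hp] at h1
  rw [card_M F M, Module.card_eq_pow_finrank (K := F) (V := Hy Q p), ← pow_succ, h1]

/-- the character of `Hy p` given by `u` -/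
def ch (ψ : AddChar F ℂ) (Q : QuadraticForm F M) (p u : M) : AddChar (Hy Q p) ℂ where
  toFun x := ψ (polar Q u x)
  map_zero_eq_one' := by
    change ψ (polar Q u 0) = 1
    rw [polar_zero_right, AddChar.map_zero_eq_one]
  map_add_eq_mul' a b := by
    change ψ (polar Q u ((a : M) + b)) = _
    rw [par, AddChar.map_add_eq_mul]

theorem ch_apply (ψ : AddChar F ℂ) (Q : QuadraticForm F M) (p u : M) (x : Hy Q p) : ch ψ Q p u x = ψ (polar Q u x) := rfl

variable {Q : QuadraticForm F M}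

theorem ch_zero_right (ψ : AddChar F ℂ) (p : M) : ch ψ Q p 0 = 0 := by
  ext x
  rw [ch_apply, polar_zero_left, AddChar.map_zero_eq_one, AddChar.zero_apply]

theorem ch_add_self (ψ : AddChar F ℂ) (p u : M) (c : F) : ch ψ Q p (u + c • p) = ch ψ Q p u := by
  ext x
  rw [ch_apply, ch_apply, pal, psl, mem_Hy.1 x.2, mul_zero, add_zero]

theorem exists_psi_ne {ψ : AddChar F ℂ} (hψ : ψ ≠ 0) : ∃ c, ψ c ≠ 1 := by
  by_contra hcon
  push Not at hcon
  apply hψ
  ext c
  rw [hcon, AddChar.zero_apply]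

variable [Nice Q]

theorem ch_zero_iff {ψ : AddChar F ℂ} (hψ : ψ ≠ 0) {p u : M} : ch ψ Q p u = 0 ↔ u ∈ Submodule.span F {p} := by
  constructor
  · intro h0
    by_contra hcon
    obtain ⟨b, hb, hb1⟩ := exists_ortho_not (nd Q) _ hcon
    obtain ⟨c, hc⟩ := exists_psi_ne hψ
    apply hc
    have hpb : polar Q p (c • b) = 0 := by
      rw [psr, pc, hb p (Submodule.mem_span_singleton_self p), mul_zero]
    have h1 := DFunLike.congr_fun h0 (⟨c • b, hpb⟩ : Hy Q p)
    rw [ch_apply, AddChar.zero_apply] at h1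
    change ψ (polar Q u (c • b)) = 1 at h1
    rwa [psr, pc, hb1, mul_one] at h1
  · intro h0
    obtain ⟨c, rfl⟩ := Submodule.mem_span_singleton.1 h0
    have h1 := ch_add_self (Q := Q) ψ p 0 c
    rw [zero_add] at h1
    rw [h1, ch_zero_right]

theorem ch_eq_iff {ψ : AddChar F ℂ} (hψ : ψ ≠ 0) {p u u' : M} :
    ch ψ Q p u = ch ψ Q p u' ↔ u - u' ∈ Submodule.span F {p} := by
  constructor
  · intro h0
    apply (ch_zero_iff (Q := Q) hψ).1
    ext x
    have := DFunLike.congr_fun h0 x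
    rw [ch_apply, ch_apply] at this
    rw [ch_apply, pdl, AddChar.map_sub_eq_div, this, div_self, AddChar.zero_apply]
    intro hz
    have h3 : ψ (polar Q u' x) * ψ (-(polar Q u' x)) = 1 := by
      rw [← AddChar.map_add_eq_mul, add_neg_cancel, AddChar.map_zero_eq_one]
    rw [hz, zero_mul] at h3
    exact zero_ne_one h3
  · intro h0
    obtain ⟨c, hc⟩ := Submodule.mem_span_singleton.1 h0
    have h1 : u = u' + c • p := by rw [hc]; abel
    rw [h1, ch_add_self]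

theorem exists_ch {ψ : AddChar F ℂ} (hψ : ψ ≠ 0) (p : M) (φ : AddChar (Hy Q p) ℂ) : ∃ u, φ = ch ψ Q p u := by
  obtain ⟨l, hl⟩ := exists_linear hψ φ
  obtain ⟨L, hL⟩ := LinearMap.exists_extend l
  obtain ⟨u, hu⟩ := exists_polar_eq (nd Q) L
  refine ⟨u, ?_⟩
  ext x
  rw [ch_apply, hl, hu, ← hL]
  rfl

variable {V : Type*} [AddCommGroup V] [Module ℂ V] (ρ : Representation ℂ (Gr Q) V)

/-- action of the Eichler elements at `p` -/
noncomputable def Uf (p : M) : Hy Q p → (V →ₗ[ℂ] V) := fun x => ρ (E Q p x)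

theorem Uf_zero (p : M) (v : V) : Uf ρ p 0 v = v := by
  change ρ (E Q p 0) v = v
  rw [E_zero, map_one]; rfl

theorem Uf_add (p : M) (a b : Hy Q p) (v : V) : Uf ρ p (a + b) v = Uf ρ p a (Uf ρ p b v) := by
  change ρ (E Q p ((a : M) + b)) v = ρ (E Q p a) (ρ (E Q p b) v)
  rw [E_add a.2 b.2, map_mul]; rfl

theorem r_inv {G : Type*} [Group G] (ρ : Representation ℂ G V) (g : G) (v : V) : ρ g⁻¹ (ρ g v) = v := by
  rw [← Module.End.mul_apply, ← map_mul, inv_mul_cancel, map_one]; rfl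

theorem r_inv' {G : Type*} [Group G] (ρ : Representation ℂ G V) (g : G) (v : V) : ρ g (ρ g⁻¹ v) = v := by
  rw [← Module.End.mul_apply, ← map_mul, mul_inv_cancel, map_one]; rfl

theorem r_inj {G : Type*} [Group G] (ρ : Representation ℂ G V) (g : G) : Function.Injective (ρ g) := by
  intro a b hab
  have := congrArg (ρ g⁻¹) hab
  rwa [r_inv, r_inv] at this

/-- weight space of `u` -/
noncomputable def Wt (ψ : AddChar F ℂ) (p u : M) : Submodule ℂ V := wt (Uf ρ p) (ch ψ Q p u)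

/-- projection to the weight space of `u` -/
noncomputable def Pr (ψ : AddChar F ℂ) (p u : M) : V →ₗ[ℂ] V := PP (Uf ρ p) (ch ψ Q p u)

/-- projection to the fixed points -/
noncomputable def pj (p : M) : V →ₗ[ℂ] V := PP (Uf ρ p) 0

variable {ρ} {ψ : AddChar F ℂ}

theorem mem_Wt {p u : M} {v : V} : v ∈ Wt ρ ψ p u ↔ ∀ x, polar Q p x = 0 → ρ (E Q p x) v = ψ (polar Q u x) • v :=
  ⟨fun hv x hx => hv ⟨x, hx⟩, fun hv x => hv x x.2⟩

theorem mem_W_zero {p : M} {v : V} : v ∈ wt (Uf ρ p) 0 ↔ ∀ x, polar Q p x = 0 → ρ (E Q p x) v = v := by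
  rw [mem_wt_zero]
  exact ⟨fun hv x hx => hv ⟨x, hx⟩, fun hv x => hv x x.2⟩

theorem Pr_zero (p : M) : Pr ρ ψ p 0 = pj ρ p := by rw [Pr, pj, ch_zero_right]

theorem Wt_zero (p : M) : Wt ρ ψ p 0 = wt (Uf ρ p) 0 := by rw [Wt, ch_zero_right]

theorem Pr_add_self (p u : M) (c : F) : Pr ρ ψ p (u + c • p) = Pr ρ ψ p u := by rw [Pr, Pr, ch_add_self]

theorem Wt_add_self (p u : M) (c : F) : Wt ρ ψ p (u + c • p) = Wt ρ ψ p u := by rw [Wt, Wt, ch_add_self]

theorem Pr_self (p : M) (c : F) : Pr ρ ψ p (c • p) = pj ρ p := by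
  rw [← Pr_zero (ψ := ψ), ← Pr_add_self (ψ := ψ) p 0 c, zero_add]

theorem Pr_mem (p u : M) (v : V) : Pr ρ ψ p u v ∈ Wt ρ ψ p u := PP_mem (Uf_add ρ p) _ v

theorem Pr_of_mem {p u : M} {v : V} (hv : v ∈ Wt ρ ψ p u) : Pr ρ ψ p u v = v := PP_of_mem hv

theorem Pr_Pr (p u : M) : Pr ρ ψ p u * Pr ρ ψ p u = Pr ρ ψ p u := PP_PP (Uf_add ρ p) _

theorem pj_mul_pj (p : M) : pj ρ p * pj ρ p = pj ρ p := PP_PP (Uf_add ρ p) _

theorem Wt_conj {p u : M} (hp : Q p = 0) (g : Gr Q) {v : V} :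
    ρ g v ∈ Wt ρ ψ (ac g p) (ac g u) ↔ v ∈ Wt ρ ψ p u := by
  rw [mem_Wt, mem_Wt]
  constructor
  · intro hv x hx
    have h1 := hv (ac g x) (by rw [ac_polar, hx])
    rw [ac_polar, ← Module.End.mul_apply, ← map_mul, ← E_conj hp hx, map_mul, Module.End.mul_apply, ← map_smul] at h1
    exact r_inj ρ g h1
  · intro hv x hx
    have hx' : polar Q p (ac g⁻¹ x) = 0 := by
      rw [← ac_polar g, ac_ac_inv, hx]
    have h1 : E Q (ac g p) x * g = g * E Q p (ac g⁻¹ x) := by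
      rw [E_conj hp hx', ac_ac_inv]
    rw [← Module.End.mul_apply, ← map_mul, h1, map_mul, Module.End.mul_apply, hv _ hx', map_smul]
    congr 2
    rw [← ac_polar g, ac_ac_inv]

/-- conjugation as a linear equivalence -/
noncomputable def conjW {p u p' u' : M} (hp : Q p = 0) (g : Gr Q) (h1 : ac g p = p') (h2 : ac g u = u') :
    Wt ρ ψ p u ≃ₗ[ℂ] Wt ρ ψ p' u' :=
  { toFun := fun v => ⟨ρ g v, by
      have := (Wt_conj (ψ := ψ) (u := u) hp g).2 v.2
      rwa [h1, h2] at this⟩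
    invFun := fun v => ⟨ρ g⁻¹ v, by
      have h3 := (Wt_conj (ψ := ψ) (u := u') (p := p') (by rw [← h1, ac_q, hp]) g⁻¹).2 v.2
      have h4 : ac g⁻¹ p' = p := by rw [← h1, ac_inv_ac]
      have h5 : ac g⁻¹ u' = u := by rw [← h2, ac_inv_ac]
      rwa [h4, h5] at h3⟩
    left_inv := fun v => Subtype.ext (r_inv ρ g v)
    right_inv := fun v => Subtype.ext (r_inv' ρ g v)
    map_add' := fun x y => Subtype.ext (by
      change ρ g ((x : V) + y) = ρ g x + ρ g y
      rw [map_add])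
    map_smul' := fun c x => Subtype.ext (by
      change ρ g (c • (x : V)) = c • ρ g x
      rw [map_smul]) }

/-- the equivalence of hyperplanes -/
def eHy (g : Gr Q) (p : M) : Hy Q p ≃ Hy Q (ac g p) where
  toFun x := ⟨ac g x, by rw [mem_Hy, ac_polar]; exact x.2⟩
  invFun x := ⟨ac g⁻¹ x, by rw [mem_Hy, ← ac_polar g, ac_ac_inv]; exact x.2⟩
  left_inv x := Subtype.ext (ac_inv_ac g x)
  right_inv x := Subtype.ext (ac_ac_inv g x)

theorem Pr_conj {p : M} (hp : Q p = 0) (g : Gr Q) (u : M) :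
    ρ g * Pr ρ ψ p u = Pr ρ ψ (ac g p) (ac g u) * ρ g := by
  rw [Pr, Pr, PP, PP, wtProj, wtProj, smul_mul_assoc, mul_smul_comm, Finset.mul_sum, Finset.sum_mul,
    Fintype.card_congr (eHy g p)]
  congr 1
  rw [← Equiv.sum_comp (eHy g p) (fun x => (ch ψ Q (ac g p) (ac g u) (-x) • Uf ρ (ac g p) x) * ρ g)]
  refine Finset.sum_congr rfl fun x _ => ?_
  rw [smul_mul_assoc, mul_smul_comm]
  have e1 : ch ψ Q (ac g p) (ac g u) (-(eHy g p x)) = ch ψ Q p u (-x) := by
    rw [ch_apply, ch_apply]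
    change ψ (polar Q (ac g u) (-(ac g x))) = ψ (polar Q u (-(x : M)))
    rw [← ac_neg, ac_polar]
  rw [e1]
  congr 1
  change ρ g * ρ (E Q p x) = ρ (E Q (ac g p) (ac g x)) * ρ g
  rw [← map_mul, ← map_mul, E_conj hp x.2]

theorem pj_conj {p : M} (hp : Q p = 0) (g : Gr Q) : ρ g * pj ρ p = pj ρ (ac g p) * ρ g := by
  have := Pr_conj (ρ := ρ) (ψ := 0) hp g 0
  rwa [ac_zero, Pr_zero, Pr_zero] at this

theorem Wt_smul {p u : M} (hp : Q p = 0) {c : F} (hc : c ≠ 0) : Wt ρ ψ (c • p) (c • u) = Wt ρ ψ p u := by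
  ext v
  rw [mem_Wt, mem_Wt]
  constructor
  · intro hv x hx
    have h1 : polar Q p (c⁻¹ • x) = 0 := by rw [psr, hx, mul_zero]
    have h2 := hv (c⁻¹ • x) (by rw [psl, h1, mul_zero])
    rw [E_smul c h1 hp, smul_smul, mul_inv_cancel₀ hc, one_smul, psl, psr, ← mul_assoc,
      mul_inv_cancel₀ hc, one_mul] at h2
    exact h2
  · intro hv x hx
    have h1 : polar Q p x = 0 := by
      rw [psl] at hx
      exact (mul_eq_zero.1 hx).resolve_left hc
    rw [E_smul c h1 hp, hv _ (by rw [psr, h1, mul_zero]), psr, psl]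

/-- equality of projections from equality of weight spaces needs the same group; scaling -/
theorem Pr_smul {p u : M} (hp : Q p = 0) {c : F} (hc : c ≠ 0) : Pr ρ ψ (c • p) (c • u) = Pr ρ ψ p u := by
  have h1 : ∀ x, polar Q p x = 0 → polar Q (c • p) x = 0 := fun x hx => by rw [psl, hx, mul_zero]
  have h2 : ∀ x, polar Q (c • p) x = 0 → polar Q p x = 0 := fun x hx => by
    rw [psl] at hx
    exact (mul_eq_zero.1 hx).resolve_left hc
  let e : Hy Q p ≃ Hy Q (c • p) :=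
    { toFun := fun x => ⟨c⁻¹ • (x : M), by
        rw [mem_Hy]; apply h1; rw [psr, mem_Hy.1 x.2, mul_zero]⟩
      invFun := fun x => ⟨c • (x : M), by
        rw [mem_Hy, psr, h2 _ x.2, mul_zero]⟩
      left_inv := fun x => Subtype.ext (by
        change c • c⁻¹ • (x : M) = x
        rw [smul_smul, mul_inv_cancel₀ hc, one_smul])
      right_inv := fun x => Subtype.ext (by
        change c⁻¹ • c • (x : M) = x
        rw [smul_smul, inv_mul_cancel₀ hc, one_smul]) }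
  rw [Pr, Pr, PP, PP, wtProj, wtProj, Fintype.card_congr e]
  congr 1
  rw [← Equiv.sum_comp e (fun x => ch ψ Q (c • p) (c • u) (-x) • Uf ρ (c • p) x)]
  refine Finset.sum_congr rfl fun x _ => ?_
  have e1 : ch ψ Q (c • p) (c • u) (-(e x)) = ch ψ Q p u (-x) := by
    rw [ch_apply, ch_apply]
    change ψ (polar Q (c • u) (-(c⁻¹ • (x : M)))) = ψ (polar Q u (-(x : M)))
    rw [← smul_neg, psl, psr, ← mul_assoc, mul_inv_cancel₀ hc, one_mul]
  have e2 : Uf ρ (c • p) (e x) = Uf ρ p x := by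
    change ρ (E Q (c • p) (c⁻¹ • (x : M))) = ρ (E Q p x)
    rw [E_smul c (by rw [psr, mem_Hy.1 x.2, mul_zero]) hp, smul_smul, mul_inv_cancel₀ hc, one_smul]
  rw [e1, e2]

theorem pj_smul {p : M} (hp : Q p = 0) {c : F} (hc : c ≠ 0) : pj ρ (c • p) = pj ρ p := by
  have := Pr_smul (ρ := ρ) (ψ := 0) (u := (0 : M)) hp hc
  rwa [smul_zero, Pr_zero, Pr_zero] at this

theorem E_mul_Pr {p : M} (u : M) {x : M} (hx : polar Q p x = 0) :
    ρ (E Q p x) * Pr ρ ψ p u = ψ (polar Q u x) • Pr ρ ψ p u := by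
  ext v
  exact mem_Wt.1 (Pr_mem p u v) x hx

theorem Pr_mul_E {p : M} (u : M) {x : M} (hx : polar Q p x = 0) :
    Pr ρ ψ p u * ρ (E Q p x) = ψ (polar Q u x) • Pr ρ ψ p u := by
  rw [Pr, PP, wtProj, smul_mul_assoc, smul_comm (ψ (polar Q u x)), Finset.sum_mul]
  congr 1
  rw [Finset.smul_sum]
  rw [← Equiv.sum_comp (Equiv.addRight (⟨x, hx⟩ : Hy Q p)) (fun a => ψ (polar Q u x) • ch ψ Q p u (-a) • Uf ρ p a)]
  refine Finset.sum_congr rfl fun a _ => ?_
  rw [smul_mul_assoc, smul_smul]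
  have e1 : Uf ρ p a * ρ (E Q p x) = Uf ρ p (a + ⟨x, hx⟩) := by
    ext v
    rw [Uf_add]; rfl
  have e2 : ch ψ Q p u (-a) = ψ (polar Q u x) * ch ψ Q p u (-(a + ⟨x, hx⟩)) := by
    have : -a = (⟨x, hx⟩ : Hy Q p) + -(a + ⟨x, hx⟩) := by abel
    conv_lhs => rw [this, AddChar.map_add_eq_mul]
    rfl
  rw [e1, e2]; rfl

theorem pj_mul_E {p x : M} (hx : polar Q p x = 0) : pj ρ p * ρ (E Q p x) = pj ρ p := by
  have := Pr_mul_E (ρ := ρ) (ψ := 0) (0 : M) hx
  rwa [Pr_zero, AddChar.zero_apply, one_smul] at this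

theorem E_mul_pj {p x : M} (hx : polar Q p x = 0) : ρ (E Q p x) * pj ρ p = pj ρ p := by
  have := E_mul_Pr (ρ := ρ) (ψ := 0) (0 : M) hx
  rwa [Pr_zero, AddChar.zero_apply, one_smul] at this

theorem pj_fix (p : M) (v : V) {x : M} (hx : polar Q p x = 0) : ρ (E Q p x) (pj ρ p v) = pj ρ p v :=
  congrArg (fun A : V →ₗ[ℂ] V => A v) (E_mul_pj hx)

theorem pj_apply_of_fix {p : M} {v : V} (h : ∀ x, polar Q p x = 0 → ρ (E Q p x) v = v) : pj ρ p v = v :=
  PP_of_mem (mem_W_zero.2 h)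

/-- characters of `M` -/
theorem sum_char (hψ : ψ ≠ 0) (x : M) : ∑ u : M, ψ (polar Q u x) = if x = 0 then (Fintype.card M : ℂ) else 0 := by
  let χ : AddChar M ℂ :=
    { toFun := fun u => ψ (polar Q u x)
      map_zero_eq_one' := by rw [polar_zero_left, AddChar.map_zero_eq_one]
      map_add_eq_mul' := fun a b => by rw [pal, AddChar.map_add_eq_mul] }
  have h1 : ∑ u : M, ψ (polar Q u x) = ∑ u, χ u := rfl
  rw [h1, AddChar.sum_eq_ite]
  by_cases hx : x = 0
  · rw [if_pos hx, if_pos]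
    ext u
    change ψ (polar Q u x) = 1
    rw [hx, polar_zero_right, AddChar.map_zero_eq_one]
  · rw [if_neg hx, if_neg]
    intro h
    obtain ⟨b, -, hb⟩ := exists_ortho_not (nd Q) (⊥ : Submodule F M) (x := x) (by simpa using hx)
    obtain ⟨c, hc⟩ := exists_psi_ne hψ
    apply hc
    have := DFunLike.congr_fun h (c • b)
    change ψ (polar Q (c • b) x) = 1 at this
    rwa [psl, hb, mul_one] at this

theorem sum_char_F (hψ : ψ ≠ 0) (a : F) : ∑ c : F, ψ (c * a) = if a = 0 then (Fintype.card F : ℂ) else 0 := by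
  by_cases ha : a = 0
  · rw [if_pos ha, ha]
    simp
  · rw [if_neg ha]
    have hprim := AddChar.IsPrimitive.of_ne_one (ψ := ψ) (by rwa [AddChar.one_eq_zero])
    have h1 : ∑ c : F, ψ (c * a) = ∑ c, (ψ.mulShift a) c := by
      refine Finset.sum_congr rfl fun c _ => ?_
      rw [AddChar.mulShift_apply, mul_comm]
    rw [h1, AddChar.sum_eq_ite, if_neg]
    have := hprim ha
    rwa [AddChar.one_eq_zero] at this

theorem cardF_ne (F : Type*) [Field F] [Fintype F] : (Fintype.card F : ℂ) ≠ 0 := by simp [Fintype.card_ne_zero]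

/-- (F4) -/
theorem sum_Pr (hψ : ψ ≠ 0) {p : M} (hp : p ≠ 0) : ∑ u : M, Pr ρ ψ p u = (Fintype.card F : ℂ) • (1 : V →ₗ[ℂ] V) := by
  have h1 : ∀ u : M, Pr ρ ψ p u = (Fintype.card (Hy Q p) : ℂ)⁻¹ • ∑ x : Hy Q p, ψ (polar Q u (-(x : M))) • Uf ρ p x := fun u => rfl
  simp only [h1]
  rw [← Finset.smul_sum, Finset.sum_comm]
  have h2 : ∀ x : Hy Q p, ∑ u : M, ψ (polar Q u (-(x : M))) • Uf ρ p x =
      (if (x : M) = 0 then (Fintype.card M : ℂ) else 0) • Uf ρ p x := by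
    intro x
    rw [← Finset.sum_smul, sum_char hψ]
    congr 1
    simp
  rw [Finset.sum_congr rfl fun x _ => h2 x, Finset.sum_eq_single (0 : Hy Q p)]
  · have h3 : ((0 : Hy Q p) : M) = 0 := rfl
    rw [h3, if_pos rfl]
    have h4 : Uf ρ p 0 = 1 := by
      ext v; exact Uf_zero ρ p v
    rw [h4, smul_smul]
    congr 1
    have h5 := card_Hy Q hp
    rw [← h5]
    have := cardA_ne (Hy Q p)
    push_cast
    field_simp
  · intro x _ hx
    have h3 : (x : M) ≠ 0 := fun h => hx (Subtype.ext h)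
    rw [if_neg h3, zero_smul]
  · intro h; exact absurd (Finset.mem_univ _) h

theorem Pr_of_not_ortho (hψ : ψ ≠ 0) {p u : M} (hp : Q p = 0) (hu : polar Q u p ≠ 0) : Pr ρ ψ p u = 0 := by
  obtain ⟨c, hc⟩ := exists_psi_ne hψ
  have h1 : polar Q p ((c * (polar Q u p)⁻¹) • p) = 0 := by rw [psr, polar_self_of hp, mul_zero]
  have h2 := E_mul_Pr (ρ := ρ) (ψ := ψ) u h1
  rw [E_self hp, map_one, one_mul, psr, mul_assoc, inv_mul_cancel₀ hu, mul_one] at h2
  have h3 : (1 - ψ c) • Pr ρ ψ p u = 0 := by rw [sub_smul, one_smul]; exact sub_eq_zero.2 h2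
  exact (smul_eq_zero.1 h3).resolve_left (sub_ne_zero.2 (Ne.symm hc))

/-- operator identity -/
theorem sum_E (hψ : ψ ≠ 0) {p y : M} (hp : p ≠ 0) (hy : polar Q p y = 0) :
    ∑ c : F, ρ (E Q p (c • y)) = ∑ u : M, if polar Q u y = 0 then Pr ρ ψ p u else 0 := by
  have hq := cardF_ne F
  have h0 : ∀ c : F, (Fintype.card F : ℂ) • ρ (E Q p (c • y)) = ∑ u : M, ψ (c * polar Q u y) • Pr ρ ψ p u := by
    intro c
    have h1 : (Fintype.card F : ℂ) • ρ (E Q p (c • y)) = ρ (E Q p (c • y)) * ((Fintype.card F : ℂ) • (1 : V →ₗ[ℂ] V)) := by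
      rw [mul_smul_comm, mul_one]
    rw [h1, ← sum_Pr (ρ := ρ) hψ hp, Finset.mul_sum]
    refine Finset.sum_congr rfl fun u _ => ?_
    rw [E_mul_Pr u (by rw [psr, hy, mul_zero]), psr]
  have h2 : (Fintype.card F : ℂ) • ∑ c : F, ρ (E Q p (c • y)) =
      (Fintype.card F : ℂ) • ∑ u : M, if polar Q u y = 0 then Pr ρ ψ p u else 0 := by
    rw [Finset.smul_sum, Finset.sum_congr rfl fun c _ => h0 c, Finset.sum_comm, Finset.smul_sum]
    refine Finset.sum_congr rfl fun u _ => ?_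
    rw [← Finset.sum_smul, sum_char_F hψ]
    split_ifs
    · rfl
    · rw [zero_smul, smul_zero]
  exact smul_right_injective _ hq h2

theorem trace_conj' {G : Type*} [Group G] (ρ : Representation ℂ G V) (a : G) (A B : V →ₗ[ℂ] V) (h : ρ a * A = B * ρ a) :
    LinearMap.trace ℂ V A = LinearMap.trace ℂ V B := by
  have e1 : ρ a⁻¹ * ρ a = 1 := by rw [← map_mul, inv_mul_cancel, map_one]
  have e2 : ρ a * ρ a⁻¹ = 1 := by rw [← map_mul, mul_inv_cancel, map_one]
  have h1 : A = ρ a⁻¹ * (B * ρ a) := by rw [← h, ← mul_assoc, e1, one_mul]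
  rw [h1, LinearMap.trace_mul_comm, mul_assoc, e2, mul_one]

variable [FiniteDimensional ℂ V]

theorem trace_Pr (p u : M) : LinearMap.trace ℂ V (Pr ρ ψ p u) = finrank ℂ (Wt ρ ψ p u) := trace_PP (Uf_add ρ p) _

theorem trace_pj (p : M) : LinearMap.trace ℂ V (pj ρ p) = finrank ℂ (wt (Uf ρ p) 0) := trace_PP (Uf_add ρ p) 0

theorem Pr_eq_zero_iff (p u : M) : Pr ρ ψ p u = 0 ↔ Wt ρ ψ p u = ⊥ := by
  constructor
  · intro h
    rw [eq_bot_iff]
    intro v hv
    rw [← Pr_of_mem hv, h]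
    exact zero_mem _
  · intro h
    ext v
    have := Pr_mem (ρ := ρ) (ψ := ψ) p u v
    rw [h, Submodule.mem_bot] at this
    exact this

/-- traces via weights -/
theorem trace_sum (hψ : ψ ≠ 0) {p : M} (hp : p ≠ 0) (C : V →ₗ[ℂ] V) :
    (Fintype.card F : ℂ) * LinearMap.trace ℂ V C = ∑ u : M, LinearMap.trace ℂ V (C * Pr ρ ψ p u) := by
  rw [← map_sum, ← Finset.mul_sum, sum_Pr hψ hp, mul_smul_comm, mul_one, map_smul, smul_eq_mul]

theorem trace_mul_Pr_of_map (hψ : ψ ≠ 0) {C : V →ₗ[ℂ] V} {p u u' : M} (h : u - u' ∉ Submodule.span F {p})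
    (hC : ∀ v ∈ Wt ρ ψ p u, C v ∈ Wt ρ ψ p u') : LinearMap.trace ℂ V (C * Pr ρ ψ p u) = 0 :=
  trace_mul_PP_of_map (Uf_add ρ p) (fun h1 => h ((ch_eq_iff hψ).1 h1)) hC

end Cfsg.Agent.LSO
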