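import Cfsg.Agent.LSO.Trace

/-!
Schur-type arguments for the sums of projections.
-/

set_option autoImplicit false
set_option linter.unusedSectionVars false
set_option linter.style.haveILetI false

namespace Cfsg.Agent.LSO

open QuadraticMap Module Cfsg.Agent.H39 Cfsg.Agent.LSU
open Cfsg.Agent.Orth hiding map_mul
open Cfsg.Agent.LSSL (fixS mem_fixS avg avg_mem avg_of_fix isProj_avg avg_mul_of_mem mul_avg_of_mem avg_comm avg_comm_op
  mem_fixS_closure PP PP_mem PP_of_mem cardA_ne sum_PP)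
open scoped Classical

variable {F M : Type*} [Field F] [AddCommGroup M] [Module F M] [Fintype F] [Fintype M] [FiniteDimensional F M]
variable {Q : QuadraticForm F M} [Nice Q]

theorem exists_ind_mem {p x a : M} (h : SP Q p x) (ha : a ∈ LL F p x) (ha0 : a ≠ 0) : ∃ b ∈ LL F p x, SP Q a b := by
  by_cases h1 : p ∈ Submodule.span F {a}
  · by_cases h2 : x ∈ Submodule.span F {a}
    · exfalso
      have h3 : LL F p x ≤ Submodule.span F {a} := by
        rw [LL, Submodule.span_le]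
        intro z hz
        rcases hz with rfl | hz
        · exact h1
        · rw [Set.mem_singleton_iff] at hz
          rw [hz]; exact h2
      have h4 := Submodule.finrank_mono h3
      rw [finrank_LL h, finrank_span_singleton ha0] at h4
      omega
    · exact ⟨x, right_mem p x, h.of_mem ha (right_mem p x) ha0 h2⟩
  · exact ⟨p, left_mem p x, h.of_mem ha (left_mem p x) ha0 h1⟩

theorem exists_Nm {p x a : M} (h : SP Q p x) (ha : a ∈ LL F p x) (ha0 : a ≠ 0) :
    ∃ c : Gr Q, Nm (LL F p x) c ∧ ac c p = a := by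
  obtain ⟨b, hb, hi⟩ := exists_ind_mem h ha ha0
  obtain ⟨c, hc1, hc2⟩ := exists_pair h hi
  exact ⟨c, Nm_of_pair h (by rw [hc1]; exact ha) (by rw [hc2]; exact hb), hc1⟩

/-- nonzero vectors of the line -/
noncomputable def Om (F : Type*) {M : Type*} [Field F] [AddCommGroup M] [Module F M] [Fintype M] (p x : M) : Finset M :=
  Finset.univ.filter fun a => a ≠ 0 ∧ a ∈ LL F p x

theorem mem_Om {p x a : M} : a ∈ Om F p x ↔ a ≠ 0 ∧ a ∈ LL F p x := by
  simp [Om]

theorem card_Om {p x : M} (h : SP Q p x) : (Om F p x).card + 1 = Fintype.card F ^ 2 := by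
  have h1 := card_split (fun u : M => u ∈ LL F p x) (fun u => u = 0)
  rw [card_LL h] at h1
  have h2 : Nat.card {u : M // u ∈ LL F p x ∧ u = 0} = 1 := by
    rw [Nat.card_eq_one_iff_unique]
    exact ⟨⟨fun a b => Subtype.ext (a.2.2.trans b.2.2.symm)⟩, ⟨⟨0, zero_mem _, rfl⟩⟩⟩
  have h3 : Nat.card {u : M // u ∈ LL F p x ∧ ¬ u = 0} = (Om F p x).card := by
    rw [Nat.card_eq_fintype_card, Om, Fintype.card_subtype]
    congr 1
    ext u
    simp [and_comm]
  rw [h2, h3] at h1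
  omega

variable {V : Type*} [AddCommGroup V] [Module ℂ V] (ρ : Representation ℂ (Gr Q) V)
variable {ψ : AddChar F ℂ}

/-- sum of the projections of the line -/
noncomputable def KL (p x : M) : V →ₗ[ℂ] V := ∑ a ∈ Om F p x, pj ρ a

theorem KL_comm {p x : M} (h : SP Q p x) {c : Gr Q} (hc : Nm (LL F p x) c) : ρ c * KL ρ p x = KL ρ p x * ρ c := by
  rw [KL, Finset.mul_sum, Finset.sum_mul]
  refine Finset.sum_nbij' (ac c) (ac c⁻¹) ?_ ?_ ?_ ?_ ?_
  · intro a ha
    rw [mem_Om] at ha ⊢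
    exact ⟨ac_ne_zero c ha.1, (hc a).2 ha.2⟩
  · intro a ha
    rw [mem_Om] at ha ⊢
    exact ⟨ac_ne_zero _ ha.1, (hc.inv a).2 ha.2⟩
  · intro a _; exact ac_inv_ac c a
  · intro a _; exact ac_ac_inv c a
  · intro a ha; exact pj_conj (h.TS (mem_Om.1 ha).2) c

theorem KL_comm_pE {p x : M} (h : SP Q p x) : pE ρ (LL F p x) * KL ρ p x = KL ρ p x * pE ρ (LL F p x) := by
  rw [KL, Finset.mul_sum, Finset.sum_mul]
  exact Finset.sum_congr rfl fun a ha => pj_comm_pE ρ h (mem_Om.1 ha).2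

theorem card_Om' {p x : M} (h : SP Q p x) : ((Om F p x).card : ℂ) = (Fintype.card F : ℂ) ^ 2 - 1 := by
  have h1 : (((Om F p x).card + 1 : ℕ) : ℂ) = ((Fintype.card F ^ 2 : ℕ) : ℂ) := by rw [card_Om h]
  push_cast at h1
  linear_combination h1

theorem KL_mul_pT {p x : M} (h : SP Q p x) :
    KL ρ p x * pT ρ (LL F p x) = ((Fintype.card F : ℂ) ^ 2 - 1) • pT ρ (LL F p x) := by
  rw [KL, Finset.sum_mul, Finset.sum_congr rfl (g := fun _ => pT ρ (LL F p x)) (fun a ha => pj_mul_pT ρ (mem_Om.1 ha).2),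
    Finset.sum_const, ← Nat.cast_smul_eq_nsmul ℂ, card_Om' h]

theorem pT_mul_KL {p x : M} (h : SP Q p x) :
    pT ρ (LL F p x) * KL ρ p x = ((Fintype.card F : ℂ) ^ 2 - 1) • pT ρ (LL F p x) := by
  rw [KL, Finset.mul_sum, Finset.sum_congr rfl (g := fun _ => pT ρ (LL F p x)) (fun a ha => pT_mul_pj ρ (mem_Om.1 ha).2),
    Finset.sum_const, ← Nat.cast_smul_eq_nsmul ℂ, card_Om' h]

variable [FiniteDimensional ℂ V] {ρ}

/-- (I4) -/
theorem exists_kappa (H : Hyp ρ ψ) {p x : M} (h : SP Q p x) :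
    ∃ κ : ℂ, KL ρ p x * (pE ρ (LL F p x) - pT ρ (LL F p x)) = κ • (pE ρ (LL F p x) - pT ρ (LL F p x)) := by
  set L := LL F p x with hL
  have hTS : ∀ a ∈ L, Q a = 0 := fun a ha => h.TS ha
  set K := KL ρ p x with hK
  set E' := pE ρ L with hE
  set T := pT ρ L with hT
  have eET : ∀ v, E' (T v) = T v := fun v => congrArg (fun A : V →ₗ[ℂ] V => A v) (pE_mul_pT ρ L)
  have eTE : ∀ v, T (E' v) = T v := fun v => congrArg (fun A : V →ₗ[ℂ] V => A v) (pT_mul_pE ρ L)
  have eEE : ∀ v, E' (E' v) = E' v := fun v => congrArg (fun A : V →ₗ[ℂ] V => A v) (pE_mul_pE ρ L)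
  have eTT : ∀ v, T (T v) = T v := fun v => congrArg (fun A : V →ₗ[ℂ] V => A v) (pT_mul_pT ρ L)
  have eEK : ∀ v, E' (K v) = K (E' v) := fun v => congrArg (fun A : V →ₗ[ℂ] V => A v) (KL_comm_pE ρ h)
  have eTK : ∀ v, T (K v) = ((Fintype.card F : ℂ) ^ 2 - 1) • T v := fun v =>
    congrArg (fun A : V →ₗ[ℂ] V => A v) (pT_mul_KL ρ h)
  have ecE : ∀ c, Nm L c → ∀ v, E' (ρ c v) = ρ c (E' v) := fun c hc v =>
    (congrArg (fun A : V →ₗ[ℂ] V => A v) (pE_comm ρ hTS hc)).symm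
  have ecT : ∀ c, Nm L c → ∀ v, T (ρ c v) = ρ c (T v) := fun c hc v =>
    (congrArg (fun A : V →ₗ[ℂ] V => A v) (pT_comm ρ hTS hc)).symm
  have ecK : ∀ c, Nm L c → ∀ v, K (ρ c v) = ρ c (K v) := fun c hc v =>
    (congrArg (fun A : V →ₗ[ℂ] V => A v) (KL_comm ρ h hc)).symm
  have ecP : ∀ c v, ρ c (pj ρ p v) = pj ρ (ac c p) (ρ c v) := fun c v =>
    congrArg (fun A : V →ₗ[ℂ] V => A v) (pj_conj h.qp c)
  let S : Submodule ℂ V :=
    { carrier := {v | E' v = v ∧ T v = 0}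
      add_mem' := fun {a b} ha hb => ⟨by rw [map_add, ha.1, hb.1], by rw [map_add, ha.2, hb.2, add_zero]⟩
      zero_mem' := ⟨map_zero _, map_zero _⟩
      smul_mem' := fun c a ha => ⟨by rw [map_smul, ha.1], by rw [map_smul, ha.2, smul_zero]⟩ }
  have hPS : ∀ v, (E' - T) v ∈ S := fun v => by
    refine ⟨?_, ?_⟩
    · rw [LinearMap.sub_apply, map_sub, eEE, eET]
    · rw [LinearMap.sub_apply, map_sub, eTE, eTT, sub_self]
  have hKS : ∀ v ∈ S, K v ∈ S := fun v hv => ⟨by rw [eEK, hv.1], by rw [eTK, hv.2, smul_zero]⟩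
  by_cases hS : S = ⊥
  · refine ⟨0, ?_⟩
    ext v
    have := hPS v
    rw [hS, Submodule.mem_bot] at this
    rw [zero_smul, Module.End.mul_apply, this, map_zero]; rfl
  haveI : Nontrivial S := Submodule.nontrivial_iff_ne_bot.2 hS
  obtain ⟨κ, hκ⟩ := Module.End.exists_eigenvalue (K.restrict hKS)
  obtain ⟨v₀, hv₀⟩ := hκ.exists_hasEigenvector
  refine ⟨κ, ?_⟩
  let S' : Submodule ℂ V :=
    { carrier := {v | v ∈ S ∧ K v = κ • v}
      add_mem' := fun {a b} ha hb => ⟨S.add_mem ha.1 hb.1, by rw [map_add, ha.2, hb.2, smul_add]⟩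
      zero_mem' := ⟨S.zero_mem, by rw [map_zero, smul_zero]⟩
      smul_mem' := fun c a ha => ⟨S.smul_mem c ha.1, by rw [map_smul, ha.2, smul_comm]⟩ }
  have hv₀S : (v₀ : V) ∈ S' := ⟨v₀.2, congrArg Subtype.val hv₀.apply_eq_smul⟩
  have hv₀0 : (v₀ : V) ≠ 0 := fun h => hv₀.2 (Subtype.ext h)
  -- claim A
  have cA : ∀ c, Nm L c → ∀ v ∈ S', ρ c v ∈ S' := by
    intro c hc v hv
    refine ⟨⟨by rw [ecE c hc, hv.1.1], by rw [ecT c hc, hv.1.2, map_zero]⟩, ?_⟩
    rw [ecK c hc, hv.2, map_smul]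
  -- claim B
  have cB : ∃ v ∈ S', pj ρ p v ≠ v := by
    by_contra hcon
    push Not at hcon
    apply hv₀0
    have h1 : (v₀ : V) ∈ fixS ρ (NN Q L) := by
      apply mem_fixS_closure
      rintro _ ⟨a, ha, y, hy, rfl⟩
      by_cases h0 : a = 0
      · have e : E Q a y = 1 := by
          have := E_smul (Q := Q) (p := p) (x := 0) 0 (polar_zero_right Q p) h.qp
          rw [h0]
          apply ac_ext
          intro z
          rw [ac_E (QuadraticMap.map_zero Q) (polar_zero_left Q y), polar_zero_right, ac_one]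
          simp
        rw [e, map_one]; rfl
      obtain ⟨c, hc, hcp⟩ := exists_Nm h ha h0
      have h2 := hcon _ (cA c⁻¹ hc.inv _ hv₀S)
      have h3 := ecP c (ρ c⁻¹ (v₀ : V))
      rw [h2, hcp, r_inv'] at h3
      rw [h3, pj_fix a _ hy]
    have h2 : T (v₀ : V) = v₀ := avg_of_fix ρ h1
    rw [← h2, hv₀S.1.2]
  -- claim C
  have hPPS : ∀ (φ : AddChar (Hy Q p) ℂ) (v : V), v ∈ S' → PP (Uf ρ p) φ v ∈ S' := by
    intro φ v hv
    rw [PP, Cfsg.Agent.H39.wtProj, LinearMap.smul_apply, LinearMap.sum_apply]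
    refine S'.smul_mem _ (S'.sum_mem fun y _ => ?_)
    rw [LinearMap.smul_apply]
    exact S'.smul_mem _ (cA _ (Nm_E h (left_mem p x) y.2) v hv)
  have cC : ∃ u, SP Q p u ∧ u ∈ L ∧ Wt ρ ψ p u ≤ S' := by
    obtain ⟨v, hv, hpv⟩ := cB
    have h1 : ∃ φ : AddChar (Hy Q p) ℂ, φ ≠ 0 ∧ PP (Uf ρ p) φ v ≠ 0 := by
      by_contra hcon
      push Not at hcon
      apply hpv
      have h2 := sum_PP (Uf_zero ρ p) v
      rw [Finset.sum_eq_single (0 : AddChar (Hy Q p) ℂ) (fun φ _ hφ => hcon φ hφ)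
        (fun h => absurd (Finset.mem_univ _) h)] at h2
      exact h2
    obtain ⟨φ, hφ0, hφ⟩ := h1
    obtain ⟨u, rfl⟩ := exists_ch H.hψ p φ
    have huL : u ∈ L := by
      by_contra huL
      apply hφ
      have h3 : Pr ρ ψ p u (E' v) = 0 :=
        congrArg (fun A : V →ₗ[ℂ] V => A v) (Pr_mul_pE_of_not ρ H.hψ h (left_mem p x) huL)
      rw [hv.1.1] at h3
      exact h3
    have hi : SP Q p u := h.of_mem (left_mem p x) huL h.p0 (fun h1 => hφ0 ((ch_zero_iff H.hψ).2 h1))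
    have hu := hPPS (ch ψ Q p u) v hv
    have huW : PP (Uf ρ p) (ch ψ Q p u) v ∈ Wt ρ ψ p u := PP_mem (Uf_add ρ p) _ v
    refine ⟨u, hi, huL, ?_⟩
    intro w hw
    have h2 : (⟨_, huW⟩ : Wt ρ ψ p u) ≠ 0 := fun h0 => hφ (congrArg Subtype.val h0)
    obtain ⟨c, hc⟩ := (finrank_eq_one_iff_of_nonzero' _ h2).1 (H.one p u hi) ⟨w, hw⟩
    have h3 : c • PP (Uf ρ p) (ch ψ Q p u) v = w := congrArg Subtype.val hc
    rw [← h3]
    exact S'.smul_mem _ hu
  -- claim D
  have cD : ∀ u', SP Q p u' → u' ∈ L → Wt ρ ψ p u' ≤ S' := by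
    intro u' hu' hu'L w hw
    obtain ⟨u, hu, huL, huS⟩ := cC
    obtain ⟨c, hc1, hc2⟩ := exists_pair hu hu'
    have hLL : LL F p u = L := LL_eq h hu (left_mem p x) huL
    have hNm : Nm L c := by
      rw [← hLL]
      exact Nm_of_pair hu (by rw [hc1]; exact left_mem p u) (by rw [hc2, hLL]; exact hu'L)
    have h1 := (Wt_conj (ρ := ρ) (ψ := ψ) (u := u') h.qp c⁻¹).2 hw
    have h2 : ac c⁻¹ p = p := by conv_lhs => rw [← hc1, ac_inv_ac]
    have h3 : ac c⁻¹ u' = u := by rw [← hc2, ac_inv_ac]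
    rw [h2, h3] at h1
    have h4 := cA c hNm _ (huS h1)
    rwa [r_inv'] at h4
  -- claim E
  have cE : ∀ v, E' v = v → v - pj ρ p v ∈ S' := by
    intro v hv
    have h1 := sum_PP (Uf_zero ρ p) v
    rw [← Finset.add_sum_erase _ _ (Finset.mem_univ (0 : AddChar (Hy Q p) ℂ))] at h1
    have h2 : v - pj ρ p v = ∑ φ ∈ Finset.univ.erase (0 : AddChar (Hy Q p) ℂ), PP (Uf ρ p) φ v := by
      rw [sub_eq_iff_eq_add]
      conv_lhs => rw [← h1]
      rw [add_comm]; rfl
    rw [h2]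
    refine S'.sum_mem fun φ hφ => ?_
    obtain ⟨u, rfl⟩ := exists_ch H.hψ p φ
    have huW : PP (Uf ρ p) (ch ψ Q p u) v ∈ Wt ρ ψ p u := PP_mem (Uf_add ρ p) _ v
    by_cases huL : u ∈ L
    · exact cD u (h.of_mem (left_mem p x) huL h.p0
        (fun h1 => (Finset.ne_of_mem_erase hφ) ((ch_zero_iff H.hψ).2 h1))) huL huW
    · have h3 : Pr ρ ψ p u (E' v) = 0 :=
        congrArg (fun A : V →ₗ[ℂ] V => A v) (Pr_mul_pE_of_not ρ H.hψ h (left_mem p x) huL)
      rw [hv] at h3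
      have h4 : PP (Uf ρ p) (ch ψ Q p u) v = 0 := h3
      rw [h4]
      exact S'.zero_mem
  -- claim F
  have cF : ∀ a ∈ L, a ≠ 0 → ∀ v, E' v = v → v - pj ρ a v ∈ S' := by
    intro a ha h0 v hv
    obtain ⟨c, hc, hcp⟩ := exists_Nm h ha h0
    have h1 := cA c hc _ (cE (ρ c⁻¹ v) (by rw [ecE _ hc.inv, hv]))
    rwa [map_sub, r_inv', ecP, hcp, r_inv'] at h1
  -- claim G
  have cG : ∀ a ∈ NN Q L, ∀ v, E' v = v → ρ a v - v ∈ S' := by
    intro a ha
    have hstep : ∀ a ∈ NN Q L, Nm L a := fun a ha => Nm_of_mem_NN h ha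
    induction ha using Subgroup.closure_induction with
    | mem b hb =>
      obtain ⟨a, ha, y, hy, rfl⟩ := hb
      intro v hv
      by_cases h0 : a = 0
      · have e : E Q a y = 1 := by
          rw [h0]
          apply ac_ext
          intro z
          rw [ac_E (QuadraticMap.map_zero Q) (polar_zero_left Q y), polar_zero_right, ac_one]
          simp
        rw [e, map_one]
        change v - v ∈ S'
        rw [sub_self]; exact S'.zero_mem
      · have h1 := cF a ha h0 v hv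
        have h2 := S'.sub_mem (cA _ (Nm_E h ha hy) _ h1) h1
        rw [map_sub, pj_fix a v hy] at h2
        have e : ρ (E Q a y) v - pj ρ a v - (v - pj ρ a v) = ρ (E Q a y) v - v := by abel
        rwa [e] at h2
    | one =>
      intro v _
      rw [map_one]
      change v - v ∈ S'
      rw [sub_self]; exact S'.zero_mem
    | mul a b ha' hb' ha hb =>
      intro v hv
      have h1 := S'.add_mem (cA a (hstep a ha') _ (hb v hv)) (ha v hv)
      have e : ρ a (ρ b v - v) + (ρ a v - v) = ρ (a * b) v - v := by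
        rw [map_sub, map_mul, Module.End.mul_apply]; abel
      rwa [e] at h1
    | inv a ha' ha =>
      intro v hv
      have h1 := S'.neg_mem (cA a⁻¹ (hstep a ha').inv _ (ha v hv))
      have e : -(ρ a⁻¹ (ρ a v - v)) = ρ a⁻¹ v - v := by
        rw [map_sub, r_inv]; abel
      rwa [e] at h1
  -- claim H
  have cH : ∀ v ∈ S, v ∈ S' := by
    intro v hv
    letI : Fintype (NN Q L) := Fintype.ofFinite _
    have hcard : (Fintype.card (NN Q L) : ℂ) ≠ 0 := by simp [Fintype.card_ne_zero]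
    have h1 : T v - v = (Fintype.card (NN Q L) : ℂ)⁻¹ • ∑ a : NN Q L, (ρ (a : Gr Q) v - v) := by
      rw [hT, pT, avg, LinearMap.smul_apply, LinearMap.sum_apply, Finset.sum_sub_distrib, smul_sub, Finset.sum_const,
        Finset.card_univ, ← Nat.cast_smul_eq_nsmul ℂ, smul_smul, inv_mul_cancel₀ hcard, one_smul]
    have h2 : T v - v ∈ S' := by
      rw [h1]
      exact S'.smul_mem _ (S'.sum_mem fun a _ => cG a a.2 v hv.1)
    rw [hv.2, zero_sub] at h2
    have := S'.neg_mem h2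
    rwa [neg_neg] at this
  ext v
  exact (cH _ (hPS v)).2

/-- the sum of all projections -/
noncomputable def KV (ρ : Representation ℂ (Gr Q) V) : V →ₗ[ℂ] V :=
  ∑ a ∈ Finset.univ.filter (fun a : M => Q a = 0 ∧ a ≠ 0), pj ρ a

theorem KV_comm (c : Gr Q) : ρ c * KV ρ = KV ρ * ρ c := by
  rw [KV, Finset.mul_sum, Finset.sum_mul]
  refine Finset.sum_nbij' (ac c) (ac c⁻¹) ?_ ?_ ?_ ?_ ?_
  · intro a ha
    simp only [Finset.mem_filter, Finset.mem_univ, true_and] at ha ⊢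
    exact ⟨by rw [ac_q, ha.1], ac_ne_zero c ha.2⟩
  · intro a ha
    simp only [Finset.mem_filter, Finset.mem_univ, true_and] at ha ⊢
    exact ⟨by rw [ac_q, ha.1], ac_ne_zero _ ha.2⟩
  · intro a _; exact ac_inv_ac c a
  · intro a _; exact ac_ac_inv c a
  · intro a ha
    simp only [Finset.mem_filter, Finset.mem_univ, true_and] at ha
    exact pj_conj ha.1 c

/-- (I8) Schur's lemma -/
theorem exists_lambda (hirr : ρ.IsIrreducible) [Nontrivial V] : ∃ lam : ℂ, KV ρ = lam • (1 : V →ₗ[ℂ] V) := by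
  obtain ⟨lam, hlam⟩ := Module.End.exists_eigenvalue (KV ρ)
  obtain ⟨v₀, hv₀⟩ := hlam.exists_hasEigenvector
  let σ : Subrepresentation ρ :=
    { toSubmodule := Module.End.eigenspace (KV ρ) lam
      apply_mem_toSubmodule := by
        intro g v hv
        rw [Module.End.mem_eigenspace_iff] at hv ⊢
        have h1 : KV ρ (ρ g v) = ρ g (KV ρ v) := (congrArg (fun A : V →ₗ[ℂ] V => A v) (KV_comm (ρ := ρ) g)).symm
        rw [h1, hv, map_smul] }
  refine ⟨lam, ?_⟩
  rcases hirr.eq_bot_or_eq_top σ with h1 | h1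
  · exfalso
    have h2 : v₀ ∈ σ.toSubmodule := hv₀.1
    rw [h1] at h2
    exact hv₀.2 h2
  · ext v
    have h2 : v ∈ σ.toSubmodule := by
      rw [h1]; exact Submodule.mem_top
    exact Module.End.mem_eigenspace_iff.1 h2

end Cfsg.Agent.LSO
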