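import Cfsg.Agent.LSO.Rep
import Cfsg.Agent.LSSL.Avg

/-!
One-dimensional weight spaces are fixed by the Eichler elements in their stabilizer.
-/

set_option autoImplicit false
set_option linter.unusedSectionVars false

namespace Cfsg.Agent.LSO

open QuadraticMap Module Cfsg.Agent.H39 Cfsg.Agent.LSU
open Cfsg.Agent.Orth hiding map_mul

/-- commutators act trivially on one-dimensional spaces -/
theorem core {G V : Type*} [Group G] [AddCommGroup V] [Module ℂ V] [FiniteDimensional ℂ V] (ρ : Representation ℂ G V)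
    {W : Submodule ℂ V} (hW : finrank ℂ W ≤ 1) {a b t : G}
    (ha : ∀ v ∈ W, ρ a v ∈ W) (hb : ∀ v ∈ W, ρ b v ∈ W) (h : a * b = t * (b * a)) : ∀ v ∈ W, ρ t v = v := by
  intro v hv
  by_cases hv0 : v = 0
  · rw [hv0, map_zero]
  -- every element of `W` is a multiple of `v`
  have hmul : ∀ w ∈ W, ∃ c : ℂ, w = c • v := by
    intro w hw
    have h1 : (⟨v, hv⟩ : W) ≠ 0 := fun h0 => hv0 (congrArg Subtype.val h0)
    have h2 : finrank ℂ W = 1 := by
      apply le_antisymm hW
      rw [Nat.one_le_iff_ne_zero]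
      intro h0
      have h00 := Submodule.finrank_eq_zero.1 h0
      rw [h00, Submodule.mem_bot] at hv
      exact hv0 hv
    obtain ⟨c, hc⟩ := (finrank_eq_one_iff_of_nonzero' (⟨v, hv⟩ : W) h1).1 h2 ⟨w, hw⟩
    exact ⟨c, (congrArg Subtype.val hc).symm⟩
  obtain ⟨α, hα⟩ := hmul _ (ha v hv)
  obtain ⟨β, hβ⟩ := hmul _ (hb v hv)
  have h1 : ρ (a * b) v = (α * β) • v := by
    rw [map_mul, Module.End.mul_apply, hβ, map_smul, hα, smul_smul, mul_comm]
  have h2 : ρ (b * a) v = (α * β) • v := by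
    rw [map_mul, Module.End.mul_apply, hα, map_smul, hβ, smul_smul]
  have h3 : ρ (a * b) v = ρ t (ρ (b * a) v) := by rw [h, map_mul]; rfl
  rw [h1, h2, map_smul] at h3
  have h4 : α * β ≠ 0 := by
    intro h0
    rw [h0, zero_smul] at h2
    apply hv0
    rw [← r_inv ρ (b * a) v, h2, map_zero]
  exact (smul_right_injective V h4 h3).symm

variable {F M : Type*} [Field F] [AddCommGroup M] [Module F M] [Fintype F] [Fintype M] [FiniteDimensional F M]
variable {Q : QuadraticForm F M} [Nice Q]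

/-- a singular vector orthogonal to `p`, `x` outside of their span -/
theorem exists_sing_off (Q : QuadraticForm F M) [Nice Q] (p x : M) :
    ∃ s, Q s = 0 ∧ polar Q p s = 0 ∧ polar Q x s = 0 ∧ s ∉ Submodule.span F {p, x} := by
  classical
  have hd : 7 ≤ finrank F M := Nice.dim (Q := Q)
  set L := Submodule.span F {p, x} with hL
  have h2 : finrank F L ≤ 2 := by
    have h3 : finrank F (Submodule.span F ((({p, x} : Finset M) : Set M))) ≤ ({p, x} : Finset M).card :=
      finrank_span_finset_le_card _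
    have h4 : (({p, x} : Finset M) : Set M) = {p, x} := by simp
    rw [h4] at h3
    exact h3.trans Finset.card_le_two
  obtain ⟨C, hC⟩ := Submodule.exists_isCompl L
  have hCfin : finrank F L + finrank F C = finrank F M := Submodule.finrank_add_eq_of_isCompl hC
  have hP := finrank_perp (nd Q) L
  have hPC : 3 ≤ finrank F ↥(perp Q L ⊓ C) := by
    have h1 := Submodule.finrank_sup_add_finrank_inf_eq (perp Q L) C
    have h2 := Submodule.finrank_le (perp Q L ⊔ C)
    omega
  obtain ⟨s, hs, hs0, hsq⟩ := GeoMax.Ort.exists_sing_mem Q _ hPC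
  refine ⟨s, hsq, hs.1 p (Submodule.subset_span (by simp)), hs.1 x (Submodule.subset_span (by simp)), fun h => ?_⟩
  apply hs0
  have := hC.disjoint
  rw [Submodule.disjoint_def] at this
  exact this _ h hs.2

theorem exists_partner3 {p u w : M} (hw : Q w = 0) (h : w ∉ Submodule.span F {p, u}) (hpw : polar Q p w = 0)
    (huw : polar Q u w = 0) : ∃ w', HP Q w w' ∧ polar Q p w' = 0 ∧ polar Q u w' = 0 := by
  obtain ⟨b, hb, hb1⟩ := exists_ortho_not (nd Q) _ h
  have h1 : polar Q p b = 0 := by rw [pc]; exact hb p (Submodule.subset_span (by simp))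
  have h2 : polar Q u b = 0 := by rw [pc]; exact hb u (Submodule.subset_span (by simp))
  refine ⟨b - Q b • w, ⟨hw, ?_, ?_⟩, ?_, ?_⟩
  · rw [qsub, qsmul, psr, hw, hb1]; ring
  · rw [pdr, psr, polar_self_of hw, pc, hb1]; ring
  · rw [pdr, psr, h1, hpw]; ring
  · rw [pdr, psr, h2, huw]; ring

variable {V : Type*} [AddCommGroup V] [Module ℂ V] {ρ : Representation ℂ (Gr Q) V} {ψ : AddChar F ℂ}

theorem pres_of_fix {p u : M} (hp : Q p = 0) {a : Gr Q} (h1 : ac a p = p) (h2 : ac a u = u) :
    ∀ v ∈ Wt ρ ψ p u, ρ a v ∈ Wt ρ ψ p u := by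
  intro v hv
  have := (Wt_conj (ψ := ψ) (u := u) hp a).2 hv
  rwa [h1, h2] at this

variable [FiniteDimensional ℂ V]

/-- (A') -/
theorem fixA (hβ : ∃ β : F, β ≠ 0 ∧ β * β ≠ 1) {p u w y : M} (hW : finrank ℂ (Wt ρ ψ p u) ≤ 1) (hp : Q p = 0)
    (hw : Q w = 0) (hwi : w ∉ Submodule.span F {p, u}) (hpw : polar Q p w = 0) (huw : polar Q u w = 0)
    (hyp : polar Q p y = 0) (hyu : polar Q u y = 0) (hyw : polar Q w y = 0) :
    ∀ v ∈ Wt ρ ψ p u, ρ (E Q w y) v = v := by
  obtain ⟨β, hβ0, hβ1⟩ := hβ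
  obtain ⟨w', hww, hpw', huw'⟩ := exists_partner3 hw hwi hpw huw
  obtain ⟨g, hgw, hg⟩ := exists_torus hww hβ0
  set y' := y - polar Q y w' • w with hy'
  have hwy' : polar Q w y' = 0 := by rw [hy', pdr, psr, hyw, polar_self_of hw]; ring
  have hpy' : polar Q p y' = 0 := by rw [hy', pdr, psr, hyp, hpw]; ring
  have huy' : polar Q u y' = 0 := by rw [hy', pdr, psr, hyu, huw]; ring
  have hEy : E Q w y' = E Q w y := by
    have h1 := E_add_self (x := y) hw hyw (-(polar Q y w'))
    rw [← h1, hy', neg_smul, sub_eq_add_neg]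
  have hgy : ac g y' = y' := by
    apply hg
    · rw [pc, hwy']
    · rw [hy', pdl, psl, hww.px]; ring
  have hβ2 : β * β - 1 ≠ 0 := sub_ne_zero.2 hβ1
  set γ := (β * β - 1)⁻¹ with hγ
  have hwγ : polar Q w (γ • y') = 0 := by rw [psr, hwy', mul_zero]
  have hwγ' : polar Q w ((β * β) • γ • y') = 0 := by rw [psr, psr, hwy', mul_zero, mul_zero]
  rw [← hEy]
  refine core ρ hW (a := g) (b := E Q w (γ • y')) ?_ ?_ ?_
  · exact pres_of_fix hp (hg p hpw hpw') (hg u huw huw')
  · apply pres_of_fix hp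
    · exact E_fix hw hwγ hpw (by rw [psr, hpy', mul_zero])
    · exact E_fix hw hwγ huw (by rw [psr, huy', mul_zero])
  · rw [E_conj hw hwγ, hgw, ac_smul, hgy, E_smul _ hwγ hw, ← mul_assoc]
    congr 1
    rw [← E_add hwy' hwγ]
    congr 1
    rw [smul_smul]
    have h3 : β * β * γ = 1 + γ := by
      have h4 : (β * β - 1) * γ = 1 := mul_inv_cancel₀ hβ2
      linear_combination h4
    rw [h3, add_smul, one_smul]

/-- the Eichler elements of the stabilizer of a weight act trivially -/
def FixA (ρ : Representation ℂ (Gr Q) V) (ψ : AddChar F ℂ) : Prop :=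
  ∀ p u w y : M, SP Q p u → Q w = 0 → w ∉ Submodule.span F {p, u} → polar Q p w = 0 → polar Q u w = 0 →
    polar Q p y = 0 → polar Q u y = 0 → polar Q w y = 0 → ∀ v ∈ Wt ρ ψ p u, ρ (E Q w y) v = v

theorem span_pair_le {p x a : M} : a ∈ Submodule.span F {p, x} ↔ ∃ c d : F, c • p + d • x = a := Submodule.mem_span_pair

/-- (A'') -/
theorem fixB (hfix : FixA ρ ψ) {p x y : M} (h : SP Q p x) {b : F} (hb : b ≠ 0)
    (hbs : SP Q p (b • x)) (hyp : polar Q p y = 0) (hyx : polar Q x y = 0) :
    ∀ v ∈ Wt ρ ψ p (b • x), ρ (E Q x y) v = v := by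
  have hbx : ∀ z, polar Q x z = 0 → polar Q (b • x) z = 0 := fun z hz => by rw [psl, hz, mul_zero]
  -- singular vectors
  have key : ∀ y, Q y = 0 → polar Q p y = 0 → polar Q x y = 0 → ∀ v ∈ Wt ρ ψ p (b • x), ρ (E Q x y) v = v := by
    intro y hy hpy hxy v hv
    rw [E_swap h.qx hy hxy]
    by_cases hys : y ∈ Submodule.span F {p, b • x}
    · obtain ⟨c, d, rfl⟩ := Submodule.mem_span_pair.1 hys
      have h1 : E Q (c • p + d • b • x) (-x) = E Q p (-(c • x)) := by
        rw [← E_swap h.qx hy hxy, smul_smul, E_add_self h.qx (by rw [psr, pc, h.px, mul_zero]),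
          E_swap h.qx (by rw [qsmul, h.qp, mul_zero]) (by rw [psr, pc, h.px, mul_zero]),
          E_smul c (by rw [polar_neg_right, h.px, neg_zero]) h.qp, smul_neg]
      rw [h1, mem_Wt.1 hv _ (by rw [polar_neg_right, psr, h.px, mul_zero, neg_zero]), polar_neg_right, psl, psr,
        polar_self_of h.qx, mul_zero, mul_zero, neg_zero, AddChar.map_zero_eq_one, one_smul]
    · refine hfix _ _ _ _ hbs hy hys hpy (hbx y hxy) ?_ ?_ ?_ v hv
      · rw [polar_neg_right, h.px, neg_zero]
      · rw [polar_neg_right, psl, polar_self_of h.qx, mul_zero, neg_zero]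
      · rw [polar_neg_right, pc, hxy, neg_zero]
  obtain ⟨s, hsq, hps, hxs, hs⟩ := exists_sing_off Q p x
  -- vectors not orthogonal to `s`
  have key2 : ∀ y, polar Q y s ≠ 0 → polar Q p y = 0 → polar Q x y = 0 →
      ∀ v ∈ Wt ρ ψ p (b • x), ρ (E Q x y) v = v := by
    intro y hys hpy hxy v hv
    set c := Q y / polar Q y s with hc
    have e1 : Q (y - c • s) = 0 := by
      rw [qsub, qsmul, psr, hsq, hc]; field_simp; ring
    have e2 : polar Q x (y - c • s) = 0 := by rw [pdr, psr, hxy, hxs]; ring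
    have e3 : polar Q p (y - c • s) = 0 := by rw [pdr, psr, hpy, hps]; ring
    have e4 : E Q x y = E Q x (y - c • s) * E Q x (c • s) := by
      rw [← E_add e2 (by rw [psr, hxs, mul_zero]), sub_add_cancel]
    rw [e4, map_mul, Module.End.mul_apply, key (c • s) (by rw [qsmul, hsq, mul_zero]) (by rw [psr, hps, mul_zero])
      (by rw [psr, hxs, mul_zero]) v hv, key _ e1 e3 e2 v hv]
  intro v hv
  by_cases hys : polar Q y s = 0
  · obtain ⟨z, hz, hzs⟩ := exists_ortho_not (nd Q) _ hs
    have hpz : polar Q p z = 0 := by rw [pc]; exact hz p (Submodule.subset_span (by simp))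
    have hxz : polar Q x z = 0 := by rw [pc]; exact hz x (Submodule.subset_span (by simp))
    have e4 : E Q x y = E Q x (y + z) * E Q x (-z) := by
      rw [← E_add (by rw [par, hyx, hxz, add_zero]) (by rw [polar_neg_right, hxz, neg_zero])]
      congr 1
      abel
    rw [e4, map_mul, Module.End.mul_apply,
      key2 (-z) (by rw [polar_neg_left, hzs]; exact neg_ne_zero.2 one_ne_zero) (by rw [polar_neg_right, hpz, neg_zero])
        (by rw [polar_neg_right, hxz, neg_zero]) v hv,
      key2 (y + z) (by rw [pal, hys, hzs, zero_add]; exact one_ne_zero) (by rw [par, hyp, hpz, add_zero])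
        (by rw [par, hyx, hxz, add_zero]) v hv]
  · exact key2 y hys hyp hyx v hv

end Cfsg.Agent.LSO
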