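import Cfsg.Agent.LSO.Count

/-!
Traces of products of projections.
-/

set_option autoImplicit false
set_option linter.unusedSectionVars false
set_option linter.style.haveILetI false

namespace Cfsg.Agent.LSO

open QuadraticMap Module Cfsg.Agent.H39 Cfsg.Agent.LSU
open Cfsg.Agent.Orth hiding map_mul
open Cfsg.Agent.LSSL (fixS mem_fixS avg avg_mem avg_of_fix isProj_avg avg_mul_of_mem mul_avg_of_mem avg_comm avg_comm_op
  mem_fixS_closure PP PP_mem PP_of_mem cardA_ne)
open scoped Classical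

variable {F M : Type*} [Field F] [AddCommGroup M] [Module F M] [Fintype F] [Fintype M] [FiniteDimensional F M]
variable {Q : QuadraticForm F M} [Nice Q]
variable {V : Type*} [AddCommGroup V] [Module ℂ V] {ρ : Representation ℂ (Gr Q) V} {ψ : AddChar F ℂ}
variable {p x : M}

theorem pj_mul_Pr_of_not (hψ : ψ ≠ 0) (h : SP Q p x) {u : M} (hu : polar Q p u ≠ 0) :
    pj ρ p * Pr ρ ψ x u = 0 := by
  obtain ⟨c, hc⟩ := exists_psi_ne hψ
  set d := c * (polar Q p u)⁻¹ with hd
  have h1 : polar Q x (d • p) = 0 := by rw [psr, pc Q x p, h.px, mul_zero]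
  have h2 : polar Q p (-(d • x)) = 0 := by rw [polar_neg_right, psr, h.px]; simp
  have h3 : E Q x (d • p) = E Q p (-(d • x)) := by
    rw [E_swap h.qx (by rw [qsmul, h.qp, mul_zero]) h1, E_smul d (by rw [polar_neg_right, h.px, neg_zero]) h.qp, smul_neg]
  have h4 : pj ρ p * (ρ (E Q x (d • p)) * Pr ρ ψ x u) = pj ρ p * Pr ρ ψ x u := by
    rw [← mul_assoc, h3, pj_mul_E h2]
  rw [E_mul_Pr u h1, psr, pc Q u p, hd, mul_assoc, inv_mul_cancel₀ hu, mul_one, mul_smul_comm] at h4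
  have h5 : (ψ c - 1) • (pj ρ p * Pr ρ ψ x u) = 0 := by rw [sub_smul, one_smul, h4, sub_self]
  exact (smul_eq_zero.1 h5).resolve_left (sub_ne_zero.2 hc)

theorem sum_Pr_line (hψ : ψ ≠ 0) (p x : M) : ∑ b : F, Pr ρ ψ p (b • x) =
    (Fintype.card (Hy Q p) : ℂ)⁻¹ • ∑ y : Hy Q p, (if polar Q x y = 0 then (Fintype.card F : ℂ) else 0) • ρ (E Q p y) := by
  have h1 : ∀ u : M, Pr ρ ψ p u = (Fintype.card (Hy Q p) : ℂ)⁻¹ • ∑ y : Hy Q p, ψ (polar Q u (-(y : M))) • ρ (E Q p y) :=
    fun u => rfl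
  simp only [h1]
  rw [← Finset.smul_sum, Finset.sum_comm]
  congr 1
  refine Finset.sum_congr rfl fun y _ => ?_
  rw [← Finset.sum_smul]
  congr 1
  rw [← sum_char_F hψ, ← Equiv.sum_comp (Equiv.neg F)]
  refine Finset.sum_congr rfl fun b _ => ?_
  rw [Equiv.neg_apply, psl, polar_neg_right]
  congr 1
  ring

theorem notMem_of {u : M} (h : SP Q p x) (hu : u ∉ LL F p x) : p ∉ Submodule.span F {x, u} := by
  intro h1
  obtain ⟨a, b, hab⟩ := Submodule.mem_span_pair.1 h1
  by_cases hb : b = 0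
  · apply h.symm.ind
    rw [Submodule.mem_span_singleton]
    exact ⟨a, by rw [← hab, hb, zero_smul, add_zero]⟩
  · apply hu
    rw [mem_LL]
    refine ⟨b⁻¹, -b⁻¹ * a, ?_⟩
    rw [← hab]
    have h5 : b⁻¹ * b = 1 := inv_mul_cancel₀ hb
    rw [smul_add, smul_smul, smul_smul, h5]
    module

variable [FiniteDimensional ℂ V]

theorem trace_E_Pr (H : Hyp ρ ψ) (h : SP Q p x) {u y : M} (hu : Zp Q p x u) (hp : polar Q p y = 0)
    (hx : polar Q x y = 0) : LinearMap.trace ℂ V (ρ (E Q p y) * Pr ρ ψ x u) = if polar Q u y = 0 then 1 else 0 := by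
  have hSP : SP Q x u := hu.sp_right h.symm.p0 h.qx
  have hpu : polar Q p u = 0 := hu.2.1
  split_ifs with hy
  · have h1 : ρ (E Q p y) * Pr ρ ψ x u = Pr ρ ψ x u := by
      ext v
      exact H.fix x u p y hSP h.qp (notMem_of h hu.2.2.2) (by rw [pc, h.px]) (by rw [pc, hpu]) hx hy hp
        _ (Pr_mem x u v)
    rw [h1, trace_Pr, H.one x u hSP]
    simp
  · refine trace_mul_Pr_of_map H.hψ (u' := u + polar Q u y • p) ?_ ?_
    · intro h1
      have h2 : u - (u + polar Q u y • p) = (-(polar Q u y)) • p := by module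
      rw [h2] at h1
      apply h.symm.ind
      have := Submodule.smul_mem _ (-(polar Q u y))⁻¹ h1
      rwa [smul_smul, inv_mul_cancel₀ (neg_ne_zero.2 hy), one_smul] at this
    · intro v hv
      have h1 := (Wt_conj (ρ := ρ) (ψ := ψ) (u := u) h.qx (E Q p y)).2 hv
      rw [ac_E h.qp hp, ac_E h.qp hp, hx, pc Q x p, h.px, pc Q u p, hpu] at h1
      have e1 : x + (0 : F) • p - (0 : F) • y - (Q y * 0) • p = x := by module
      have e2 : u + polar Q u y • p - (0 : F) • y - (Q y * 0) • p = u + polar Q u y • p := by module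
      rwa [e1, e2] at h1

/-- sum over the line -/
theorem sum_trace (H : Hyp ρ ψ) (h : SP Q p x) {u : M} (hu : Zp Q p x u) :
    ∑ b : F, LinearMap.trace ℂ V (Pr ρ ψ p (b • x) * Pr ρ ψ x u) = (Fintype.card F : ℂ)⁻¹ := by
  rw [← map_sum, ← Finset.sum_mul, sum_Pr_line H.hψ, smul_mul_assoc, map_smul, Finset.sum_mul, map_sum]
  have h1 : ∀ y : Hy Q p, LinearMap.trace ℂ V (((if polar Q x y = 0 then (Fintype.card F : ℂ) else 0) • ρ (E Q p y)) *
      Pr ρ ψ x u) = if polar Q x y = 0 ∧ polar Q u y = 0 then (Fintype.card F : ℂ) else 0 := by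
    intro y
    rw [smul_mul_assoc, map_smul]
    by_cases hy : polar Q x y = 0
    · rw [if_pos hy, trace_E_Pr H h hu y.2 hy]
      by_cases hy' : polar Q u y = 0
      · rw [if_pos hy', if_pos ⟨hy, hy'⟩, smul_eq_mul, mul_one]
      · rw [if_neg hy', if_neg (fun h => hy' h.2), smul_zero]
    · rw [if_neg hy, if_neg (fun h => hy h.1), zero_smul]
  rw [Finset.sum_congr rfl fun y _ => h1 y, sum_ite_card]
  have h2 : Nat.card {y : Hy Q p // polar Q x y = 0 ∧ polar Q u y = 0} =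
      Nat.card {y : M // polar Q p y = 0 ∧ polar Q x y = 0 ∧ polar Q u y = 0} :=
    Nat.card_congr
      { toFun := fun y => ⟨y.1.1, y.1.2, y.2.1, y.2.2⟩
        invFun := fun y => ⟨⟨y.1, y.2.1⟩, y.2.2.1, y.2.2.2⟩
        left_inv := fun _ => rfl
        right_inv := fun _ => rfl }
  have h3 := card_perp3 (Q := Q) h.li hu.2.2.2
  rw [← h2, ← card_Hy Q h.p0] at h3
  have hq := cardF_ne F
  have hA := cardA_ne (Hy Q p)
  have h4 : ((Nat.card {y : Hy Q p // polar Q x y = 0 ∧ polar Q u y = 0} * Fintype.card F ^ 3 : ℕ) : ℂ) =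
      ((Fintype.card (Hy Q p) * Fintype.card F : ℕ) : ℂ) := by rw [h3]
  push_cast at h4
  have h5 : (Nat.card {y : Hy Q p // polar Q x y = 0 ∧ polar Q u y = 0} : ℂ) * (Fintype.card F : ℂ) ^ 2 =
      Fintype.card (Hy Q p) := by
    apply mul_right_cancel₀ hq
    rw [← h4]; ring
  rw [smul_eq_mul, ← h5]
  have hN : (Nat.card {y : Hy Q p // polar Q x y = 0 ∧ polar Q u y = 0} : ℂ) ≠ 0 := by
    intro h0
    rw [h0, zero_mul] at h5
    exact hA h5.symm
  field_simp

/-- (KF) -/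
theorem trace_pj_Pr (H : Hyp ρ ψ) (h : SP Q p x) {u : M} (hu : Zp Q p x u) :
    LinearMap.trace ℂ V (pj ρ p * Pr ρ ψ x u) = (Fintype.card F : ℂ)⁻¹ := by
  rw [← sum_trace H h hu, Finset.sum_eq_single (0 : F)]
  · rw [zero_smul, Pr_zero]
  · intro b _ hb
    have hi : SP Q p (b • x) := h.smul hb
    have h1 := pE_mul_Pr_of_mem H h (left_mem p x) (Submodule.smul_mem _ b (right_mem p x)) hi
    rw [LinearMap.trace_mul_comm, ← h1, ← mul_assoc, Pr_mul_pE_of_not ρ H.hψ h (right_mem p x) hu.2.2.2, zero_mul, map_zero]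
  · intro h; exact absurd (Finset.mem_univ _) h

theorem mem_line_iff {u : M} : u ∈ Submodule.span F {x} ↔ ∃ c : F, c • x = u := Submodule.mem_span_singleton

theorem Pr_of_line {u : M} (hu : u ∈ Submodule.span F {x}) : Pr ρ ψ x u = pj ρ x := by
  obtain ⟨c, rfl⟩ := Submodule.mem_span_singleton.1 hu
  exact Pr_self x c

/-- `Pr` vanishes or is of rank one -/
theorem trace_pj_Pr_of_not (H : Hyp ρ ψ) (h : SP Q p x) {u : M} (hu : u ∉ LL F p x) :
    LinearMap.trace ℂ V (pj ρ p * Pr ρ ψ x u) = if Zp Q p x u then (Fintype.card F : ℂ)⁻¹ else 0 := by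
  split_ifs with hz
  · exact trace_pj_Pr H h hz
  · by_cases h1 : polar Q x u = 0
    · by_cases h2 : polar Q p u = 0
      · have h3 : Q u ≠ 0 := fun h3 => hz ⟨h3, h2, h1, hu⟩
        rw [(Pr_eq_zero_iff x u).2 (H.zero x u h.symm.p0 h.qx h1 h3), mul_zero, map_zero]
      · rw [pj_mul_Pr_of_not H.hψ h h2, map_zero]
    · rw [Pr_of_not_ortho H.hψ h.qx (by rw [pc]; exact h1), mul_zero, map_zero]

/-- (I1) -/
theorem trace_I1 (H : Hyp ρ ψ) (h : SP Q p x) :
    (Fintype.card F : ℂ) ^ 2 * (LinearMap.trace ℂ V (pj ρ p) - LinearMap.trace ℂ V (pE ρ (LL F p x) * pj ρ p)) =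
      Nat.card {u // Zp Q p x u} := by
  have hq := cardF_ne F
  have h1 := trace_sum (ρ := ρ) H.hψ h.symm.p0 (pj ρ p)
  have h2 := trace_sum (ρ := ρ) H.hψ h.symm.p0 (pE ρ (LL F p x) * pj ρ p)
  have h3 : ∀ u, LinearMap.trace ℂ V (pj ρ p * Pr ρ ψ x u) -
      LinearMap.trace ℂ V (pE ρ (LL F p x) * pj ρ p * Pr ρ ψ x u) =
      if Zp Q p x u then (Fintype.card F : ℂ)⁻¹ else 0 := by
    intro u
    by_cases hu : u ∈ LL F p x
    · rw [if_neg (fun hz => hz.2.2.2 hu)]
      by_cases hu' : u ∈ Submodule.span F {x}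
      · rw [Pr_of_line hu', mul_assoc, pE_mul_pj_pj ρ h, sub_self]
      · have hi : SP Q x u := h.of_mem (right_mem p x) hu h.symm.p0 hu'
        rw [pj_comm_pE ρ h (left_mem p x), mul_assoc, pE_mul_Pr_of_mem H h (right_mem p x) hu hi, sub_self]
    · rw [trace_pj_Pr_of_not H h hu, pj_comm_pE ρ h (left_mem p x), mul_assoc,
        pE_mul_Pr_of_not ρ H.hψ h (right_mem p x) hu, mul_zero, map_zero, sub_zero]
  have h4 : (Fintype.card F : ℂ) * (LinearMap.trace ℂ V (pj ρ p) - LinearMap.trace ℂ V (pE ρ (LL F p x) * pj ρ p)) =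
      (Nat.card {u // Zp Q p x u} : ℂ) * (Fintype.card F : ℂ)⁻¹ := by
    rw [mul_sub, h1, h2, ← Finset.sum_sub_distrib, Finset.sum_congr rfl fun u _ => h3 u, sum_ite_card]
  rw [pow_two, mul_assoc, h4]
  field_simp

theorem card_LL_diff (h : SP Q p x) :
    Nat.card {u : M // u ∈ LL F p x ∧ u ∉ Submodule.span F {x}} + Fintype.card F = Fintype.card F ^ 2 := by
  have h5 := card_split (fun u : M => u ∈ LL F p x) (fun u => u ∈ Submodule.span F {x})
  have h6 : Nat.card {u : M // u ∈ LL F p x ∧ u ∈ Submodule.span F {x}} = Nat.card {u : M // u ∈ Submodule.span F {x}} := by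
    apply card_congr_iff
    intro u
    exact ⟨fun h => h.2, fun h => ⟨Submodule.span_mono (by simp) h, h⟩⟩
  have h7 : Nat.card {u : M // u ∈ LL F p x ∧ ¬ u ∈ Submodule.span F {x}} =
    Nat.card {u : M // u ∈ LL F p x ∧ u ∉ Submodule.span F {x}} := rfl
  rw [card_LL h, h6, h7, card_line x h.symm.p0] at h5
  omega

/-- (I2) -/
theorem trace_I2 (H : Hyp ρ ψ) (h : SP Q p x) :
    LinearMap.trace ℂ V (pE ρ (LL F p x)) = LinearMap.trace ℂ V (pE ρ (LL F p x) * pj ρ x) + ((Fintype.card F : ℂ) - 1) := by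
  have hq := cardF_ne F
  have h1 := trace_sum (ρ := ρ) H.hψ h.symm.p0 (pE ρ (LL F p x))
  have h3 : ∀ u, LinearMap.trace ℂ V (pE ρ (LL F p x) * Pr ρ ψ x u) =
      (if u ∈ Submodule.span F {x} then LinearMap.trace ℂ V (pE ρ (LL F p x) * pj ρ x) else 0) +
      (if u ∈ LL F p x ∧ u ∉ Submodule.span F {x} then 1 else 0) := by
    intro u
    by_cases hu' : u ∈ Submodule.span F {x}
    · rw [Pr_of_line hu', if_pos hu', if_neg (fun h => h.2 hu'), add_zero]
    · rw [if_neg hu', zero_add]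
      by_cases hu : u ∈ LL F p x
      · have hi : SP Q x u := h.of_mem (right_mem p x) hu h.symm.p0 hu'
        rw [if_pos ⟨hu, hu'⟩, pE_mul_Pr_of_mem H h (right_mem p x) hu hi, trace_Pr, H.one x u hi]
        simp
      · rw [if_neg (fun h => hu h.1), pE_mul_Pr_of_not ρ H.hψ h (right_mem p x) hu, map_zero]
  rw [Finset.sum_congr rfl fun u _ => h3 u, Finset.sum_add_distrib, sum_ite_card, sum_ite_card,
    card_line x h.symm.p0, mul_one] at h1
  have h4 := card_LL_diff h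
  have h5 : ((Nat.card {u : M // u ∈ LL F p x ∧ u ∉ Submodule.span F {x}} + Fintype.card F : ℕ) : ℂ) =
      ((Fintype.card F ^ 2 : ℕ) : ℂ) := by rw [h4]
  push_cast at h5
  apply mul_left_cancel₀ hq
  rw [h1]
  linear_combination h5

/-- (I6) -/
theorem trace_I6 (H : Hyp ρ ψ) (h : SP Q p x) {y : M} (hxy : polar Q x y = 0) (hpy : polar Q p y ≠ 0) :
    LinearMap.trace ℂ V (pj ρ p * ∑ c : F, ρ (E Q x (c • y))) =
      (Fintype.card F : ℂ) * LinearMap.trace ℂ V (pj ρ p * pj ρ x) +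
      (Nat.card {u // Zp Q p x u} : ℂ) * ((Fintype.card F : ℂ) ^ 2)⁻¹ := by
  have hq := cardF_ne F
  rw [sum_E H.hψ h.symm.p0 hxy, Finset.mul_sum, map_sum]
  have h3 : ∀ u, LinearMap.trace ℂ V (pj ρ p * if polar Q u y = 0 then Pr ρ ψ x u else 0) =
      (if u ∈ Submodule.span F {x} then LinearMap.trace ℂ V (pj ρ p * pj ρ x) else 0) +
      (if Zp Q p x u ∧ polar Q u y = 0 then (Fintype.card F : ℂ)⁻¹ else 0) := by
    intro u
    by_cases hu' : u ∈ Submodule.span F {x}
    · have h0 : polar Q u y = 0 := by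
        obtain ⟨c, rfl⟩ := Submodule.mem_span_singleton.1 hu'
        rw [psl, hxy, mul_zero]
      rw [Pr_of_line hu', if_pos h0, if_pos hu', if_neg (fun h => h.1.2.2.2 (Submodule.span_mono (by simp) hu')), add_zero]
    · rw [if_neg hu', zero_add]
      by_cases hu : u ∈ LL F p x
      · have h0 : polar Q u y ≠ 0 := by
          obtain ⟨c, d, rfl⟩ := mem_LL.1 hu
          rw [pal, psl, psl, hxy, mul_zero, add_zero]
          refine mul_ne_zero ?_ hpy
          rintro rfl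
          apply hu'
          rw [zero_smul, zero_add]
          exact Submodule.smul_mem _ _ (Submodule.mem_span_singleton_self x)
        rw [if_neg h0, mul_zero, map_zero, if_neg (fun h => h0 h.2)]
      · by_cases h0 : polar Q u y = 0
        · rw [if_pos h0, trace_pj_Pr_of_not H h hu]
          by_cases hz : Zp Q p x u
          · rw [if_pos hz, if_pos ⟨hz, h0⟩]
          · rw [if_neg hz, if_neg (fun h => hz h.1)]
        · rw [if_neg h0, mul_zero, map_zero, if_neg (fun h => h0 h.2)]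
  rw [Finset.sum_congr rfl fun u _ => h3 u, Finset.sum_add_distrib, sum_ite_card, sum_ite_card,
    card_line x h.symm.p0]
  have h4 : (Nat.card {u // Zp Q p x u} : ℂ) = ((Fintype.card F * Nat.card {u // Zp Q p x u ∧ polar Q u y = 0} : ℕ) : ℂ) := by
    rw [← card_Zp_ortho h hpy]
  rw [h4]
  push_cast
  field_simp

end Cfsg.Agent.LSO
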