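import Cfsg.Agent.LSO.Lin

/-!
Transitivity of the commutator subgroup of an orthogonal group.
-/

set_option autoImplicit false
set_option linter.unusedSectionVars false

namespace Cfsg.Agent.LSO

open QuadraticMap Module Cfsg.Agent.Orth

variable {F M : Type*} [Field F] [AddCommGroup M] [Module F M]
variable {Q : QuadraticForm F M} [Finite F] [FiniteDimensional F M] [Nice Q]

theorem omega_witt {n : ℕ} (u w : Fin n → M) (hu : LinearIndependent F u) (hw : LinearIndependent F w)
    (hB : ∀ i j, polar Q (u i) (u j) = polar Q (w i) (w j)) (hq : ∀ i, Q (u i) = Q (w i))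
    (hA : ∀ c : F, c ≠ 0 → ∃ z, (∀ i, polar Q (w i) z = 0) ∧ Q z = c) : ∃ g : Gr Q, ∀ i, ac g (u i) = w i := by
  have hd : 7 ≤ finrank F M := Nice.dim (Q := Q)
  obtain ⟨g₀, hg₀⟩ := witt_family (nd Q) n u w hu hw hB hq
  have hR : RGrp Q = ⊤ := RGrp_eq_top (nd Q) (Or.inr (by omega))
  obtain ⟨l, rfl⟩ := exists_reflProd hR g₀
  obtain ⟨l', h1, h2, h3⟩ := exists_adjust (Q := Q) (A := {x | ∀ i, polar Q (w i) x = 0}) (by
    intro c hc
    obtain ⟨z, hz, hzc⟩ := hA c hc
    exact ⟨z, hz, by rw [hzc]; exact hc, by rw [hzc]; exact ⟨c, rfl⟩⟩) l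
  refine ⟨⟨reflProd Q (l' ++ l), reflProd_mem_commutator (nd Q) ?_ ?_⟩, fun i => ?_⟩
  · rw [List.length_append, add_comm, ← List.length_append]; exact h2
  · rw [nrm_append, mul_comm, ← nrm_append]; exact h3
  · change (reflProd Q (l' ++ l) : M ≃ₗ[F] M) (u i) = w i
    rw [reflProd_append, coe_mul_apply, hg₀]
    exact reflProd_fix fun x hx => h1 x hx i

theorem exists_norm2 (Q : QuadraticForm F M) [Nice Q] (a b : M) (c : F) :
    ∃ z, polar Q a z = 0 ∧ polar Q b z = 0 ∧ Q z = c := by
  obtain ⟨z, hz, h⟩ := GeoMax.Ort.repV (nd Q) [a, b] (by simpa using Nice.dim (Q := Q)) 0 c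
  refine ⟨z, ?_, ?_, hz⟩
  · rw [pc, h a (by simp), polar_zero_left]
  · rw [pc, h b (by simp), polar_zero_left]

theorem exists_pair_gen {a b a' b' : M} (h : LinearIndependent F ![a, b]) (h' : LinearIndependent F ![a', b'])
    (ha : Q a = Q a') (hb : Q b = Q b') (hab : polar Q a b = polar Q a' b') :
    ∃ g : Gr Q, ac g a = a' ∧ ac g b = b' := by
  obtain ⟨g, hg⟩ := omega_witt (Q := Q) ![a, b] ![a', b'] h h' (by
    intro i j
    fin_cases i <;> fin_cases j
    · change polar Q a a = polar Q a' a'; rw [pself, pself, ha]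
    · exact hab
    · change polar Q b a = polar Q b' a'; rw [pc, hab, pc]
    · change polar Q b b = polar Q b' b'; rw [pself, pself, hb]) (by
    intro i
    fin_cases i
    · exact ha
    · exact hb) (by
    intro c _
    obtain ⟨z, h1, h2, h3⟩ := exists_norm2 Q a' b' c
    refine ⟨z, fun i => ?_, h3⟩
    fin_cases i
    · exact h1
    · exact h2)
  exact ⟨g, hg 0, hg 1⟩

theorem exists_move {a a' : M} (h : a ≠ 0) (h' : a' ≠ 0) (ha : Q a = Q a') : ∃ g : Gr Q, ac g a = a' := by
  obtain ⟨g, hg⟩ := omega_witt (Q := Q) ![a] ![a'] (by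
      rw [linearIndependent_unique_iff]; exact h) (by
      rw [linearIndependent_unique_iff]; exact h') (by
    intro i j
    fin_cases i; fin_cases j
    change polar Q a a = polar Q a' a'; rw [pself, pself, ha]) (by
    intro i
    fin_cases i
    exact ha) (by
    intro c _
    obtain ⟨z, h1, h2, h3⟩ := exists_norm2 Q a' a' c
    refine ⟨z, fun i => ?_, h3⟩
    fin_cases i
    exact h1)
  exact ⟨g, hg 0⟩

/-- independent pair of orthogonal singular vectors -/
structure SP (Q : QuadraticForm F M) (p x : M) : Prop where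
  p0 : p ≠ 0
  ind : x ∉ Submodule.span F {p}
  qp : Q p = 0
  qx : Q x = 0
  px : polar Q p x = 0

theorem li_pair {p x : M} (h : p ≠ 0) (h' : x ∉ Submodule.span F {p}) : LinearIndependent F ![p, x] := by
  rw [LinearIndependent.pair_iff' h]
  intro a ha
  exact h' (Submodule.mem_span_singleton.2 ⟨a, ha⟩)

theorem SP.li {p x : M} (h : SP Q p x) : LinearIndependent F ![p, x] := li_pair h.p0 h.ind

theorem ind_symm {p x : M} (h : p ≠ 0) (h' : x ∉ Submodule.span F {p}) : x ≠ 0 ∧ p ∉ Submodule.span F {x} := by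
  refine ⟨fun h0 => h' (by rw [h0]; exact zero_mem _), fun h1 => ?_⟩
  obtain ⟨c, hc⟩ := Submodule.mem_span_singleton.1 h1
  have hc0 : c ≠ 0 := by
    rintro rfl
    rw [zero_smul] at hc
    exact h hc.symm
  apply h'
  rw [Submodule.mem_span_singleton]
  exact ⟨c⁻¹, by rw [← hc, smul_smul, inv_mul_cancel₀ hc0, one_smul]⟩

theorem SP.symm {p x : M} (h : SP Q p x) : SP Q x p :=
  ⟨(ind_symm h.p0 h.ind).1, (ind_symm h.p0 h.ind).2, h.qx, h.qp, by rw [pc, h.px]⟩

theorem SP.ac {p x : M} (h : SP Q p x) (g : Gr Q) : SP Q (ac g p) (ac g x) :=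
  ⟨ac_ne_zero g h.p0, fun h1 => by
    obtain ⟨c, hc⟩ := Submodule.mem_span_singleton.1 h1
    apply h.ind
    rw [Submodule.mem_span_singleton]
    exact ⟨c, ac_inj g (by rw [ac_smul, hc])⟩, by rw [ac_q, h.qp], by rw [ac_q, h.qx], by rw [ac_polar, h.px]⟩

theorem exists_pair {p x p' x' : M} (h : SP Q p x) (h' : SP Q p' x') : ∃ g : Gr Q, ac g p = p' ∧ ac g x = x' :=
  exists_pair_gen h.li h'.li (by rw [h.qp, h'.qp]) (by rw [h.qx, h'.qx]) (by rw [h.px, h'.px])

/-- hyperbolic pair -/
structure HP (Q : QuadraticForm F M) (p x : M) : Prop where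
  qp : Q p = 0
  qx : Q x = 0
  px : polar Q p x = 1

theorem HP.symm {p x : M} (h : HP Q p x) : HP Q x p := ⟨h.qx, h.qp, by rw [pc, h.px]⟩

theorem HP.p0 {p x : M} (h : HP Q p x) : p ≠ 0 := by
  rintro rfl
  have := h.px
  rw [polar_zero_left] at this
  exact zero_ne_one this

theorem HP.ind {p x : M} (h : HP Q p x) : x ∉ Submodule.span F {p} := by
  intro h1
  obtain ⟨c, hc⟩ := Submodule.mem_span_singleton.1 h1
  have := h.px
  rw [← hc, psr, polar_self_of h.qp, mul_zero] at this
  exact zero_ne_one this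

theorem HP.li {p x : M} (h : HP Q p x) : LinearIndependent F ![p, x] := li_pair h.p0 h.ind

theorem exists_hp {p x p' x' : M} (h : HP Q p x) (h' : HP Q p' x') : ∃ g : Gr Q, ac g p = p' ∧ ac g x = x' :=
  exists_pair_gen h.li h'.li (by rw [h.qp, h'.qp]) (by rw [h.qx, h'.qx]) (by rw [h.px, h'.px])

theorem exists_triple {p x u p' x' u' : M} (h : HP Q p x) (hu0 : u ≠ 0) (hu : Q u = 0) (hpu : polar Q p u = 0)
    (hxu : polar Q x u = 0) (h' : HP Q p' x') (hu0' : u' ≠ 0) (hu' : Q u' = 0) (hpu' : polar Q p' u' = 0)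
    (hxu' : polar Q x' u' = 0) : ∃ g : Gr Q, ac g p = p' ∧ ac g x = x' ∧ ac g u = u' := by
  have hli : ∀ {p x u : M}, HP Q p x → u ≠ 0 → polar Q p u = 0 → polar Q x u = 0 →
      LinearIndependent F ![p, x, u] := by
    intro p x u h hu0 h1 h2
    rw [Fintype.linearIndependent_iff]
    intro c hc
    rw [Fin.sum_univ_three] at hc
    change c 0 • p + c 1 • x + c 2 • u = 0 at hc
    have e1 : c 1 = 0 := by
      have := congrArg (polar Q p) hc
      rw [par, par, psr, psr, psr, polar_self_of h.qp, h.px, h1, polar_zero_right] at this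
      simpa using this
    have e0 : c 0 = 0 := by
      have := congrArg (polar Q x) hc
      rw [par, par, psr, psr, psr, polar_self_of h.qx, pc Q x p, h.px, h2, polar_zero_right] at this
      simpa using this
    have e2 : c 2 = 0 := by
      rw [e0, e1, zero_smul, zero_smul, zero_add, zero_add] at hc
      exact (smul_eq_zero.1 hc).resolve_right hu0
    intro i
    fin_cases i
    · exact e0
    · exact e1
    · exact e2
  obtain ⟨g, hg⟩ := omega_witt (Q := Q) ![p, x, u] ![p', x', u'] (hli h hu0 hpu hxu) (hli h' hu0' hpu' hxu') (by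
    intro i j
    fin_cases i <;> fin_cases j
    · change polar Q p p = polar Q p' p'; rw [polar_self_of h.qp, polar_self_of h'.qp]
    · change polar Q p x = polar Q p' x'; rw [h.px, h'.px]
    · change polar Q p u = polar Q p' u'; rw [hpu, hpu']
    · change polar Q x p = polar Q x' p'; rw [h.symm.px, h'.symm.px]
    · change polar Q x x = polar Q x' x'; rw [polar_self_of h.qx, polar_self_of h'.qx]
    · change polar Q x u = polar Q x' u'; rw [hxu, hxu']
    · change polar Q u p = polar Q u' p'; rw [pc, hpu, pc, hpu']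
    · change polar Q u x = polar Q u' x'; rw [pc, hxu, pc, hxu']
    · change polar Q u u = polar Q u' u'; rw [polar_self_of hu, polar_self_of hu']) (by
    intro i
    fin_cases i
    · change Q p = Q p'; rw [h.qp, h'.qp]
    · change Q x = Q x'; rw [h.qx, h'.qx]
    · change Q u = Q u'; rw [hu, hu']) (by
    intro c _
    obtain ⟨z, h1, h2, h3⟩ := exists_norm2 Q p' u' c
    refine ⟨z - polar Q z x' • p', fun i => ?_, ?_⟩
    · fin_cases i
      · change polar Q p' (z - polar Q z x' • p') = 0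
        rw [pdr, psr, h1, polar_self_of h'.qp]; simp
      · change polar Q x' (z - polar Q z x' • p') = 0
        rw [pdr, psr, pc Q x' z, h'.symm.px]; simp
      · change polar Q u' (z - polar Q z x' • p') = 0
        rw [pdr, psr, h2, pc Q u' p', hpu']; simp
    · rw [qsub, qsmul, psr, h'.qp, pc Q z p', h1, h3]; ring)
  exact ⟨g, hg 0, hg 1, hg 2⟩

theorem exists_torus {w w' : M} (h : HP Q w w') {β : F} (hβ : β ≠ 0) :
    ∃ g : Gr Q, ac g w = (β * β) • w ∧ ∀ z, polar Q z w = 0 → polar Q z w' = 0 → ac g z = z := by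
  set t := hrot Q w w' β hβ h.qp h.qx h.px with ht
  have h1 : (t : M ≃ₗ[F] M) w = β • w := by
    rw [ht, hrot_apply, h.px, polar_self_of h.qp]
    module
  refine ⟨⟨t * t, mul_self_mem_commutator (nd Q) t⟩, ?_, fun z hz hz' => ?_⟩
  · change ((t * t : OGrp Q) : M ≃ₗ[F] M) w = _
    rw [coe_mul_apply, h1, map_smul, h1, smul_smul]
  · have h2 : (t : M ≃ₗ[F] M) z = z := by
      rw [ht, hrot_apply, hz, hz']
      module
    change ((t * t : OGrp Q) : M ≃ₗ[F] M) z = _
    rw [coe_mul_apply, h2, h2]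

end Cfsg.Agent.LSO
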